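import Mathlib

set_option autoImplicit false
set_option linter.unusedSectionVars false
set_option linter.unusedVariables false
set_option linter.style.haveILetI false
open scoped BigOperators

namespace Cfsg.Agent.Lib.Helper57.BSchur

section zmod

variable (p m n : ℕ) [hp : Fact p.Prime] [NeZero n] (hn : n = p ^ m) (hm : 2 ≤ m)

include hn in
theorem one_lt_n (hm : 2 ≤ m) : 1 < n := by
  rw [hn]
  exact Nat.one_lt_pow (by omega) hp.out.one_lt

include hn in
theorem p_pow_eq_zero : (p : ZMod n) ^ m = 0 := by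
  have : ((p ^ m : ℕ) : ZMod n) = 0 := by rw [← hn]; exact ZMod.natCast_self n
  rw [← this]; push_cast; rfl

include hn hm in
/-- a unit is not a multiple of `p`. -/
theorem not_unit_mul (x s : ZMod n) (hx : IsUnit x) (hxs : x = (p : ZMod n) * s) : False := by
  haveI : Fact (1 < n) := ⟨one_lt_n p m n hn hm⟩
  rw [hxs] at hx
  have h1 : IsUnit (p : ZMod n) := isUnit_of_mul_isUnit_left hx
  have h2 : IsUnit ((p : ZMod n) ^ m) := h1.pow m
  rw [p_pow_eq_zero p m n hn] at h2
  exact not_isUnit_zero h2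

include hn in
/-- dichotomy: unit or multiple of `p`. -/
theorem unit_or_mul (x : ZMod n) : IsUnit x ∨ ∃ s : ZMod n, x = (p : ZMod n) * s := by
  by_cases h : p ∣ x.val
  · right
    obtain ⟨c, hc⟩ := h
    refine ⟨(c : ZMod n), ?_⟩
    have : x = ((x.val : ℕ) : ZMod n) := (ZMod.natCast_zmod_val x).symm
    rw [this, hc]; push_cast; rfl
  · left
    have hcop : (x.val).Coprime n := by
      obtain ⟨v, hv⟩ : ∃ v, v = x.val := ⟨_, rfl⟩
      rw [← hv] at h ⊢
      rw [hn]
      exact Nat.Coprime.pow_right _ ((Nat.Prime.coprime_iff_not_dvd hp.out).2 h).symm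
    have := (ZMod.isUnit_iff_coprime x.val n).2 hcop
    rwa [ZMod.natCast_zmod_val] at this

include hn in
theorem unit_of_lt (k : ℕ) (hk0 : 0 < k) (hk : k < p) : IsUnit ((k : ℕ) : ZMod n) := by
  rw [ZMod.isUnit_iff_coprime, hn]
  apply Nat.Coprime.pow_right
  exact (Nat.coprime_of_lt_prime hk0.ne' hk hp.out).symm

/-- the subgroup of order `p`, as a finset. -/
noncomputable def P0 : Finset (ZMod n) :=
  (Finset.range p).image (fun j => ((j * p ^ (m - 1) : ℕ) : ZMod n))

theorem card_P0_le : (P0 p m n).card ≤ p := by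
  unfold P0
  exact le_trans Finset.card_image_le (by rw [Finset.card_range])

include hn in
theorem mem_P0_iff (hm : 2 ≤ m) (z : ZMod n) : z ∈ P0 p m n ↔ (p : ZMod n) * z = 0 := by
  have hpm : p ^ m = p * p ^ (m - 1) := by
    rw [← pow_succ']; congr 1; omega
  unfold P0
  rw [Finset.mem_image]
  constructor
  · rintro ⟨j, _, rfl⟩
    have : ((p * (j * p ^ (m - 1)) : ℕ) : ZMod n) = 0 := by
      rw [show p * (j * p ^ (m - 1)) = j * p ^ m by rw [hpm]; ring, ← hn]
      push_cast; rw [ZMod.natCast_self]; ring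
    rw [← this]; push_cast; rfl
  · intro h
    have h1 : ((p * z.val : ℕ) : ZMod n) = 0 := by
      push_cast; rw [ZMod.natCast_zmod_val]; exact h
    rw [ZMod.natCast_eq_zero_iff] at h1
    have hlt : z.val < n := ZMod.val_lt z
    have hzv : ((z.val : ℕ) : ZMod n) = z := ZMod.natCast_zmod_val z
    obtain ⟨v, hv⟩ : ∃ v, v = z.val := ⟨_, rfl⟩
    rw [← hv] at h1 hlt hzv
    rw [hn, hpm] at h1
    have h2 : p ^ (m - 1) ∣ v := Nat.dvd_of_mul_dvd_mul_left hp.out.pos h1
    obtain ⟨j, hj⟩ := h2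
    refine ⟨j, ?_, ?_⟩
    · rw [Finset.mem_range]
      rw [hn, hpm, hj] at hlt
      by_contra hcon
      push Not at hcon
      have : p * p ^ (m - 1) ≤ p ^ (m - 1) * j := by
        rw [mul_comm]; exact Nat.mul_le_mul_left _ hcon
      omega
    · rw [mul_comm, ← hj, hzv]

include hn in
theorem P0_inj (hm : 2 ≤ m) (i j : ℕ) (hi : i < p) (hj : j < p)
    (h : ((i * p ^ (m - 1) : ℕ) : ZMod n) = ((j * p ^ (m - 1) : ℕ) : ZMod n)) : i = j := by
  have hpm : p ^ m = p * p ^ (m - 1) := by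
    rw [← pow_succ']; congr 1; omega
  have hpos : 0 < p ^ (m - 1) := pow_pos hp.out.pos _
  have h1 : i * p ^ (m - 1) < n := by
    rw [hn, hpm]; exact Nat.mul_lt_mul_of_pos_right hi hpos
  have h2 : j * p ^ (m - 1) < n := by
    rw [hn, hpm]; exact Nat.mul_lt_mul_of_pos_right hj hpos
  have h3 := congrArg ZMod.val h
  rw [ZMod.val_natCast_of_lt h1, ZMod.val_natCast_of_lt h2] at h3
  exact Nat.eq_of_mul_eq_mul_right hpos h3

include hn in
theorem zero_mem_P0 (hm : 2 ≤ m) : (0 : ZMod n) ∈ P0 p m n := by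
  rw [mem_P0_iff p m n hn hm]; simp

include hn in
/-- elements of `P0` are multiples of `p`. -/
theorem P0_sub_pH (hm : 2 ≤ m) (z : ZMod n) (hz : z ∈ P0 p m n) :
    ∃ s : ZMod n, z = (p : ZMod n) * s := by
  unfold P0 at hz
  rw [Finset.mem_image] at hz
  obtain ⟨j, _, rfl⟩ := hz
  refine ⟨((j * p ^ (m - 2) : ℕ) : ZMod n), ?_⟩
  have : j * p ^ (m - 1) = p * (j * p ^ (m - 2)) := by
    have : p ^ (m - 1) = p * p ^ (m - 2) := by rw [← pow_succ']; congr 1; omega
    rw [this]; ring
  rw [this]; push_cast; rfl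

include hn in
/-- the element `p^(m-1)`: nonzero, in `P0`. -/
theorem z0_ne_zero (hm : 2 ≤ m) : ((p ^ (m - 1) : ℕ) : ZMod n) ≠ 0 := by
  intro h
  rw [ZMod.natCast_eq_zero_iff, hn] at h
  have h1 : p ^ m ≤ p ^ (m - 1) := Nat.le_of_dvd (pow_pos hp.out.pos _) h
  have h2 : p ^ (m - 1) < p ^ m := Nat.pow_lt_pow_right hp.out.one_lt (by omega)
  omega

include hn in
theorem p_mul_z0 (hm : 2 ≤ m) : (p : ZMod n) * ((p ^ (m - 1) : ℕ) : ZMod n) = 0 := by
  have : ((p * p ^ (m - 1) : ℕ) : ZMod n) = 0 := by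
    rw [← pow_succ', show m - 1 + 1 = m by omega, ← hn]; exact ZMod.natCast_self n
  rw [← this]; push_cast; rfl

end zmod

section abstract

variable (p m n : ℕ) [hp : Fact p.Prime] [NeZero n] (Pi : Subgroup (Equiv.Perm (ZMod n)))

/-- invariance of a finset under the group `Pi`. -/
def InvF (T : Finset (ZMod n)) : Prop := ∀ π ∈ Pi, ∀ t ∈ T, π t ∈ T

variable {n Pi}

theorem InvF.mem_iff {T : Finset (ZMod n)} (hT : InvF n Pi T) {π : Equiv.Perm (ZMod n)}
    (hπ : π ∈ Pi) (t : ZMod n) : π t ∈ T ↔ t ∈ T := by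
  constructor
  · intro h
    have h1 := hT π⁻¹ (Pi.inv_mem hπ) (π t) h
    simpa using h1
  · exact hT π hπ t

variable (n Pi)

/-- invariance of a group algebra element. -/
def InvA {R : Type*} [CommSemiring R] (x : AddMonoidAlgebra R (ZMod n)) : Prop :=
  ∀ π ∈ Pi, ∀ k, x.coeff (π k) = x.coeff k

variable {n Pi}

theorem InvA.mul {R : Type*} [CommSemiring R]
    (hshift : ∀ π ∈ Pi, ∀ a, ∃ π' ∈ Pi, ∀ b, π (a + b) = π a + π' b)
    {x y : AddMonoidAlgebra R (ZMod n)} (hx : InvA n Pi x) (hy : InvA n Pi y) :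
    InvA n Pi (x * y) := by
  intro π hπ k
  rw [AddMonoidAlgebra.coeff_mul_apply_left, AddMonoidAlgebra.coeff_mul_apply_left,
    Finsupp.sum_fintype _ _ (fun i => by rw [zero_mul]),
    Finsupp.sum_fintype _ _ (fun i => by rw [zero_mul])]
  rw [← Equiv.sum_comp π]
  apply Finset.sum_congr rfl
  intro j _
  rw [hx π hπ j]
  obtain ⟨π', hπ', h⟩ := hshift π hπ j
  have h1 : -π j + π k = π' (-j + k) := by
    have := h (-j + k)
    rw [add_neg_cancel_left] at this
    rw [this]; abel
  rw [h1, hy π' hπ']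

theorem InvA.one {R : Type*} [CommSemiring R] (h0 : ∀ π ∈ Pi, π 0 = 0) :
    InvA n Pi (1 : AddMonoidAlgebra R (ZMod n)) := by
  intro π hπ k
  rw [AddMonoidAlgebra.one_def, AddMonoidAlgebra.coeff_single, Finsupp.single_apply,
    Finsupp.single_apply]
  have : (0 = π k) ↔ (0 = k) := by
    constructor
    · intro h
      have h1 : π 0 = π k := by rw [h0 π hπ]; exact h
      exact π.injective h1
    · intro h; rw [← h, h0 π hπ]
  simp only [this]

theorem InvA.pow {R : Type*} [CommSemiring R] (h0 : ∀ π ∈ Pi, π 0 = 0)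
    (hshift : ∀ π ∈ Pi, ∀ a, ∃ π' ∈ Pi, ∀ b, π (a + b) = π a + π' b)
    {x : AddMonoidAlgebra R (ZMod n)} (hx : InvA n Pi x) (k : ℕ) : InvA n Pi (x ^ k) := by
  induction k with
  | zero => rw [pow_zero]; exact InvA.one h0
  | succ k ih => rw [pow_succ]; exact InvA.mul hshift ih hx

/-- the characteristic element of a finset. -/
noncomputable def tau (R : Type*) [CommSemiring R] (T : Finset (ZMod n)) :
    AddMonoidAlgebra R (ZMod n) :=
  ∑ t ∈ T, AddMonoidAlgebra.single t (1 : R)

theorem tau_coeff (R : Type*) [CommSemiring R] (T : Finset (ZMod n)) (k : ZMod n) :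
    (tau R T).coeff k = if k ∈ T then 1 else 0 := by
  classical
  unfold tau
  rw [AddMonoidAlgebra.coeff_sum, Finsupp.finsetSum_apply]
  simp only [AddMonoidAlgebra.coeff_single, Finsupp.single_apply]
  rw [Finset.sum_ite_eq']

theorem tau_inv (R : Type*) [CommSemiring R] {T : Finset (ZMod n)} (hT : InvF n Pi T) :
    InvA n Pi (tau R T) := by
  intro π hπ k
  rw [tau_coeff, tau_coeff]
  simp only [hT.mem_iff hπ k]

/-- Frobenius: the number of `q`-th roots inside `T`, modulo `q`, is an invariant function. -/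
theorem frob_inv (q : ℕ) [hq : Fact q.Prime] (h0 : ∀ π ∈ Pi, π 0 = 0)
    (hshift : ∀ π ∈ Pi, ∀ a, ∃ π' ∈ Pi, ∀ b, π (a + b) = π a + π' b)
    {T : Finset (ZMod n)} (hT : InvF n Pi T) (π : Equiv.Perm (ZMod n)) (hπ : π ∈ Pi)
    (y : ZMod n) :
    (((T.filter (fun t => q • t = π y)).card : ℕ) : ZMod q) =
      (((T.filter (fun t => q • t = y)).card : ℕ) : ZMod q) := by
  classical
  haveI : CharP (AddMonoidAlgebra (ZMod q) (ZMod n)) q := by
    apply charP_of_injective_ringHom (f := AddMonoidAlgebra.singleZeroRingHom) _ q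
    intro a b hab
    have h1 := congrArg (fun x : AddMonoidAlgebra (ZMod q) (ZMod n) => x.coeff 0) hab
    simpa [AddMonoidAlgebra.singleZeroRingHom] using h1
  have hpow : (tau (ZMod q) T) ^ q = ∑ t ∈ T, AddMonoidAlgebra.single (q • t) (1 : ZMod q) := by
    unfold tau
    rw [sum_pow_char]
    apply Finset.sum_congr rfl
    intro t _
    rw [AddMonoidAlgebra.single_pow, one_pow]
  have hcoeff : ∀ z : ZMod n, ((tau (ZMod q) T) ^ q).coeff z =
      (((T.filter (fun t => q • t = z)).card : ℕ) : ZMod q) := by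
    intro z
    rw [hpow, AddMonoidAlgebra.coeff_sum, Finsupp.finsetSum_apply]
    simp only [AddMonoidAlgebra.coeff_single, Finsupp.single_apply]
    rw [Finset.sum_boole]
  have hinv := InvA.pow h0 hshift (tau_inv (ZMod q) hT) q π hπ y
  rw [hcoeff, hcoeff] at hinv
  exact hinv

end abstract

section abstract2

variable (p m n : ℕ) [hp : Fact p.Prime] [NeZero n] {Pi : Subgroup (Equiv.Perm (ZMod n))}

/-- `q • T` is invariant for a prime `q` not dividing `n`. -/
theorem smul_prime_inv (q : ℕ) [hq : Fact q.Prime] (hqn : q.Coprime n)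
    (h0 : ∀ π ∈ Pi, π 0 = 0)
    (hshift : ∀ π ∈ Pi, ∀ a, ∃ π' ∈ Pi, ∀ b, π (a + b) = π a + π' b)
    {T : Finset (ZMod n)} (hT : InvF n Pi T) : InvF n Pi (T.image (fun t => q • t)) := by
  haveI : Fact (1 < q) := ⟨hq.out.one_lt⟩
  have hinj : Function.Injective (fun t : ZMod n => q • t) := by
    intro a b hab
    simp only [nsmul_eq_mul] at hab
    have hu : IsUnit ((q : ℕ) : ZMod n) := (ZMod.isUnit_iff_coprime q n).2 hqn
    exact hu.mul_left_cancel hab
  intro π hπ y hy
  rw [Finset.mem_image] at hy ⊢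
  obtain ⟨t, ht, rfl⟩ := hy
  have hc1 : (T.filter (fun t' => q • t' = q • t)).card = 1 := by
    rw [Finset.card_eq_one]
    refine ⟨t, ?_⟩
    ext t'
    simp only [Finset.mem_filter, Finset.mem_singleton]
    constructor
    · rintro ⟨_, h⟩; exact hinj h
    · rintro rfl; exact ⟨ht, rfl⟩
  have h1 := frob_inv q h0 hshift hT π hπ (q • t)
  rw [hc1, Nat.cast_one] at h1
  have h2 : (T.filter (fun t' => q • t' = π (q • t))).card ≠ 0 := by
    intro h; rw [h, Nat.cast_zero] at h1; exact zero_ne_one h1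
  obtain ⟨t', ht'⟩ := Finset.card_pos.1 (Nat.pos_of_ne_zero h2)
  rw [Finset.mem_filter] at ht'
  exact ⟨t', ht'.1, ht'.2⟩

theorem smul_coprime_inv (hn : n = p ^ m) (h0 : ∀ π ∈ Pi, π 0 = 0)
    (hshift : ∀ π ∈ Pi, ∀ a, ∃ π' ∈ Pi, ∀ b, π (a + b) = π a + π' b) :
    ∀ (j : ℕ), j.Coprime p → ∀ T : Finset (ZMod n), InvF n Pi T →
      InvF n Pi (T.image (fun t => j • t)) := by
  intro j
  induction j using Nat.strong_induction_on with
  | _ j ih =>
  intro hj T hT
  rcases Nat.lt_or_ge j 2 with hlt | hge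
  · interval_cases j
    · exact absurd ((Nat.coprime_zero_left p).1 hj) hp.out.one_lt.ne'
    · simpa using hT
  · obtain ⟨q, hq, hqj⟩ := Nat.exists_prime_and_dvd (show j ≠ 1 by omega)
    obtain ⟨j', rfl⟩ := hqj
    haveI : Fact q.Prime := ⟨hq⟩
    have hqp : q.Coprime p := Nat.Coprime.coprime_dvd_left (dvd_mul_right q j') hj
    have hj'p : j'.Coprime p := Nat.Coprime.coprime_dvd_left (dvd_mul_left j' q) hj
    have hj'pos : 0 < j' := by
      rcases Nat.eq_zero_or_pos j' with h | h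
      · subst h; omega
      · exact h
    have hj'lt : j' < q * j' := by nlinarith [hq.two_le]
    have h1 := ih j' hj'lt hj'p T hT
    have hqn : q.Coprime n := by rw [hn]; exact Nat.Coprime.pow_right _ hqp
    have h2 := smul_prime_inv n q hqn h0 hshift h1
    have : T.image (fun t => (q * j') • t) =
        (T.image (fun t => j' • t)).image (fun t => q • t) := by
      rw [Finset.image_image]; congr 1; funext t; simp [mul_smul]
    rw [this]; exact h2

/-- the set of elements with a number of `p`-th roots in `T` not divisible by `p`. -/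
noncomputable def Tp (T : Finset (ZMod n)) : Finset (ZMod n) :=
  Finset.univ.filter (fun y => (((T.filter (fun t => p • t = y)).card : ℕ) : ZMod p) ≠ 0)

theorem Tp_inv (h0 : ∀ π ∈ Pi, π 0 = 0)
    (hshift : ∀ π ∈ Pi, ∀ a, ∃ π' ∈ Pi, ∀ b, π (a + b) = π a + π' b)
    {T : Finset (ZMod n)} (hT : InvF n Pi T) : InvF n Pi (Tp p n T) := by
  intro π hπ y hy
  unfold Tp at hy ⊢
  rw [Finset.mem_filter] at hy ⊢
  refine ⟨Finset.mem_univ _, ?_⟩
  rw [frob_inv p h0 hshift hT π hπ y]
  exact hy.2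

theorem Tp_sub (T : Finset (ZMod n)) (y : ZMod n) (hy : y ∈ Tp p n T) :
    ∃ s : ZMod n, y = (p : ZMod n) * s := by
  unfold Tp at hy
  rw [Finset.mem_filter] at hy
  have h2 : (T.filter (fun t => p • t = y)).card ≠ 0 := by
    intro h; apply hy.2; rw [h]; simp
  obtain ⟨t, ht⟩ := Finset.card_pos.1 (Nat.pos_of_ne_zero h2)
  rw [Finset.mem_filter] at ht
  exact ⟨t, by rw [← ht.2, nsmul_eq_mul]⟩

variable (Pi) in
/-- the orbit of `x`. -/
noncomputable def orb (x : ZMod n) : Finset (ZMod n) := by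
  classical exact Finset.univ.filter (fun y => ∃ π ∈ Pi, π x = y)

theorem mem_orb {x y : ZMod n} : y ∈ orb n Pi x ↔ ∃ π ∈ Pi, π x = y := by
  classical
  unfold orb
  simp

theorem orb_inv (x : ZMod n) : InvF n Pi (orb n Pi x) := by
  intro π hπ t ht
  rw [mem_orb] at ht ⊢
  obtain ⟨π₁, h1, rfl⟩ := ht
  exact ⟨π * π₁, Pi.mul_mem hπ h1, rfl⟩

theorem self_mem_orb (x : ZMod n) : x ∈ orb n Pi x := mem_orb n |>.2 ⟨1, Pi.one_mem, rfl⟩

end abstract2


section abstract3

variable (p m n : ℕ) [hp : Fact p.Prime] [NeZero n] {Pi : Subgroup (Equiv.Perm (ZMod n))}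

/-- number of `t ∈ T` with `t + h ∈ T`. -/
noncomputable def cnt (T : Finset (ZMod n)) (h : ZMod n) : ℕ :=
  (T.filter (fun t => t + h ∈ T)).card

theorem cnt_le (hshift : ∀ π ∈ Pi, ∀ a, ∃ π' ∈ Pi, ∀ b, π (a + b) = π a + π' b)
    {T : Finset (ZMod n)} (hT : InvF n Pi T) (π : Equiv.Perm (ZMod n)) (hπ : π ∈ Pi)
    (h : ZMod n) : cnt n T h ≤ cnt n T (π h) := by
  obtain ⟨π', hπ', hs⟩ := hshift π hπ h
  unfold cnt
  apply Finset.card_le_card_of_injOn (fun t => π' t)
  · intro t ht
    simp only [Finset.coe_filter, Set.mem_ofPred_eq] at ht ⊢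
    refine ⟨hT π' hπ' t ht.1, ?_⟩
    rw [add_comm, ← hs]
    exact hT π hπ _ (by rw [add_comm]; exact ht.2)
  · intro a _ b _ hab
    exact π'.injective hab

theorem cnt_inv (hshift : ∀ π ∈ Pi, ∀ a, ∃ π' ∈ Pi, ∀ b, π (a + b) = π a + π' b)
    {T : Finset (ZMod n)} (hT : InvF n Pi T) (π : Equiv.Perm (ZMod n)) (hπ : π ∈ Pi)
    (h : ZMod n) : cnt n T (π h) = cnt n T h := by
  apply le_antisymm
  · have := cnt_le n hshift hT π⁻¹ (Pi.inv_mem hπ) (π h)
    simpa using this
  · exact cnt_le n hshift hT π hπ h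

theorem orbit_contains_units (hn : n = p ^ m) (hm : 2 ≤ m)
    (h0 : ∀ π ∈ Pi, π 0 = 0)
    (hshift : ∀ π ∈ Pi, ∀ a, ∃ π' ∈ Pi, ∀ b, π (a + b) = π a + π' b)
    (hprim : ∀ T : Finset (ZMod n), InvF n Pi T →
      (∀ t ∈ T, ∃ s : ZMod n, t = (p : ZMod n) * s) → ∀ t ∈ T, t = 0)
    (x : ZMod n) (hx : x ≠ 0) (u : ZMod n) (hu : IsUnit u) : u ∈ orb n Pi x := by
  classical
  obtain ⟨T, hTdef⟩ : ∃ T, T = orb n Pi x := ⟨_, rfl⟩
  rw [← hTdef]
  have hT : InvF n Pi T := by rw [hTdef]; exact orb_inv n x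
  have hxT : x ∈ T := by rw [hTdef]; exact self_mem_orb n x
  have horb : ∀ a ∈ T, ∀ b ∈ T, ∃ π ∈ Pi, π a = b := by
    intro a ha b hb
    rw [hTdef, mem_orb] at ha hb
    obtain ⟨π₁, h1, rfl⟩ := ha
    obtain ⟨π₂, h2, rfl⟩ := hb
    exact ⟨π₂ * π₁⁻¹, Pi.mul_mem h2 (Pi.inv_mem h1), by simp⟩
  -- (1)
  have h0T : (0 : ZMod n) ∉ T := by
    intro h
    obtain ⟨π, hπ, hπx⟩ := horb x hxT 0 h
    have : π x = π 0 := by rw [hπx, h0 π hπ]
    exact hx (π.injective this)
  -- (2)
  have hunit : ∃ g₀ ∈ T, IsUnit g₀ := by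
    by_contra hcon
    push Not at hcon
    have := hprim T hT (fun t ht => (unit_or_mul p m n hn t).resolve_left (hcon t ht)) x hxT
    exact hx this
  obtain ⟨g₀, hg₀T, hg₀u⟩ := hunit
  -- (3)
  have hdiv : ∀ y : ZMod n, y ≠ 0 → p ∣ (T.filter (fun t => p • t = y)).card := by
    intro y hy
    have h1 := hprim (Tp p n T) (Tp_inv p n h0 hshift hT) (fun t ht => Tp_sub p n T t ht)
    by_contra hcon
    apply hy
    apply h1 y
    unfold Tp
    rw [Finset.mem_filter]
    refine ⟨Finset.mem_univ _, ?_⟩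
    intro h
    exact hcon ((ZMod.natCast_eq_zero_iff _ _).1 h)
  -- (4)
  have hcoset : ∀ t ∈ T, (p : ZMod n) * t ≠ 0 → ∀ z : ZMod n, (p : ZMod n) * z = 0 →
      t + z ∈ T := by
    intro t ht hpt z hz
    obtain ⟨F, hF⟩ : ∃ F, F = T.filter (fun t' => p • t' = p • t) := ⟨_, rfl⟩
    have htF : t ∈ F := by rw [hF, Finset.mem_filter]; exact ⟨ht, rfl⟩
    have hcardF : p ≤ F.card := by
      have h1 : p ∣ F.card := by
        rw [hF]; exact hdiv (p • t) (by rw [nsmul_eq_mul]; exact hpt)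
      exact Nat.le_of_dvd (Finset.card_pos.2 ⟨t, htF⟩) h1
    have hsub : F ⊆ (P0 p m n).image (fun z => t + z) := by
      intro t' ht'
      rw [hF, Finset.mem_filter] at ht'
      rw [Finset.mem_image]
      refine ⟨t' - t, ?_, by ring⟩
      rw [mem_P0_iff p m n hn hm]
      have := ht'.2
      rw [nsmul_eq_mul, nsmul_eq_mul] at this
      rw [mul_sub, this, sub_self]
    have heq : F = (P0 p m n).image (fun z => t + z) := by
      apply Finset.eq_of_subset_of_card_le hsub
      exact le_trans Finset.card_image_le (le_trans (card_P0_le p m n) hcardF)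
    have : t + z ∈ F := by
      rw [heq, Finset.mem_image]
      exact ⟨z, (mem_P0_iff p m n hn hm z).2 hz, rfl⟩
    rw [hF, Finset.mem_filter] at this
    exact this.1
  -- (5)
  have hz : ∃ z ∈ T, (p : ZMod n) * z = 0 := by
    by_contra hcon
    push Not at hcon
    obtain ⟨rad, hrad⟩ : ∃ rad : Finset (ZMod n),
        rad = Finset.univ.filter (fun h => cnt n T h = T.card) := ⟨_, rfl⟩
    have hmem : ∀ h, h ∈ rad ↔ ∀ t ∈ T, t + h ∈ T := by
      intro h
      rw [hrad, Finset.mem_filter]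
      unfold cnt
      constructor
      · rintro ⟨_, h1⟩ t ht
        have h2 : T.filter (fun t => t + h ∈ T) = T :=
          Finset.eq_of_subset_of_card_le (Finset.filter_subset _ _) (by rw [h1])
        rw [← h2, Finset.mem_filter] at ht
        exact ht.2
      · intro h1
        refine ⟨Finset.mem_univ _, ?_⟩
        congr 1
        exact Finset.filter_true_of_mem h1
    have hradinv : InvF n Pi rad := by
      intro π hπ h hh
      rw [hrad, Finset.mem_filter] at hh ⊢
      exact ⟨Finset.mem_univ _, by rw [cnt_inv n hshift hT π hπ h]; exact hh.2⟩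
    have hradsub : ∀ h ∈ rad, ∃ s : ZMod n, h = (p : ZMod n) * s := by
      intro h hh
      refine (unit_or_mul p m n hn h).resolve_left ?_
      intro hunit
      have h1 : ∀ k : ℕ, g₀ + k • h ∈ T := by
        intro k
        induction k with
        | zero => simpa using hg₀T
        | succ k ih =>
          have := (hmem h).1 hh _ ih
          rw [succ_nsmul, ← add_assoc]; exact this
      obtain ⟨v, hv⟩ := hunit.exists_left_inv
      have h2 := h1 ((-g₀ * v).val)
      rw [nsmul_eq_mul, ZMod.natCast_zmod_val, mul_assoc, hv, mul_one, add_neg_cancel] at h2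
      exact h0T h2
    have hz0 : ((p ^ (m - 1) : ℕ) : ZMod n) ∈ rad := by
      rw [hmem]
      intro t ht
      exact hcoset t ht (hcon t ht) _ (p_mul_z0 p m n hn hm)
    exact z0_ne_zero p m n hn hm (hprim rad hradinv hradsub _ hz0)
  obtain ⟨z, hzT, hpz⟩ := hz
  -- (6)
  have hbad : (T.filter (fun t => t + g₀ ∉ T)).card ≤ p - 1 := by
    have h1 : cnt n T g₀ = cnt n T z := by
      obtain ⟨π, hπ, hπz⟩ := horb z hzT g₀ hg₀T
      rw [← hπz, cnt_inv n hshift hT π hπ z]
    have h2 : (T.filter (fun t => t + z ∉ T)) ⊆ (P0 p m n).erase 0 := by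
      intro t ht
      rw [Finset.mem_filter] at ht
      rw [Finset.mem_erase]
      refine ⟨?_, ?_⟩
      · rintro rfl; exact h0T ht.1
      · rw [mem_P0_iff p m n hn hm]
        by_contra hpt
        exact ht.2 (hcoset t ht.1 hpt z hpz)
    have h3 : (T.filter (fun t => t + z ∉ T)).card ≤ p - 1 := by
      refine le_trans (Finset.card_le_card h2) ?_
      rw [Finset.card_erase_of_mem (zero_mem_P0 p m n hn hm)]
      have := card_P0_le p m n
      omega
    have h4 : ∀ h : ZMod n, cnt n T h + (T.filter (fun t => t + h ∉ T)).card = T.card := by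
      intro h
      unfold cnt
      exact Finset.card_filter_add_card_filter_not _
    have := h4 g₀
    have := h4 z
    omega
  -- (7)
  have hplus : ∀ u : ZMod n, u ∈ T → IsUnit u → ∀ s : ZMod n, u + (p : ZMod n) * s ∈ T := by
    intro u huT hu s
    obtain ⟨v, hv⟩ := hu.exists_left_inv
    obtain ⟨k, hk⟩ : ∃ k : ℕ, k = (s * v).val := ⟨_, rfl⟩
    have hkc : ((k : ℕ) : ZMod n) = s * v := by rw [hk, ZMod.natCast_zmod_val]
    have hj : (1 + p * k).Coprime p := by
      rw [Nat.coprime_comm]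
      simp
    have hinv := smul_coprime_inv p m n hn h0 hshift (1 + p * k) hj T hT
    have hzmem : z ∈ T.image (fun t => (1 + p * k) • t) := by
      rw [Finset.mem_image]
      refine ⟨z, hzT, ?_⟩
      rw [nsmul_eq_mul]; push_cast
      rw [add_mul, one_mul, mul_right_comm, hpz, zero_mul, add_zero]
    have hsub : T ⊆ T.image (fun t => (1 + p * k) • t) := by
      intro t ht
      obtain ⟨π, hπ, rfl⟩ := horb z hzT t ht
      exact hinv π hπ z hzmem
    have heq : T.image (fun t => (1 + p * k) • t) = T :=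
      (Finset.eq_of_subset_of_card_le hsub Finset.card_image_le).symm
    have h1 : (1 + p * k) • u ∈ T.image (fun t => (1 + p * k) • t) :=
      Finset.mem_image_of_mem _ huT
    rw [heq] at h1
    rw [nsmul_eq_mul] at h1; push_cast at h1
    rw [hkc] at h1
    have e : (1 + (p : ZMod n) * (s * v)) * u = u + p * s := by
      calc (1 + (p : ZMod n) * (s * v)) * u = u + p * s * (v * u) := by ring
        _ = u + p * s := by rw [hv, mul_one]
    rwa [e] at h1
  -- (8)
  have hind : ∀ k : ℕ, 1 ≤ k → k < p → ∀ s : ZMod n,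
      ((k : ℕ) : ZMod n) * g₀ + (p : ZMod n) * s ∈ T := by
    intro k
    induction k with
    | zero => intro h; omega
    | succ k ih =>
      intro _ hk s
      rcases Nat.eq_zero_or_pos k with hk0 | hkpos
      · subst hk0
        simpa using hplus g₀ hg₀T hg₀u s
      · have ih' := ih hkpos (by omega)
        have hunit' : IsUnit (((k + 1 : ℕ) : ZMod n) * g₀) :=
          (unit_of_lt p m n hn (k + 1) (by omega) hk).mul hg₀u
        have hmemT : ((k + 1 : ℕ) : ZMod n) * g₀ ∈ T := by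
          by_contra hnot
          have hsub : (Finset.range p).image
              (fun j => ((k : ℕ) : ZMod n) * g₀ + ((j * p ^ (m - 1) : ℕ) : ZMod n)) ⊆
              T.filter (fun t => t + g₀ ∉ T) := by
            intro t ht
            rw [Finset.mem_image] at ht
            obtain ⟨j, hj, rfl⟩ := ht
            obtain ⟨s', hs'⟩ := P0_sub_pH p m n hn hm _
              (show ((j * p ^ (m - 1) : ℕ) : ZMod n) ∈ P0 p m n from
                Finset.mem_image_of_mem _ hj)
            rw [Finset.mem_filter]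
            refine ⟨by rw [hs']; exact ih' s', ?_⟩
            intro hin
            have hu' : IsUnit (((k : ℕ) : ZMod n) * g₀ + ((j * p ^ (m - 1) : ℕ) : ZMod n)
                + g₀) := by
              refine (unit_or_mul p m n hn _).resolve_right ?_
              rintro ⟨s'', hs''⟩
              apply not_unit_mul p m n hn hm _ (s'' - s') hunit'
              rw [mul_sub, ← hs'', ← hs']; push_cast; ring
            have h5 := hplus _ hin hu' (-s')
            apply hnot
            rw [hs'] at h5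
            convert h5 using 1
            push_cast; ring
          have hcard : ((Finset.range p).image
              (fun j => ((k : ℕ) : ZMod n) * g₀ + ((j * p ^ (m - 1) : ℕ) : ZMod n))).card
              = p := by
            rw [Finset.card_image_of_injOn, Finset.card_range]
            intro i hi j hj hij
            simp only [Finset.coe_range, Set.mem_Iio] at hi hj
            exact P0_inj p m n hn hm i j hi hj (add_left_cancel hij)
          have h6 := Finset.card_le_card hsub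
          have hp2 := hp.out.two_le
          omega
        exact hplus _ hmemT hunit' s
  -- conclusion
  obtain ⟨v, hv⟩ := hg₀u.exists_left_inv
  obtain ⟨w, hw⟩ : ∃ w, w = u * v := ⟨_, rfl⟩
  have hwu : IsUnit w := by
    rw [hw]
    exact hu.mul (IsUnit.of_mul_eq_one _ hv)
  have huw : u = w * g₀ := by rw [hw, mul_assoc, hv, mul_one]
  have hwval : w = ((w.val % p : ℕ) : ZMod n) + (p : ZMod n) * ((w.val / p : ℕ) : ZMod n) := by
    have h1 : w = ((w.val : ℕ) : ZMod n) := (ZMod.natCast_zmod_val w).symm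
    have h2 : w.val = w.val % p + p * (w.val / p) := (Nat.mod_add_div _ _).symm
    conv_lhs => rw [h1, h2]
    push_cast; rfl
  have hk0 : w.val % p ≠ 0 := by
    intro h
    rw [h] at hwval
    simp only [Nat.cast_zero, zero_add] at hwval
    exact not_unit_mul p m n hn hm w _ hwu hwval
  have hfin := hind (w.val % p) (by omega) (Nat.mod_lt _ hp.out.pos)
    (((w.val / p : ℕ) : ZMod n) * g₀)
  rw [huw]
  convert hfin using 1
  conv_lhs => rw [hwval]
  ring

theorem abstract_main (hn : n = p ^ m) (hm : 2 ≤ m)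
    (h0 : ∀ π ∈ Pi, π 0 = 0)
    (hshift : ∀ π ∈ Pi, ∀ a, ∃ π' ∈ Pi, ∀ b, π (a + b) = π a + π' b)
    (hprim : ∀ T : Finset (ZMod n), InvF n Pi T →
      (∀ t ∈ T, ∃ s : ZMod n, t = (p : ZMod n) * s) → ∀ t ∈ T, t = 0)
    (x y : ZMod n) (hx : x ≠ 0) (hy : y ≠ 0) : ∃ π ∈ Pi, π x = y := by
  have h1 := orbit_contains_units p m n hn hm h0 hshift hprim x hx 1 isUnit_one
  have h2 := orbit_contains_units p m n hn hm h0 hshift hprim y hy 1 isUnit_one
  rw [mem_orb] at h1 h2
  obtain ⟨π₁, hπ₁, e1⟩ := h1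
  obtain ⟨π₂, hπ₂, e2⟩ := h2
  refine ⟨π₂⁻¹ * π₁, Pi.mul_mem (Pi.inv_mem hπ₂) hπ₁, ?_⟩
  rw [Equiv.Perm.mul_apply, e1, ← e2]
  simp

end abstract3

end Cfsg.Agent.Lib.Helper57.BSchur
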