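import Cfsg.Agent.Lib.Helper57.BSchurA

set_option autoImplicit false
set_option linter.unusedSectionVars false
set_option linter.unusedVariables false
set_option linter.style.haveILetI false
open scoped BigOperators Pointwise

namespace Cfsg.Agent.Lib.Helper57.BSchur

section period

variable {Ω : Type*} [Fintype Ω] [DecidableEq Ω]

/-- a permutation of order `p ^ m` has a point of full period. -/
theorem exists_full_period (p m : ℕ) [hp : Fact p.Prime] (hm : 1 ≤ m) (σ₀ : Equiv.Perm Ω)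
    (ho : orderOf σ₀ = p ^ m) : ∃ α : Ω, MulAction.period σ₀ α = p ^ m := by
  by_contra hcon
  push Not at hcon
  have h1 : σ₀ ^ (p ^ (m - 1)) = 1 := by
    ext α
    have hd : MulAction.period σ₀ α ∣ p ^ m := by
      rw [← ho]; exact MulAction.period_dvd_orderOf σ₀ α
    obtain ⟨k, hk, hk2⟩ := (Nat.dvd_prime_pow hp.out).1 hd
    have hklt : k < m := by
      rcases Nat.lt_or_ge k m with h | h
      · exact h
      · exfalso; apply hcon α; rw [hk2]; congr 1; omega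
    have : σ₀ ^ (p ^ (m - 1)) • α = α := by
      rw [MulAction.pow_smul_eq_iff_period_dvd, hk2]
      exact pow_dvd_pow p (by omega)
    simpa using this
  have h2 : p ^ m ∣ p ^ (m - 1) := by rw [← ho]; exact orderOf_dvd_of_pow_eq_one h1
  have h3 := Nat.le_of_dvd (pow_pos hp.out.pos _) h2
  have h4 : p ^ (m - 1) < p ^ m := Nat.pow_lt_pow_right hp.out.one_lt (by omega)
  omega

end period

section grp

variable {Ω : Type*} (n : ℕ) [NeZero n] (G : Subgroup (Equiv.Perm Ω))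
  (c : ZMod n → Equiv.Perm Ω) (ee : ZMod n ≃ Ω)

/-- the point stabilizer transported to `ZMod n`. -/
def PiG : Subgroup (Equiv.Perm (ZMod n)) :=
  (G ⊓ MulAction.stabilizer (Equiv.Perm Ω) (ee 0)).map (Equiv.permCongrHom ee.symm).toMonoidHom

theorem mem_PiG (π : Equiv.Perm (ZMod n)) :
    π ∈ PiG n G ee ↔ ∃ σ ∈ G, σ (ee 0) = ee 0 ∧ ∀ k, π k = ee.symm (σ (ee k)) := by
  unfold PiG
  rw [Subgroup.mem_map]
  constructor
  · rintro ⟨σ, hσ, rfl⟩
    rw [Subgroup.mem_inf, MulAction.mem_stabilizer_iff] at hσ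
    exact ⟨σ, hσ.1, hσ.2, fun k => rfl⟩
  · rintro ⟨σ, hσ, h1, h2⟩
    refine ⟨σ, Subgroup.mem_inf.2 ⟨hσ, MulAction.mem_stabilizer_iff.2 h1⟩, ?_⟩
    ext k
    rw [h2 k]; rfl

variable (hcG : ∀ k, c k ∈ G) (hcadd : ∀ j k, c (j + k) = c j * c k)
  (hee : ∀ k, ee k = c k (ee 0))

include hcadd in
theorem c_zero : c 0 = 1 := by
  have h := hcadd 0 0
  rw [add_zero] at h
  have h2 : c 0 * 1 = c 0 * c 0 := by rw [mul_one]; exact h
  exact (mul_left_cancel h2).symm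

include hcadd hee in
theorem ee_add (j k : ZMod n) : ee (j + k) = c j (ee k) := by
  rw [hee (j + k), hcadd, Equiv.Perm.mul_apply, ← hee k]

include hcadd in
theorem c_neg_apply (j : ZMod n) (ω : Ω) : c (-j) (c j ω) = ω := by
  have h := hcadd (-j) j
  rw [neg_add_cancel, c_zero n c hcadd] at h
  have h2 := congrArg (fun f : Equiv.Perm Ω => f ω) h
  simpa using h2.symm

include hcG hcadd hee in
theorem shift_general (σ : Equiv.Perm Ω) (hσ : σ ∈ G) (a : ZMod n) :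
    ∃ π' ∈ PiG n G ee, ∀ b, ee.symm (σ (ee (a + b))) = ee.symm (σ (ee a)) + π' b := by
  obtain ⟨a', ha'⟩ : ∃ a', a' = ee.symm (σ (ee a)) := ⟨_, rfl⟩
  have hea' : ee a' = σ (ee a) := by rw [ha']; simp
  obtain ⟨τ, hτ⟩ : ∃ τ, τ = c (-a') * σ * c a := ⟨_, rfl⟩
  have hτG : τ ∈ G := by rw [hτ]; exact G.mul_mem (G.mul_mem (hcG _) hσ) (hcG _)
  have hτ0 : τ (ee 0) = ee 0 := by
    rw [hτ]
    simp only [Equiv.Perm.mul_apply]
    rw [← hee a, ← hea', hee a', c_neg_apply n c hcadd]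
  refine ⟨Equiv.permCongrHom ee.symm τ,
    (mem_PiG n G ee _).2 ⟨τ, hτG, hτ0, fun k => rfl⟩, ?_⟩
  intro b
  rw [← ha']
  apply ee.injective
  rw [Equiv.apply_symm_apply, ee_add n c ee hcadd hee a', ee_add n c ee hcadd hee a b]
  have h1 : ee ((Equiv.permCongrHom ee.symm τ) b) = τ (ee b) := by
    show ee (ee.symm (τ (ee b))) = _
    simp
  rw [h1, hτ]
  simp only [Equiv.Perm.mul_apply]
  have h2 := c_neg_apply n c hcadd (-a') (σ (c a (ee b)))
  rw [neg_neg] at h2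
  exact h2.symm

theorem PiG_zero (π : Equiv.Perm (ZMod n)) (hπ : π ∈ PiG n G ee) : π 0 = 0 := by
  obtain ⟨σ, hσ, h1, h2⟩ := (mem_PiG n G ee π).1 hπ
  rw [h2, h1]; simp

include hcG hcadd hee in
theorem PiG_shift (π : Equiv.Perm (ZMod n)) (hπ : π ∈ PiG n G ee) (a : ZMod n) :
    ∃ π' ∈ PiG n G ee, ∀ b, π (a + b) = π a + π' b := by
  obtain ⟨σ, hσ, h1, h2⟩ := (mem_PiG n G ee π).1 hπ
  obtain ⟨π', hπ', h3⟩ := shift_general n G c ee hcG hcadd hee σ hσ a
  exact ⟨π', hπ', fun b => by rw [h2, h2, h3 b]⟩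

include hcG hcadd hee in
theorem two_trans
    (htrans : ∀ x y : ZMod n, x ≠ 0 → y ≠ 0 → ∃ π ∈ PiG n G ee, π x = y) :
    MulAction.IsMultiplyPretransitive G Ω 2 := by
  rw [MulAction.is_two_pretransitive_iff]
  intro a b c' d hab hcd
  obtain ⟨i, hi⟩ : ∃ i, i = ee.symm a := ⟨_, rfl⟩
  obtain ⟨j, hj⟩ : ∃ j, j = ee.symm c' := ⟨_, rfl⟩
  obtain ⟨x, hx⟩ : ∃ x, x = ee.symm b - i := ⟨_, rfl⟩
  obtain ⟨y, hy⟩ : ∃ y, y = ee.symm d - j := ⟨_, rfl⟩
  have hx0 : x ≠ 0 := by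
    intro h; rw [hx, sub_eq_zero, hi] at h; exact hab (ee.symm.injective h).symm
  have hy0 : y ≠ 0 := by
    intro h; rw [hy, sub_eq_zero, hj] at h; exact hcd (ee.symm.injective h).symm
  obtain ⟨π, hπ, hπxy⟩ := htrans x y hx0 hy0
  obtain ⟨τ, hτG, hτ0, hτ⟩ := (mem_PiG n G ee π).1 hπ
  have ha : a = ee i := by rw [hi]; simp
  have hc : c' = ee j := by rw [hj]; simp
  have hb : b = ee (i + x) := by rw [hx, hi]; simp
  have hd : d = ee (j + y) := by rw [hy, hj]; simp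
  refine ⟨⟨c j * τ * c (-i), G.mul_mem (G.mul_mem (hcG _) hτG) (hcG _)⟩, ?_, ?_⟩
  · show (c j * τ * c (-i)) a = c'
    simp only [Equiv.Perm.mul_apply]
    rw [ha, hee i, c_neg_apply n c hcadd, hτ0, ← hee j, hc]
  · show (c j * τ * c (-i)) b = d
    simp only [Equiv.Perm.mul_apply]
    rw [hb, ee_add n c ee hcadd hee i x, c_neg_apply n c hcadd, hd,
      ee_add n c ee hcadd hee j y, ← hπxy, hτ x]
    simp

include hcG hcadd hee in
theorem block_side (p m : ℕ) [hp : Fact p.Prime] (hn : n = p ^ m) (hm : 2 ≤ m)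
    (T : Finset (ZMod n)) (hT : InvF n (PiG n G ee) T)
    (hTsub : ∀ t ∈ T, ∃ s : ZMod n, t = (p : ZMod n) * s)
    (y : ZMod n) (hyT : y ∈ T) (hy0 : y ≠ 0) :
    ∃ B : Set Ω, ee 0 ∈ B ∧ ee ((p ^ (m - 1) : ℕ) : ZMod n) ∈ B ∧ ee 1 ∉ B ∧
      (∀ σ ∈ G, ∀ ω ∈ B, σ ω ∈ B → σ ∈ MulAction.stabilizer (Equiv.Perm Ω) B) ∧
      (∀ σ ∈ G, σ * c ((p ^ (m - 1) : ℕ) : ZMod n) * σ⁻¹ ∈
        MulAction.stabilizer (Equiv.Perm Ω) B) := by
  obtain ⟨K, hK⟩ : ∃ K : AddSubgroup (ZMod n), K = AddSubgroup.closure (T : Set (ZMod n)) :=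
    ⟨_, rfl⟩
  have hTK : ∀ t ∈ T, t ∈ K := by
    intro t ht; rw [hK]; exact AddSubgroup.subset_closure ht
  have hKsub : ∀ k ∈ K, ∃ s : ZMod n, k = (p : ZMod n) * s := by
    intro k hk
    rw [hK] at hk
    induction hk using AddSubgroup.closure_induction with
    | mem x hx => exact hTsub x hx
    | zero => exact ⟨0, by simp⟩
    | add x y _ _ hx hy =>
      obtain ⟨s1, rfl⟩ := hx
      obtain ⟨s2, rfl⟩ := hy
      exact ⟨s1 + s2, by ring⟩
    | neg x _ hx =>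
      obtain ⟨s1, rfl⟩ := hx
      exact ⟨-s1, by ring⟩
  have hKinv : ∀ k ∈ K, ∀ π ∈ PiG n G ee, π k ∈ K := by
    intro k hk
    rw [hK] at hk
    induction hk using AddSubgroup.closure_induction with
    | mem x hx => intro π hπ; exact hTK _ (hT π hπ x hx)
    | zero => intro π hπ; rw [PiG_zero n G ee π hπ]; exact K.zero_mem
    | add x y _ _ hx hy =>
      intro π hπ
      obtain ⟨π', hπ', h⟩ := PiG_shift n G c ee hcG hcadd hee π hπ x
      rw [h y]
      exact K.add_mem (hx π hπ) (hy π' hπ')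
    | neg x _ hx =>
      intro π hπ
      obtain ⟨π', hπ', h⟩ := PiG_shift n G c ee hcG hcadd hee π hπ (-x)
      have h1 := h x
      rw [neg_add_cancel, PiG_zero n G ee π hπ] at h1
      have h2 : π (-x) = -π' x := eq_neg_of_add_eq_zero_left h1.symm
      rw [h2]
      exact K.neg_mem (hx π' hπ')
  -- `K` is closed under multiplication
  have hKmul : ∀ r : ZMod n, ∀ k ∈ K, r * k ∈ K := by
    intro r k hk
    have : r * k = r.val • k := by rw [nsmul_eq_mul, ZMod.natCast_zmod_val]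
    rw [this]
    exact K.nsmul_mem hk _
  have hz0K : ((p ^ (m - 1) : ℕ) : ZMod n) ∈ K := by
    have hyK := hTK y hyT
    have hyval : y.val ≠ 0 := by
      intro h; exact hy0 ((ZMod.val_eq_zero y).1 h)
    obtain ⟨a, w, hw, hyw⟩ := Nat.exists_eq_pow_mul_and_not_dvd hyval p hp.out.ne_one
    have hylt : y.val < n := ZMod.val_lt y
    have hycast : ((y.val : ℕ) : ZMod n) = y := ZMod.natCast_zmod_val y
    obtain ⟨v, hv⟩ : ∃ v, v = y.val := ⟨_, rfl⟩
    rw [← hv] at hyw hylt hycast hyval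
    have hwpos : 0 < w := by
      rcases Nat.eq_zero_or_pos w with h | h
      · subst h; simp at hw
      · exact h
    have ham : a < m := by
      by_contra hcon
      push Not at hcon
      have h1 : p ^ m ≤ p ^ a := Nat.pow_le_pow_right hp.out.pos hcon
      have h2 : p ^ a ≤ p ^ a * w := Nat.le_mul_of_pos_right _ hwpos
      rw [hn] at hylt
      omega
    have hwu : IsUnit ((w : ℕ) : ZMod n) := by
      rw [ZMod.isUnit_iff_coprime, hn]
      apply Nat.Coprime.pow_right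
      exact ((Nat.Prime.coprime_iff_not_dvd hp.out).2 hw).symm
    obtain ⟨w', hw'⟩ := hwu.exists_left_inv
    have h3 : ((p ^ (m - 1) : ℕ) : ZMod n) = (((p ^ (m - 1 - a) : ℕ) : ZMod n) * w') * y := by
      rw [← hycast, hyw]
      have h4 : p ^ (m - 1) = p ^ (m - 1 - a) * p ^ a := by
        rw [← pow_add]; congr 1; omega
      rw [h4]
      push_cast
      calc (p : ZMod n) ^ (m - 1 - a) * (p : ZMod n) ^ a
          = (p : ZMod n) ^ (m - 1 - a) * (p : ZMod n) ^ a * (w' * (w : ZMod n)) := by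
            rw [hw', mul_one]
        _ = _ := by ring
    rw [h3]
    exact hKmul _ _ hyK
  -- the key mapping property
  have hmaps : ∀ σ ∈ G, ∀ a ∈ K, ee.symm (σ (ee a)) ∈ K → ∀ b ∈ K, ee.symm (σ (ee b)) ∈ K := by
    intro σ hσ a ha ha' b hb
    obtain ⟨π', hπ', h⟩ := shift_general n G c ee hcG hcadd hee σ hσ a
    have h1 := h (b - a)
    rw [add_sub_cancel] at h1
    rw [h1]
    exact K.add_mem ha' (hKinv _ (K.sub_mem hb ha) π' hπ')
  have hblock : ∀ σ ∈ G, ∀ ω ∈ (ee '' (K : Set (ZMod n))), σ ω ∈ (ee '' (K : Set (ZMod n))) →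
      σ ∈ MulAction.stabilizer (Equiv.Perm Ω) (ee '' (K : Set (ZMod n))) := by
    intro σ hσ ω hω hσω
    obtain ⟨a, ha, rfl⟩ := hω
    obtain ⟨a', ha', hea'⟩ := hσω
    have haa' : ee.symm (σ (ee a)) = a' := by rw [← hea']; simp
    rw [MulAction.mem_stabilizer_set]
    intro b'
    constructor
    · rintro ⟨e, he, hee'⟩
      have h1 := hmaps σ⁻¹ (G.inv_mem hσ) a' ha' (by
        rw [hea']; simpa using ha) e he
      have h2 : σ⁻¹ (ee e) = b' := by
        rw [hee']; simp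
      rw [h2] at h1
      exact ⟨_, h1, by simp⟩
    · rintro ⟨b, hb, rfl⟩
      have h1 := hmaps σ hσ a ha (by rw [haa']; exact ha') b hb
      exact ⟨_, h1, by simp⟩
  refine ⟨ee '' (K : Set (ZMod n)), ⟨0, K.zero_mem, rfl⟩, ⟨_, hz0K, rfl⟩, ?_, hblock, ?_⟩
  · rintro ⟨k, hk, hk1⟩
    have : k = 1 := ee.injective hk1
    subst this
    obtain ⟨s, hs⟩ := hKsub 1 hk
    exact not_unit_mul p m n hn hm 1 s isUnit_one hs
  · intro σ hσ
    obtain ⟨j, hj⟩ : ∃ j, j = ee.symm (σ⁻¹ (ee 0)) := ⟨_, rfl⟩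
    have hej : ee j = σ⁻¹ (ee 0) := by rw [hj]; simp
    obtain ⟨ρ, hρ⟩ : ∃ ρ, ρ = c (-j) * σ⁻¹ := ⟨_, rfl⟩
    have hρG : ρ ∈ G := by rw [hρ]; exact G.mul_mem (hcG _) (G.inv_mem hσ)
    have hρS : ρ ∈ MulAction.stabilizer (Equiv.Perm Ω) (ee '' (K : Set (ZMod n))) := by
      apply hblock ρ hρG (ee 0) ⟨0, K.zero_mem, rfl⟩
      rw [hρ, Equiv.Perm.mul_apply, ← hej, hee j, c_neg_apply n c hcadd]
      exact ⟨0, K.zero_mem, rfl⟩
    have hzS : c ((p ^ (m - 1) : ℕ) : ZMod n) ∈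
        MulAction.stabilizer (Equiv.Perm Ω) (ee '' (K : Set (ZMod n))) := by
      apply hblock _ (hcG _) (ee 0) ⟨0, K.zero_mem, rfl⟩
      rw [← hee]
      exact ⟨_, hz0K, rfl⟩
    have hcomm : ∀ i k : ZMod n, c i * c k = c k * c i := by
      intro i k
      rw [← hcadd, ← hcadd, add_comm]
    have hinv : (c (-j))⁻¹ = c j := by
      have h := hcadd (-j) j
      rw [neg_add_cancel, c_zero n c hcadd] at h
      exact inv_eq_of_mul_eq_one_right h.symm
    have heq : σ * c ((p ^ (m - 1) : ℕ) : ZMod n) * σ⁻¹ =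
        ρ⁻¹ * c ((p ^ (m - 1) : ℕ) : ZMod n) * ρ := by
      rw [hρ, mul_inv_rev, inv_inv, hinv]
      have h5 : c j * c ((p ^ (m - 1) : ℕ) : ZMod n) * c (-j) = c ((p ^ (m - 1) : ℕ) : ZMod n) := by
        rw [hcomm j, mul_assoc, ← hcadd, add_neg_cancel, c_zero n c hcadd, mul_one]
      calc σ * c ((p ^ (m - 1) : ℕ) : ZMod n) * σ⁻¹
          = σ * (c j * c ((p ^ (m - 1) : ℕ) : ZMod n) * c (-j)) * σ⁻¹ := by rw [h5]
        _ = _ := by group
    rw [heq]
    exact Subgroup.mul_mem _ (Subgroup.mul_mem _ (Subgroup.inv_mem _ hρS) hzS) hρS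

end grp


section final

variable {Ω : Type*} [Fintype Ω] [DecidableEq Ω]

theorem main_perm (p m : ℕ) [hp : Fact p.Prime] (hm : 2 ≤ m) (hΩ : Fintype.card Ω = p ^ m)
    (G : Subgroup (Equiv.Perm Ω)) (h2 : ¬ MulAction.IsMultiplyPretransitive G Ω 2)
    (σ₀ : Equiv.Perm Ω) (hσ₀ : σ₀ ∈ G) (ho : orderOf σ₀ = p ^ m) :
    ∃ B : Set Ω, ∃ α β γ : Ω, α ∈ B ∧ β ∈ B ∧ α ≠ β ∧ γ ∉ B ∧
      (∀ σ ∈ G, ∀ ω ∈ B, σ ω ∈ B → σ ∈ MulAction.stabilizer (Equiv.Perm Ω) B) ∧
      (∀ σ ∈ G, σ * σ₀ ^ (p ^ (m - 1)) * σ⁻¹ ∈ MulAction.stabilizer (Equiv.Perm Ω) B) := by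
  classical
  haveI : NeZero (p ^ m) := ⟨pow_ne_zero _ hp.out.ne_zero⟩
  obtain ⟨α, hα⟩ := exists_full_period p m (by omega) σ₀ ho
  obtain ⟨c, hc⟩ : ∃ c : ZMod (p ^ m) → Equiv.Perm Ω, c = fun k => σ₀ ^ k.val := ⟨_, rfl⟩
  have hcG : ∀ k, c k ∈ G := by intro k; rw [hc]; exact G.pow_mem hσ₀ _
  have hcadd : ∀ j k, c (j + k) = c j * c k := by
    intro j k
    rw [hc]
    simp only
    rw [← pow_add, pow_eq_pow_iff_modEq, ho, ZMod.val_add]
    exact Nat.mod_modEq _ _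
  have hinj : Function.Injective (fun k : ZMod (p ^ m) => c k α) := by
    intro j k hjk
    simp only at hjk
    have h1 : c (j - k) α = α := by
      have h2 : c j = c k * c (j - k) := by rw [← hcadd]; congr 1; ring
      rw [h2, Equiv.Perm.mul_apply] at hjk
      exact (c k).injective hjk
    rw [hc] at h1
    simp only at h1
    have h3 : σ₀ ^ (j - k).val • α = α := h1
    rw [MulAction.pow_smul_eq_iff_period_dvd, hα] at h3
    have h4 : (j - k).val < p ^ m := ZMod.val_lt _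
    have h5 : (j - k).val = 0 := Nat.eq_zero_of_dvd_of_lt h3 h4
    rw [ZMod.val_eq_zero] at h5
    exact sub_eq_zero.1 h5
  have hbij : Function.Bijective (fun k : ZMod (p ^ m) => c k α) := by
    rw [Fintype.bijective_iff_injective_and_card]
    exact ⟨hinj, by rw [ZMod.card, hΩ]⟩
  obtain ⟨ee, hee0⟩ : ∃ ee : ZMod (p ^ m) ≃ Ω, ∀ k, ee k = c k α :=
    ⟨Equiv.ofBijective _ hbij, fun k => rfl⟩
  have hc0 : c 0 = 1 := by rw [hc]; simp
  have hee : ∀ k, ee k = c k (ee 0) := by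
    intro k; rw [hee0 0, hc0, hee0 k]; rfl
  have hcz : c ((p ^ (m - 1) : ℕ) : ZMod (p ^ m)) = σ₀ ^ (p ^ (m - 1)) := by
    rw [hc]
    simp only
    rw [ZMod.val_natCast_of_lt (Nat.pow_lt_pow_right hp.out.one_lt (by omega))]
  by_cases hex : ∃ T : Finset (ZMod (p ^ m)), InvF (p ^ m) (PiG (p ^ m) G ee) T ∧
      (∀ t ∈ T, ∃ s : ZMod (p ^ m), t = (p : ZMod (p ^ m)) * s) ∧ ∃ y ∈ T, y ≠ 0
  · obtain ⟨T, hT, hTsub, y, hyT, hy0⟩ := hex
    obtain ⟨B, h1, h2', h3, h4, h5⟩ :=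
      block_side (p ^ m) G c ee hcG hcadd hee p m rfl hm T hT hTsub y hyT hy0
    refine ⟨B, ee 0, ee ((p ^ (m - 1) : ℕ) : ZMod (p ^ m)), ee 1, h1, h2', ?_, h3, h4, ?_⟩
    · intro h
      exact z0_ne_zero p m (p ^ m) rfl hm (ee.injective h).symm
    · rw [← hcz]; exact h5
  · exfalso
    apply h2
    apply two_trans (p ^ m) G c ee hcG hcadd hee
    apply abstract_main p m (p ^ m) rfl hm (PiG_zero (p ^ m) G ee)
      (PiG_shift (p ^ m) G c ee hcG hcadd hee)
    intro T hT hTsub t ht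
    by_contra ht0
    exact hex ⟨T, hT, hTsub, t, ht, ht0⟩

end final


section final2

theorem final_thm {Ω : Type*} [Fintype Ω] [DecidableEq Ω] (p m : ℕ) (hp : p.Prime) (hm : 2 ≤ m)
    (hΩ : Fintype.card Ω = p ^ m) (G : Subgroup (Equiv.Perm Ω))
    (h2 : ¬ MulAction.IsMultiplyPretransitive G Ω 2) (g : G) (hg : orderOf g = p ^ m) :
    ¬ MulAction.IsPreprimitive G Ω ∧
      ¬ MulAction.IsPretransitive (Subgroup.normalClosure ({g ^ (p ^ (m - 1))} : Set G)) Ω := by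
  haveI : Fact p.Prime := ⟨hp⟩
  obtain ⟨B, α, β, γ, hα, hβ, hαβ, hγ, hblock, hconj⟩ :=
    Cfsg.Agent.Lib.Helper57.BSchur.main_perm p m hm hΩ G h2 (g : Equiv.Perm Ω) g.2
      (by rw [Subgroup.orderOf_coe]; exact hg)
  constructor
  · intro hprim
    have hB : MulAction.IsBlock G B := by
      rw [MulAction.isBlock_iff_smul_eq_of_mem]
      intro g' a ha hga
      have hs := hblock g' g'.2 a ha hga
      exact MulAction.mem_stabilizer_iff.1 hs
    rcases hprim.isTrivialBlock_of_isBlock hB with h | h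
    · exact hαβ (h hα hβ)
    · exact hγ (by rw [h]; exact Set.mem_univ _)
  · intro htrN
    have key : ∀ ν : G, ν ∈ Subgroup.normalClosure ({g ^ (p ^ (m - 1))} : Set G) →
        (ν : Equiv.Perm Ω) ∈ MulAction.stabilizer (Equiv.Perm Ω) B := by
      intro ν hν
      unfold Subgroup.normalClosure at hν
      induction hν using Subgroup.closure_induction with
      | mem x hx =>
        rw [Group.mem_conjugatesOfSet_iff] at hx
        obtain ⟨a, ha, hconj'⟩ := hx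
        rw [Set.mem_singleton_iff] at ha
        subst ha
        rw [isConj_iff] at hconj'
        obtain ⟨σ, rfl⟩ := hconj'
        have := hconj σ σ.2
        simpa using this
      | one => exact Subgroup.one_mem _
      | mul x y _ _ hx hy => rw [Subgroup.coe_mul]; exact Subgroup.mul_mem _ hx hy
      | inv x _ hx => rw [Subgroup.coe_inv]; exact Subgroup.inv_mem _ hx
    obtain ⟨ν, hν⟩ := htrN.exists_smul_eq α γ
    have hs := key ν.1 ν.2
    rw [MulAction.mem_stabilizer_set] at hs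
    apply hγ
    rw [← hν]
    exact (hs α).2 hα

end final2

end Cfsg.Agent.Lib.Helper57.BSchur
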