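import Cfsg.Agent.Lib.Helper57.BSchurB

set_option autoImplicit false
set_option linter.unusedSectionVars false
set_option linter.unusedVariables false
set_option linter.style.haveILetI false
open scoped BigOperators Pointwise

namespace Cfsg.Agent.Lib.Helper57.BSchur

section general

variable (p n : ℕ) [hp : Fact p.Prime] [NeZero n] {Pi : Subgroup (Equiv.Perm (ZMod n))}

/-- the closure of an invariant set is an invariant subgroup. -/
theorem closure_inv (h0 : ∀ π ∈ Pi, π 0 = 0)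
    (hshift : ∀ π ∈ Pi, ∀ a, ∃ π' ∈ Pi, ∀ b, π (a + b) = π a + π' b)
    (T : Finset (ZMod n)) (hT : InvF n Pi T) :
    ∀ k ∈ AddSubgroup.closure (T : Set (ZMod n)), ∀ π ∈ Pi,
      π k ∈ AddSubgroup.closure (T : Set (ZMod n)) := by
  intro k hk
  induction hk using AddSubgroup.closure_induction with
  | mem x hx => intro π hπ; exact AddSubgroup.subset_closure (hT π hπ x hx)
  | zero => intro π hπ; rw [h0 π hπ]; exact AddSubgroup.zero_mem _
  | add x y _ _ hx hy =>
    intro π hπ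
    obtain ⟨π', hπ', h⟩ := hshift π hπ x
    rw [h y]
    exact AddSubgroup.add_mem _ (hx π hπ) (hy π' hπ')
  | neg x _ hx =>
    intro π hπ
    obtain ⟨π', hπ', h⟩ := hshift π hπ (-x)
    have h1 := h x
    rw [neg_add_cancel, h0 π hπ] at h1
    have h2 : π (-x) = -π' x := eq_neg_of_add_eq_zero_left h1.symm
    rw [h2]
    exact AddSubgroup.neg_mem _ (hx π' hπ')

/-- the elements killed by `p`. -/
noncomputable def Q0 : Finset (ZMod n) := Finset.univ.filter (fun z => (p : ZMod n) * z = 0)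

theorem mem_Q0 (z : ZMod n) : z ∈ Q0 p n ↔ (p : ZMod n) * z = 0 := by
  unfold Q0; simp

theorem card_Q0_le (hpn : p ∣ n) : (Q0 p n).card ≤ p := by
  have hnp : n = p * (n / p) := (Nat.mul_div_cancel' hpn).symm
  have hsub : Q0 p n ⊆ (Finset.range p).image (fun j => ((j * (n / p) : ℕ) : ZMod n)) := by
    intro z hz
    rw [mem_Q0] at hz
    have h1 : ((p * z.val : ℕ) : ZMod n) = 0 := by
      push_cast; rw [ZMod.natCast_zmod_val]; exact hz
    rw [ZMod.natCast_eq_zero_iff] at h1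
    have hlt : z.val < n := ZMod.val_lt z
    have hzv : ((z.val : ℕ) : ZMod n) = z := ZMod.natCast_zmod_val z
    obtain ⟨v, hv⟩ : ∃ v, v = z.val := ⟨_, rfl⟩
    rw [← hv] at h1 hlt hzv
    obtain ⟨d, hd⟩ : ∃ d, d = n / p := ⟨_, rfl⟩
    rw [← hd] at hnp ⊢
    have h2 : p * d ∣ p * v := by rw [← hnp]; exact h1
    have h3 : d ∣ v := Nat.dvd_of_mul_dvd_mul_left hp.out.pos h2
    obtain ⟨j, hj⟩ := h3
    rw [Finset.mem_image]
    refine ⟨j, ?_, ?_⟩
    · rw [Finset.mem_range]
      by_contra hcon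
      push Not at hcon
      have : p * d ≤ d * j := by rw [mul_comm]; exact Nat.mul_le_mul_left _ hcon
      omega
    · rw [mul_comm, ← hj, hzv]
  exact le_trans (Finset.card_le_card hsub)
    (le_trans Finset.card_image_le (by rw [Finset.card_range]))

theorem x0_ne_zero (hpn : p ∣ n) : ((n / p : ℕ) : ZMod n) ≠ 0 := by
  intro h
  rw [ZMod.natCast_eq_zero_iff] at h
  have hn0 : 0 < n := Nat.pos_of_ne_zero (NeZero.ne n)
  have h1 : n / p < n := Nat.div_lt_self hn0 hp.out.one_lt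
  have h2 : 0 < n / p := Nat.div_pos (Nat.le_of_dvd hn0 hpn) hp.out.pos
  exact absurd (Nat.le_of_dvd h2 h) (by omega)

theorem p_mul_x0 (hpn : p ∣ n) : (p : ZMod n) * ((n / p : ℕ) : ZMod n) = 0 := by
  have : ((p * (n / p) : ℕ) : ZMod n) = 0 := by
    rw [Nat.mul_div_cancel' hpn]; exact ZMod.natCast_self n
  rw [← this]; push_cast; rfl

theorem one_ne_p_mul (hpn : p ∣ n) (s : ZMod n) : (1 : ZMod n) ≠ (p : ZMod n) * s := by
  intro h
  have h1 := congrArg (ZMod.castHom hpn (ZMod p)) h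
  rw [map_one, map_mul, map_natCast, ZMod.natCast_self, zero_mul] at h1
  exact one_ne_zero h1

theorem orb_facts (hpn : p ∣ n)
    (h0 : ∀ π ∈ Pi, π 0 = 0)
    (hshift : ∀ π ∈ Pi, ∀ a, ∃ π' ∈ Pi, ∀ b, π (a + b) = π a + π' b)
    (hprim : ∀ K : AddSubgroup (ZMod n), (∀ k ∈ K, ∀ π ∈ Pi, π k ∈ K) → K = ⊥ ∨ K = ⊤)
    (x : ZMod n) (hx : x ≠ 0) :
    (0 : ZMod n) ∉ orb n Pi x ∧
    (∀ t ∈ orb n Pi x, (p : ZMod n) * t ≠ 0 → ∀ z : ZMod n, (p : ZMod n) * z = 0 →
      t + z ∈ orb n Pi x) ∧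
    (∀ t ∈ orb n Pi x, (p : ZMod n) * t ≠ 0 → p ≤ (orb n Pi x).card) ∧
    (∃ z ∈ orb n Pi x, (p : ZMod n) * z = 0) := by
  classical
  obtain ⟨T, hTdef⟩ : ∃ T, T = orb n Pi x := ⟨_, rfl⟩
  rw [← hTdef]
  have hT : InvF n Pi T := by rw [hTdef]; exact orb_inv n x
  have hxT : x ∈ T := by rw [hTdef]; exact self_mem_orb n x
  have horb : ∀ a ∈ T, ∀ b ∈ T, ∃ π ∈ Pi, π a = b := by
    intro a ha b hb
    rw [hTdef, mem_orb] at ha hb
    obtain ⟨π₁, h1, rfl⟩ := ha
    obtain ⟨π₂, h2, rfl⟩ := hb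
    exact ⟨π₂ * π₁⁻¹, Pi.mul_mem h2 (Pi.inv_mem h1), by simp⟩
  have h0T : (0 : ZMod n) ∉ T := by
    intro h
    obtain ⟨π, hπ, hπx⟩ := horb x hxT 0 h
    have : π x = π 0 := by rw [hπx, h0 π hπ]
    exact hx (π.injective this)
  have hdiv : ∀ y : ZMod n, y ≠ 0 → p ∣ (T.filter (fun t => p • t = y)).card := by
    intro y hy
    by_contra hcon
    have hyTp : y ∈ Tp p n T := by
      unfold Tp
      rw [Finset.mem_filter]
      refine ⟨Finset.mem_univ _, ?_⟩
      intro h
      exact hcon ((ZMod.natCast_eq_zero_iff _ _).1 h)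
    have hK := hprim (AddSubgroup.closure (Tp p n T : Set (ZMod n)))
      (closure_inv n h0 hshift (Tp p n T) (Tp_inv p n h0 hshift hT))
    have hyK : y ∈ AddSubgroup.closure (Tp p n T : Set (ZMod n)) :=
      AddSubgroup.subset_closure hyTp
    rcases hK with hK | hK
    · rw [hK, AddSubgroup.mem_bot] at hyK; exact hy hyK
    · have h1 : (1 : ZMod n) ∈ AddSubgroup.closure (Tp p n T : Set (ZMod n)) := by
        rw [hK]; exact AddSubgroup.mem_top _
      have hsub : ∀ k ∈ AddSubgroup.closure (Tp p n T : Set (ZMod n)),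
          ∃ s : ZMod n, k = (p : ZMod n) * s := by
        intro k hk
        induction hk using AddSubgroup.closure_induction with
        | mem x hx => exact Tp_sub p n T x hx
        | zero => exact ⟨0, by simp⟩
        | add x y _ _ hx hy =>
          obtain ⟨s1, rfl⟩ := hx
          obtain ⟨s2, rfl⟩ := hy
          exact ⟨s1 + s2, by ring⟩
        | neg x _ hx =>
          obtain ⟨s1, rfl⟩ := hx
          exact ⟨-s1, by ring⟩
      obtain ⟨s, hs⟩ := hsub 1 h1
      exact one_ne_p_mul p n hpn s hs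
  have hcoset : ∀ t ∈ T, (p : ZMod n) * t ≠ 0 → ∀ z : ZMod n, (p : ZMod n) * z = 0 →
      t + z ∈ T := by
    intro t ht hpt z hz
    obtain ⟨F, hF⟩ : ∃ F, F = T.filter (fun t' => p • t' = p • t) := ⟨_, rfl⟩
    have htF : t ∈ F := by rw [hF, Finset.mem_filter]; exact ⟨ht, rfl⟩
    have hcardF : p ≤ F.card := by
      have h1 : p ∣ F.card := by
        rw [hF]; exact hdiv (p • t) (by rw [nsmul_eq_mul]; exact hpt)
      exact Nat.le_of_dvd (Finset.card_pos.2 ⟨t, htF⟩) h1
    have hsub : F ⊆ (Q0 p n).image (fun z => t + z) := by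
      intro t' ht'
      rw [hF, Finset.mem_filter] at ht'
      rw [Finset.mem_image]
      refine ⟨t' - t, ?_, by ring⟩
      rw [mem_Q0]
      have := ht'.2
      rw [nsmul_eq_mul, nsmul_eq_mul] at this
      rw [mul_sub, this, sub_self]
    have heq : F = (Q0 p n).image (fun z => t + z) := by
      apply Finset.eq_of_subset_of_card_le hsub
      exact le_trans Finset.card_image_le (le_trans (card_Q0_le p n hpn) hcardF)
    have : t + z ∈ F := by
      rw [heq, Finset.mem_image]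
      exact ⟨z, (mem_Q0 p n z).2 hz, rfl⟩
    rw [hF, Finset.mem_filter] at this
    exact this.1
  have hfib : ∀ t ∈ T, (p : ZMod n) * t ≠ 0 → p ≤ T.card := by
    intro t ht hpt
    have h1 : p ∣ (T.filter (fun t' => p • t' = p • t)).card :=
      hdiv (p • t) (by rw [nsmul_eq_mul]; exact hpt)
    have h2 : 0 < (T.filter (fun t' => p • t' = p • t)).card :=
      Finset.card_pos.2 ⟨t, by rw [Finset.mem_filter]; exact ⟨ht, rfl⟩⟩
    exact le_trans (Nat.le_of_dvd h2 h1) (Finset.card_le_card (Finset.filter_subset _ _))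
  refine ⟨h0T, hcoset, hfib, ?_⟩
  by_contra hcon
  push Not at hcon
  obtain ⟨rad, hrad⟩ : ∃ rad : Finset (ZMod n),
      rad = Finset.univ.filter (fun h => cnt n T h = T.card) := ⟨_, rfl⟩
  have hmem : ∀ h, h ∈ rad ↔ ∀ t ∈ T, t + h ∈ T := by
    intro h
    rw [hrad, Finset.mem_filter]
    unfold cnt
    constructor
    · rintro ⟨_, h1⟩ t ht
      have h2 : T.filter (fun t => t + h ∈ T) = T :=
        Finset.eq_of_subset_of_card_le (Finset.filter_subset _ _) (by rw [h1])
      rw [← h2, Finset.mem_filter] at ht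
      exact ht.2
    · intro h1
      refine ⟨Finset.mem_univ _, ?_⟩
      congr 1
      exact Finset.filter_true_of_mem h1
  have hradinv : InvF n Pi rad := by
    intro π hπ h hh
    rw [hrad, Finset.mem_filter] at hh ⊢
    exact ⟨Finset.mem_univ _, by rw [cnt_inv n hshift hT π hπ h]; exact hh.2⟩
  have hx0 : ((n / p : ℕ) : ZMod n) ∈ rad := by
    rw [hmem]; intro t ht; exact hcoset t ht (hcon t ht) _ (p_mul_x0 p n hpn)
  have hK := hprim (AddSubgroup.closure (rad : Set (ZMod n)))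
    (closure_inv n h0 hshift rad hradinv)
  rcases hK with hK | hK
  · have : ((n / p : ℕ) : ZMod n) ∈ AddSubgroup.closure (rad : Set (ZMod n)) :=
      AddSubgroup.subset_closure hx0
    rw [hK, AddSubgroup.mem_bot] at this
    exact x0_ne_zero p n hpn this
  · have hall : ∀ k ∈ AddSubgroup.closure (rad : Set (ZMod n)), ∀ r : ZMod n, ∀ t ∈ T,
        t + r * k ∈ T := by
      intro k hk
      induction hk using AddSubgroup.closure_induction with
      | mem y hy =>
        have hnat : ∀ j : ℕ, ∀ t ∈ T, t + (j : ZMod n) * y ∈ T := by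
          intro j
          induction j with
          | zero => intro t ht; simpa using ht
          | succ j ih =>
            intro t ht
            have h1 := (hmem y).1 hy _ (ih t ht)
            have e : t + ((j + 1 : ℕ) : ZMod n) * y = t + (j : ZMod n) * y + y := by
              push_cast; ring
            rw [e]; exact h1
        intro r t ht
        have := hnat r.val t ht
        rwa [ZMod.natCast_zmod_val] at this
      | zero => intro r t ht; simpa using ht
      | add y z _ _ hy hz =>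
        intro r t ht
        have h1 := hz r _ (hy r t ht)
        have e : t + r * (y + z) = t + r * y + r * z := by ring
        rw [e]; exact h1
      | neg y _ hy =>
        intro r t ht
        have h1 := hy (-r) t ht
        have e : t + r * (-y) = t + (-r) * y := by ring
        rw [e]; exact h1
    have hxK : x ∈ AddSubgroup.closure (rad : Set (ZMod n)) := by
      rw [hK]; exact AddSubgroup.mem_top _
    have h1 := hall x hxK (-1) x hxT
    have e : x + (-1) * x = 0 := by ring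
    rw [e] at h1
    exact h0T h1

theorem bad_le (hpn : p ∣ n)
    (h0 : ∀ π ∈ Pi, π 0 = 0)
    (hshift : ∀ π ∈ Pi, ∀ a, ∃ π' ∈ Pi, ∀ b, π (a + b) = π a + π' b)
    (hprim : ∀ K : AddSubgroup (ZMod n), (∀ k ∈ K, ∀ π ∈ Pi, π k ∈ K) → K = ⊥ ∨ K = ⊤)
    (x : ZMod n) (hx : x ≠ 0) (h : ZMod n) (hh : h ≠ 0) :
    ((orb n Pi x).filter (fun t => t + h ∉ orb n Pi x)).card ≤ p - 1 := by
  classical
  obtain ⟨hx0, hxcoset, _, _⟩ := orb_facts p n hpn h0 hshift hprim x hx
  obtain ⟨hh0, _, _, z, hz, hpz⟩ := orb_facts p n hpn h0 hshift hprim h hh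
  obtain ⟨T, hTdef⟩ : ∃ T, T = orb n Pi x := ⟨_, rfl⟩
  rw [← hTdef] at hx0 hxcoset ⊢
  have hT : InvF n Pi T := by rw [hTdef]; exact orb_inv n x
  have hz' := hz
  rw [mem_orb] at hz
  obtain ⟨π, hπ, hπh⟩ := hz
  have h1 : cnt n T h = cnt n T z := by rw [← hπh, cnt_inv n hshift hT π hπ h]
  have h2 : (T.filter (fun t => t + z ∉ T)) ⊆ (Q0 p n).erase 0 := by
    intro t ht
    rw [Finset.mem_filter] at ht
    rw [Finset.mem_erase]
    refine ⟨?_, ?_⟩
    · rintro rfl; exact hx0 ht.1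
    · rw [mem_Q0]
      by_contra hpt
      exact ht.2 (hxcoset t ht.1 hpt z hpz)
  have h3 : (T.filter (fun t => t + z ∉ T)).card ≤ p - 1 := by
    refine le_trans (Finset.card_le_card h2) ?_
    rw [Finset.card_erase_of_mem ((mem_Q0 p n 0).2 (by simp))]
    have := card_Q0_le p n hpn
    omega
  have h4 : ∀ h : ZMod n, cnt n T h + (T.filter (fun t => t + h ∉ T)).card = T.card := by
    intro h
    unfold cnt
    exact Finset.card_filter_add_card_filter_not _
  have := h4 h
  have := h4 z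
  omega

theorem double_count (T : Finset (ZMod n)) :
    ∑ h : ZMod n, (T.filter (fun t => t + h ∉ T)).card = T.card * (n - T.card) := by
  classical
  have h1 : ∀ h : ZMod n, (T.filter (fun t => t + h ∉ T)).card =
      ∑ t ∈ T, if t + h ∉ T then 1 else 0 := by
    intro h; rw [Finset.card_filter]
  simp_rw [h1]
  rw [Finset.sum_comm]
  have h2 : ∀ t ∈ T, (∑ h : ZMod n, if t + h ∉ T then 1 else 0) = n - T.card := by
    intro t _
    rw [← Finset.card_filter]
    have h3 : (Finset.univ.filter (fun h : ZMod n => t + h ∉ T)).card =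
        (Finset.univ.filter (fun h : ZMod n => h ∉ T)).card := by
      apply Finset.card_bij (fun h _ => t + h)
      · intro a ha; simpa using ha
      · intro a _ b _ hab; exact add_left_cancel hab
      · intro b hb; exact ⟨b - t, by simpa using hb, by ring⟩
    have h4 : Finset.univ.filter (fun h : ZMod n => h ∉ T) = Tᶜ := by
      ext; simp
    rw [h3, h4, Finset.card_compl, ZMod.card]
  rw [Finset.sum_congr rfl h2, Finset.sum_const, smul_eq_mul]

theorem orb_card_ge (hpn : p ∣ n) (hpp : p * p ≤ n)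
    (h0 : ∀ π ∈ Pi, π 0 = 0)
    (hshift : ∀ π ∈ Pi, ∀ a, ∃ π' ∈ Pi, ∀ b, π (a + b) = π a + π' b)
    (hprim : ∀ K : AddSubgroup (ZMod n), (∀ k ∈ K, ∀ π ∈ Pi, π k ∈ K) → K = ⊥ ∨ K = ⊤)
    (x : ZMod n) (hx : x ≠ 0) : n + 1 ≤ (orb n Pi x).card + p := by
  classical
  obtain ⟨hx0, hxcoset, hfib, _⟩ := orb_facts p n hpn h0 hshift hprim x hx
  have hbad := bad_le p n hpn h0 hshift hprim x hx
  obtain ⟨T, hTdef⟩ : ∃ T, T = orb n Pi x := ⟨_, rfl⟩
  rw [← hTdef] at hx0 hxcoset hfib hbad ⊢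
  have hT : InvF n Pi T := by rw [hTdef]; exact orb_inv n x
  have hxT : x ∈ T := by rw [hTdef]; exact self_mem_orb n x
  have hp2 := hp.out.two_le
  have hn0 : 0 < n := Nat.pos_of_ne_zero (NeZero.ne n)
  have hge : p ≤ T.card := by
    by_contra hlt
    have hall : ∀ t ∈ T, (p : ZMod n) * t = 0 := by
      intro t ht
      by_contra hpt
      exact hlt (hfib t ht hpt)
    have hK := hprim (AddSubgroup.closure (T : Set (ZMod n))) (closure_inv n h0 hshift T hT)
    rcases hK with hK | hK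
    · have : x ∈ AddSubgroup.closure (T : Set (ZMod n)) := AddSubgroup.subset_closure hxT
      rw [hK, AddSubgroup.mem_bot] at this
      exact hx this
    · have h1 : (1 : ZMod n) ∈ AddSubgroup.closure (T : Set (ZMod n)) := by
        rw [hK]; exact AddSubgroup.mem_top _
      have hsub : ∀ k ∈ AddSubgroup.closure (T : Set (ZMod n)), (p : ZMod n) * k = 0 := by
        intro k hk
        induction hk using AddSubgroup.closure_induction with
        | mem x hx => exact hall x hx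
        | zero => simp
        | add x y _ _ hx hy => rw [mul_add, hx, hy, add_zero]
        | neg x _ hx => rw [mul_neg, hx, neg_zero]
      have h2 := hsub 1 h1
      rw [mul_one, ZMod.natCast_eq_zero_iff] at h2
      have h3 := Nat.le_of_dvd hp.out.pos h2
      nlinarith
  have hle : T.card + 1 ≤ n := by
    have h1 : T ⊆ Finset.univ.erase 0 := by
      intro t ht; rw [Finset.mem_erase]; exact ⟨by rintro rfl; exact hx0 ht, Finset.mem_univ _⟩
    have h2 := Finset.card_le_card h1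
    rw [Finset.card_erase_of_mem (Finset.mem_univ _), Finset.card_univ, ZMod.card] at h2
    omega
  have hdc := double_count n T
  have hsum : ∑ h : ZMod n, (T.filter (fun t => t + h ∉ T)).card ≤ (n - 1) * (p - 1) := by
    rw [← Finset.sum_erase_add _ _ (Finset.mem_univ (0 : ZMod n))]
    have hz : (T.filter (fun t => t + (0 : ZMod n) ∉ T)).card = 0 := by
      rw [Finset.card_eq_zero, Finset.filter_eq_empty_iff]
      intro t ht; simpa using ht
    rw [hz, add_zero]
    calc ∑ h ∈ Finset.univ.erase (0 : ZMod n), (T.filter (fun t => t + h ∉ T)).card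
        ≤ ∑ h ∈ Finset.univ.erase (0 : ZMod n), (p - 1) :=
          Finset.sum_le_sum (fun h hh => hbad h (Finset.ne_of_mem_erase hh))
      _ = (n - 1) * (p - 1) := by
          rw [Finset.sum_const, Finset.card_erase_of_mem (Finset.mem_univ _), Finset.card_univ,
            ZMod.card, smul_eq_mul]
  rw [hdc] at hsum
  by_contra hcon
  push Not at hcon
  obtain ⟨d, hd⟩ : ∃ d, d = T.card := ⟨_, rfl⟩
  rw [← hd] at hsum hge hle hcon
  obtain ⟨e, he⟩ : ∃ e, e = n - d := ⟨_, rfl⟩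
  rw [← he] at hsum
  have hne : n = d + e := by omega
  have hpe : p ≤ e := by omega
  have hz1 : ((n - 1 : ℕ) : ℤ) = (n : ℤ) - 1 := by
    rw [Nat.cast_sub (by omega)]; simp
  have hz2 : ((p - 1 : ℕ) : ℤ) = (p : ℤ) - 1 := by
    rw [Nat.cast_sub (by omega)]; simp
  have hsumZ : (d : ℤ) * e ≤ ((n : ℤ) - 1) * ((p : ℤ) - 1) := by
    rw [← hz1, ← hz2]; exact_mod_cast hsum
  have hneZ : (n : ℤ) = d + e := by exact_mod_cast hne
  have hppZ : (p : ℤ) * p ≤ n := by exact_mod_cast hpp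
  have h1 : (0 : ℤ) ≤ (d : ℤ) - p := by
    have : (p : ℤ) ≤ d := by exact_mod_cast hge
    linarith
  have h2 : (0 : ℤ) ≤ (e : ℤ) - p := by
    have : (p : ℤ) ≤ e := by exact_mod_cast hpe
    linarith
  have hp2Z : (2 : ℤ) ≤ p := by exact_mod_cast hp2
  nlinarith [mul_nonneg h1 h2]

theorem abstract_main_general (hpn : p ∣ n) (hpp : p * p ≤ n)
    (h0 : ∀ π ∈ Pi, π 0 = 0)
    (hshift : ∀ π ∈ Pi, ∀ a, ∃ π' ∈ Pi, ∀ b, π (a + b) = π a + π' b)
    (hprim : ∀ K : AddSubgroup (ZMod n), (∀ k ∈ K, ∀ π ∈ Pi, π k ∈ K) → K = ⊥ ∨ K = ⊤)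
    (x y : ZMod n) (hx : x ≠ 0) (hy : y ≠ 0) : ∃ π ∈ Pi, π x = y := by
  classical
  have h1 := orb_card_ge p n hpn hpp h0 hshift hprim x hx
  have h2 := orb_card_ge p n hpn hpp h0 hshift hprim y hy
  obtain ⟨hx0, _⟩ := orb_facts p n hpn h0 hshift hprim x hx
  obtain ⟨hy0, _⟩ := orb_facts p n hpn h0 hshift hprim y hy
  have hp2 := hp.out.two_le
  by_contra hcon
  have hdisj : Disjoint (orb n Pi x) (orb n Pi y) := by
    rw [Finset.disjoint_left]
    intro w hwx hwy
    rw [mem_orb] at hwx hwy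
    obtain ⟨π₁, hπ₁, e1⟩ := hwx
    obtain ⟨π₂, hπ₂, e2⟩ := hwy
    apply hcon
    refine ⟨π₂⁻¹ * π₁, Pi.mul_mem (Pi.inv_mem hπ₂) hπ₁, ?_⟩
    rw [Equiv.Perm.mul_apply, e1, ← e2]; simp
  have hsub : orb n Pi x ∪ orb n Pi y ⊆ Finset.univ.erase 0 := by
    intro t ht
    rw [Finset.mem_union] at ht
    rw [Finset.mem_erase]
    refine ⟨?_, Finset.mem_univ _⟩
    rintro rfl
    rcases ht with h | h
    · exact hx0 h
    · exact hy0 h
  have h3 := Finset.card_le_card hsub
  rw [Finset.card_union_of_disjoint hdisj, Finset.card_erase_of_mem (Finset.mem_univ _),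
    Finset.card_univ, ZMod.card] at h3
  have hn0 : 0 < n := Nat.pos_of_ne_zero (NeZero.ne n)
  have h4 : 2 * p ≤ p * p := Nat.mul_le_mul_right p hp2
  omega

end general


section grp2

variable {Ω : Type*} (n : ℕ) [NeZero n] (G : Subgroup (Equiv.Perm Ω))
  (c : ZMod n → Equiv.Perm Ω) (ee : ZMod n ≃ Ω)
variable (hcG : ∀ k, c k ∈ G) (hcadd : ∀ j k, c (j + k) = c j * c k)
  (hee : ∀ k, ee k = c k (ee 0))

include hcG hcadd hee in
/-- an invariant subgroup gives a block. -/
theorem block_of_inv (K : AddSubgroup (ZMod n))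
    (hKinv : ∀ k ∈ K, ∀ π ∈ PiG n G ee, π k ∈ K) :
    ∀ σ ∈ G, ∀ ω ∈ (ee '' (K : Set (ZMod n))), σ ω ∈ (ee '' (K : Set (ZMod n))) →
      σ ∈ MulAction.stabilizer (Equiv.Perm Ω) (ee '' (K : Set (ZMod n))) := by
  have hmaps : ∀ σ ∈ G, ∀ a ∈ K, ee.symm (σ (ee a)) ∈ K → ∀ b ∈ K, ee.symm (σ (ee b)) ∈ K := by
    intro σ hσ a ha ha' b hb
    obtain ⟨π', hπ', h⟩ := shift_general n G c ee hcG hcadd hee σ hσ a
    have h1 := h (b - a)
    rw [add_sub_cancel] at h1
    rw [h1]
    exact K.add_mem ha' (hKinv _ (K.sub_mem hb ha) π' hπ')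
  intro σ hσ ω hω hσω
  obtain ⟨a, ha, rfl⟩ := hω
  obtain ⟨a', ha', hea'⟩ := hσω
  have haa' : ee.symm (σ (ee a)) = a' := by rw [← hea']; simp
  rw [MulAction.mem_stabilizer_set]
  intro b'
  constructor
  · rintro ⟨e, he, hee'⟩
    have h1 := hmaps σ⁻¹ (G.inv_mem hσ) a' ha' (by
      rw [hea']; simpa using ha) e he
    have h2 : σ⁻¹ (ee e) = b' := by
      rw [hee']; simp
    rw [h2] at h1
    exact ⟨_, h1, by simp⟩
  · rintro ⟨b, hb, rfl⟩
    have h1 := hmaps σ hσ a ha (by rw [haa']; exact ha') b hb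
    exact ⟨_, h1, by simp⟩

include hcG hcadd hee in
theorem prim_or_two_trans (p : ℕ) [hp : Fact p.Prime] (hpn : p ∣ n) (hpp : p * p ≤ n) :
    (∃ B : Set Ω, ∃ α β γ : Ω, α ∈ B ∧ β ∈ B ∧ α ≠ β ∧ γ ∉ B ∧
      (∀ σ ∈ G, ∀ ω ∈ B, σ ω ∈ B → σ ∈ MulAction.stabilizer (Equiv.Perm Ω) B)) ∨
    MulAction.IsMultiplyPretransitive G Ω 2 := by
  by_cases hex : ∃ K : AddSubgroup (ZMod n),
      (∀ k ∈ K, ∀ π ∈ PiG n G ee, π k ∈ K) ∧ K ≠ ⊥ ∧ K ≠ ⊤
  · left
    obtain ⟨K, hKinv, hKbot, hKtop⟩ := hex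
    obtain ⟨k, hk, hk0⟩ : ∃ k ∈ K, k ≠ 0 := by
      by_contra hcon
      push Not at hcon
      apply hKbot
      rw [eq_bot_iff]
      intro k hk
      rw [AddSubgroup.mem_bot]
      exact hcon k hk
    obtain ⟨k', hk'⟩ : ∃ k', k' ∉ K := by
      by_contra hcon
      push Not at hcon
      apply hKtop
      rw [eq_top_iff]
      intro k _
      exact hcon k
    refine ⟨ee '' (K : Set (ZMod n)), ee 0, ee k, ee k', ⟨0, K.zero_mem, rfl⟩, ⟨k, hk, rfl⟩,
      ?_, ?_, block_of_inv n G c ee hcG hcadd hee K hKinv⟩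
    · intro h; exact hk0 (ee.injective h).symm
    · rintro ⟨j, hj, hjk⟩
      exact hk' (by rw [← ee.injective hjk]; exact hj)
  · right
    apply two_trans n G c ee hcG hcadd hee
    apply abstract_main_general p n hpn hpp (PiG_zero n G ee)
      (PiG_shift n G c ee hcG hcadd hee)
    intro K hK
    by_contra hcon
    push Not at hcon
    exact hex ⟨K, hK, hcon.1, hcon.2⟩

end grp2

section final3

/-- Burnside–Schur: a transitive group of composite degree containing a regular cyclic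
subgroup is imprimitive or doubly transitive. -/
theorem final_general {G Ω : Type*} [Group G] [MulAction G Ω] [Finite Ω]
    (hn : 2 ≤ Nat.card Ω) (hnp : ¬ (Nat.card Ω).Prime)
    (C : Subgroup G) (hcyc : IsCyclic ↥C)
    (hC : MulAction.IsPretransitive ↥C Ω ∧ ∀ a : Ω, MulAction.stabilizer ↥C a = ⊥) :
    ¬ MulAction.IsPreprimitive G Ω ∨ MulAction.IsMultiplyPretransitive G Ω 2 := by
  classical
  obtain ⟨n, hn_def⟩ : ∃ n, n = Nat.card Ω := ⟨_, rfl⟩
  rw [← hn_def] at hn hnp
  haveI : NeZero n := ⟨by omega⟩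
  obtain ⟨p, hp_def⟩ : ∃ p, p = n.minFac := ⟨_, rfl⟩
  haveI : Fact p.Prime := ⟨by rw [hp_def]; exact Nat.minFac_prime (by omega)⟩
  have hpn : p ∣ n := by rw [hp_def]; exact Nat.minFac_dvd n
  have hpp : p * p ≤ n := by
    have := Nat.minFac_sq_le_self (by omega : 0 < n) hnp
    rw [hp_def, ← sq]; exact this
  haveI : Nonempty Ω := by
    have : 0 < Nat.card Ω := by omega
    exact (Nat.card_pos_iff.1 this).1
  obtain ⟨α⟩ := ‹Nonempty Ω›
  obtain ⟨g₀, hg₀⟩ := hcyc.exists_generator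
  have hCcard : Nat.card C = n := by
    rw [hn_def]
    apply Nat.card_congr
    refine Equiv.ofBijective (fun h : C => h • α) ⟨?_, ?_⟩
    · intro h h' hh
      have h1 : h'⁻¹ * h ∈ MulAction.stabilizer C α := by
        rw [MulAction.mem_stabilizer_iff, mul_smul]
        simp only at hh
        rw [hh, inv_smul_smul]
      rw [hC.2 α, Subgroup.mem_bot] at h1
      exact (inv_mul_eq_one.1 h1).symm
    · intro ω
      exact hC.1.exists_smul_eq α ω
  have hord : orderOf g₀ = n := by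
    rw [← hCcard]; exact orderOf_eq_card_of_forall_mem_zpowers hg₀
  obtain ⟨σ₀, hσ₀⟩ : ∃ σ₀ : Equiv.Perm Ω, σ₀ = MulAction.toPermHom G Ω (g₀ : G) := ⟨_, rfl⟩
  have hσ₀n : σ₀ ^ n = 1 := by
    have h1 : (g₀ : G) ^ n = 1 := by
      rw [← Subgroup.coe_pow, ← hord, pow_orderOf_eq_one]; rfl
    rw [hσ₀, ← map_pow, h1, map_one]
  obtain ⟨G', hG'⟩ : ∃ G' : Subgroup (Equiv.Perm Ω), G' = (MulAction.toPermHom G Ω).range :=
    ⟨_, rfl⟩
  obtain ⟨c, hc⟩ : ∃ c : ZMod n → Equiv.Perm Ω, c = fun k => σ₀ ^ k.val := ⟨_, rfl⟩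
  have hcG : ∀ k, c k ∈ G' := by
    intro k
    rw [hc, hG']
    exact Subgroup.pow_mem _ (by rw [hσ₀]; exact MonoidHom.mem_range.2 ⟨_, rfl⟩) _
  have hpowmod : ∀ j : ℕ, σ₀ ^ (j % n) = σ₀ ^ j := by
    intro j
    conv_rhs => rw [← Nat.mod_add_div j n]
    rw [pow_add, pow_mul, hσ₀n, one_pow, mul_one]
  have hcadd : ∀ j k, c (j + k) = c j * c k := by
    intro j k
    rw [hc]
    simp only
    rw [← pow_add, ZMod.val_add, hpowmod]
  have hsurj : Function.Surjective (fun k : ZMod n => c k α) := by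
    intro ω
    obtain ⟨h, hh⟩ := hC.1.exists_smul_eq α ω
    have hmem := hg₀ h
    rw [Subgroup.mem_zpowers_iff] at hmem
    obtain ⟨i, hi⟩ := hmem
    obtain ⟨j, hj⟩ : ∃ j : ℕ, g₀ ^ j = h := by
      refine ⟨(i % (n : ℤ)).toNat, ?_⟩
      rw [← zpow_natCast, Int.toNat_of_nonneg
        (Int.emod_nonneg _ (by exact_mod_cast (NeZero.ne n))), ← hi, ← hord]
      exact zpow_mod_orderOf g₀ i
    refine ⟨(j : ZMod n), ?_⟩
    simp only
    rw [hc]
    simp only
    rw [ZMod.val_natCast, hpowmod, hσ₀, ← map_pow, ← hh, ← hj]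
    rfl
  have hbij : Function.Bijective (fun k : ZMod n => c k α) := by
    rw [Nat.bijective_iff_surjective_and_card]
    exact ⟨hsurj, by rw [Nat.card_zmod, hn_def]⟩
  obtain ⟨ee, hee0⟩ : ∃ ee : ZMod n ≃ Ω, ∀ k, ee k = c k α :=
    ⟨Equiv.ofBijective _ hbij, fun k => rfl⟩
  have hc0 : c 0 = 1 := by rw [hc]; simp
  have hee : ∀ k, ee k = c k (ee 0) := by
    intro k; rw [hee0 0, hc0, hee0 k]; rfl
  rcases prim_or_two_trans n G' c ee hcG hcadd hee p hpn hpp with hB | h2t
  · left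
    obtain ⟨B, a, b, γ, ha, hb, hab, hγ, hblock⟩ := hB
    intro hprim
    have hB : MulAction.IsBlock G B := by
      rw [MulAction.isBlock_iff_smul_eq_of_mem]
      intro g' x hx hgx
      have hs := hblock (MulAction.toPermHom G Ω g')
        (by rw [hG']; exact MonoidHom.mem_range.2 ⟨_, rfl⟩) x hx hgx
      exact MulAction.mem_stabilizer_iff.1 hs
    rcases hprim.isTrivialBlock_of_isBlock hB with h | h
    · exact hab (h ha hb)
    · exact hγ (by rw [h]; exact Set.mem_univ _)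
  · right
    rw [MulAction.is_two_pretransitive_iff] at h2t ⊢
    intro a b c' d hab hcd
    obtain ⟨⟨σ, hσ⟩, h1, h2⟩ := h2t hab hcd
    rw [hG'] at hσ
    obtain ⟨g', rfl⟩ := MonoidHom.mem_range.1 hσ
    exact ⟨g', h1, h2⟩

end final3

end Cfsg.Agent.Lib.Helper57.BSchur
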