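import Mathlib

set_option autoImplicit false
set_option linter.unusedSectionVars false
set_option linter.unusedVariables false
set_option linter.style.haveILetI false
open scoped BigOperators

namespace Cfsg.Agent.Lib.Helper57.Gheri

universe u v

section abel

variable {A : Type u} [CommGroup A]

/-- fixed points of an automorphism, as a subgroup -/
def fixS (θ : MulAut A) : Subgroup A where
  carrier := {a | θ a = a}
  mul_mem' := by
    intro a b ha hb
    show θ (a * b) = a * b
    rw [map_mul, show θ a = a from ha, show θ b = b from hb]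
  one_mem' := map_one θ
  inv_mem' := by
    intro a ha
    show θ a⁻¹ = a⁻¹
    rw [map_inv, show θ a = a from ha]

theorem mem_fixS {θ : MulAut A} {a : A} : a ∈ fixS θ ↔ θ a = a := Iff.rfl

theorem pow_fix {θ : MulAut A} {a : A} (h : θ a = a) (k : ℕ) : (θ ^ k) a = a := by
  induction k with
  | zero => simp
  | succ k ih => rw [pow_succ, MulAut.mul_apply, h, ih]

theorem commute_apply {σ τ : MulAut A} (h : Commute σ τ) (a : A) : σ (τ a) = τ (σ a) := by
  have := congrArg (fun f : MulAut A => f a) h.eq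
  simpa [MulAut.mul_apply] using this

/-- the key computation -/
theorem key_fix (p : ℕ) [Fact p.Prime] [Finite A] (hA : (Nat.card A).Coprime p)
    (σ τ : MulAut A) (hc : Commute σ τ) (hτ : τ ^ p = 1)
    (t : Fin p → A) (ht : ∀ j : Fin p, (σ * τ ^ (j : ℕ)) (t j) = t j)
    (hs : τ (∏ j, t j) = ∏ j, t j) (i : Fin p) : τ (t i) = t i := by
  classical
  have hp : p.Prime := Fact.out
  obtain ⟨θ, hθ⟩ : ∃ θ : MulAut A, θ = σ * τ ^ (i : ℕ) := ⟨_, rfl⟩
  have hcθ : Commute τ θ := by
    rw [hθ]
    exact (hc.symm).mul_right (Commute.pow_right (Commute.refl τ) _)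
  obtain ⟨Nm, hNm⟩ : ∃ Nm : A → A, Nm = fun a => ∏ k ∈ Finset.range p, (θ ^ k) a := ⟨_, rfl⟩
  -- Nm of the product
  have hNprod : Nm (∏ j, t j) = ∏ j, Nm (t j) := by
    simp only [hNm, map_prod]
    exact Finset.prod_comm
  -- Nm s is fixed by τ
  have hNs : Nm (∏ j, t j) ∈ fixS τ := by
    rw [hNm]
    refine Subgroup.prod_mem (fixS τ) (fun k _ => ?_)
    rw [mem_fixS, commute_apply (hcθ.pow_right k), hs]
  -- Nm (t j) fixed by τ for j ≠ i
  have hNj : ∀ j : Fin p, j ≠ i → Nm (t j) ∈ fixS τ := by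
    intro j hji
    set d : ℕ := (i : ℕ) + (p - (j : ℕ)) with hd
    have hθd : θ = τ ^ d * (σ * τ ^ (j : ℕ)) := by
      have h1 : τ ^ d * (σ * τ ^ (j : ℕ)) = σ * (τ ^ d * τ ^ (j : ℕ)) := by
        rw [← mul_assoc, ← mul_assoc, (hc.symm.pow_left d).eq]
      rw [h1, ← pow_add, hd, show (i : ℕ) + (p - (j : ℕ)) + (j : ℕ) = (i : ℕ) + p by
        have := j.2; omega, pow_add, hτ, mul_one]
      exact hθ
    have h2 : θ (t j) = (τ ^ d) (t j) := by
      rw [hθd, MulAut.mul_apply, ht j]
    have h3 : (θ ^ p) (t j) = t j := by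
      have hcc : Commute (τ ^ d) (σ * τ ^ (j : ℕ)) :=
        (hc.symm.pow_left d).mul_right (Commute.pow_pow (Commute.refl τ) _ _)
      rw [hθd, hcc.mul_pow, ← pow_mul, mul_comm d p, pow_mul, hτ, one_pow, one_mul]
      exact pow_fix (ht j) p
    have h4 : (τ ^ d) (Nm (t j)) = Nm (t j) := by
      simp only [hNm, map_prod]
      have h5 : ∀ k ∈ Finset.range p, (τ ^ d) ((θ ^ k) (t j)) = (θ ^ (k + 1)) (t j) := by
        intro k _
        rw [commute_apply ((hcθ.pow_left d).pow_right k), ← h2, pow_succ]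
        rfl
      rw [Finset.prod_congr rfl h5]
      have h6 := Finset.prod_range_succ' (fun k => (θ ^ k) (t j)) p
      have h7 := Finset.prod_range_succ (fun k => (θ ^ k) (t j)) p
      rw [h7, h3] at h6
      simp only [pow_zero, MulAut.one_apply] at h6
      exact (mul_right_cancel h6).symm
    have h8 : (τ ^ p) (Nm (t j)) = Nm (t j) := by rw [hτ]; rfl
    have hdp : ¬ p ∣ d := by
      intro hdvd
      have hd0 : d ≠ 0 := by have := j.2; omega
      have hlt : d < 2 * p := by have := i.2; have := j.2; omega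
      have := Nat.eq_of_dvd_of_lt_two_mul hd0 hdvd hlt
      apply hji
      apply Fin.ext
      have := j.2; omega
    have h9 : MulAction.period τ (Nm (t j)) ∣ d :=
      MulAction.pow_smul_eq_iff_period_dvd.1 h4
    have h10 : MulAction.period τ (Nm (t j)) ∣ p :=
      MulAction.pow_smul_eq_iff_period_dvd.1 h8
    have h11 : MulAction.period τ (Nm (t j)) = 1 := by
      rcases (Nat.dvd_prime hp).1 h10 with h | h
      · exact h
      · rw [h] at h9; exact absurd h9 hdp
    exact MulAction.period_eq_one_iff.1 h11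
  have hNi : Nm (t i) = t i ^ p := by
    have hti : θ (t i) = t i := by rw [hθ]; exact ht i
    simp only [hNm]
    rw [Finset.prod_congr rfl (fun k _ => pow_fix hti k), Finset.prod_const, Finset.card_range]
  have hpow : t i ^ p ∈ fixS τ := by
    have h1 : Nm (t i) * ∏ j ∈ Finset.univ.erase i, Nm (t j) = Nm (∏ j, t j) := by
      rw [hNprod]
      exact Finset.mul_prod_erase Finset.univ (fun j => Nm (t j)) (Finset.mem_univ i)
    have h2 : Nm (t i) = Nm (∏ j, t j) * (∏ j ∈ Finset.univ.erase i, Nm (t j))⁻¹ := by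
      rw [← h1, mul_inv_cancel_right]
    rw [← hNi, h2]
    exact Subgroup.mul_mem _ hNs (Subgroup.inv_mem _
      (Subgroup.prod_mem _ (fun j hj => hNj j (Finset.ne_of_mem_erase hj))))
  rw [mem_fixS, map_pow] at hpow
  have h12 : (τ (t i) * (t i)⁻¹) ^ p = 1 := by
    rw [mul_pow, hpow, inv_pow, mul_inv_cancel]
  have h13 : orderOf (τ (t i) * (t i)⁻¹) ∣ p := orderOf_dvd_of_pow_eq_one h12
  have h14 : orderOf (τ (t i) * (t i)⁻¹) ∣ Nat.card A := orderOf_dvd_natCard _
  have h15 : orderOf (τ (t i) * (t i)⁻¹) = 1 := Nat.eq_one_of_dvd_coprimes hA h14 h13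
  rw [orderOf_eq_one_iff] at h15
  exact mul_inv_eq_one.1 h15

/-- the counting inequality (**) -/
theorem starstar (p : ℕ) [Fact p.Prime] [Finite A] (hA : (Nat.card A).Coprime p)
    (σ τ : MulAut A) (hc : Commute σ τ) (hτ : τ ^ p = 1) :
    (∏ j : Fin p, Nat.card (fixS (σ * τ ^ (j : ℕ)))) * Nat.card (fixS τ) ≤
      Nat.card (fixS σ ⊓ fixS τ : Subgroup A) ^ p * Nat.card A := by
  classical
  let μ : ((j : Fin p) → fixS (σ * τ ^ (j : ℕ))) × fixS τ →* A :=
    { toFun := fun x => (∏ j, (x.1 j : A)) * (x.2 : A)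
      map_one' := by simp
      map_mul' := by
        intro x y
        simp only [Prod.fst_mul, Prod.snd_mul, Pi.mul_apply, Subgroup.coe_mul,
          Finset.prod_mul_distrib]
        exact mul_mul_mul_comm _ _ _ _ }
  have h1 : Nat.card (((j : Fin p) → fixS (σ * τ ^ (j : ℕ))) × fixS τ) =
      Nat.card μ.ker * Nat.card μ.range := by
    rw [← Subgroup.index_ker, Subgroup.card_mul_index]
  have h2 : Nat.card μ.range ≤ Nat.card A := Subgroup.card_le_card_group _
  have h3 : Nat.card μ.ker ≤ Nat.card (fixS σ ⊓ fixS τ : Subgroup A) ^ p := by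
    have hmem : ∀ x ∈ μ.ker, ∀ i, (x.1 i : A) ∈ fixS σ ⊓ fixS τ := by
      intro x hx i
      have hx1 : (∏ j, (x.1 j : A)) * (x.2 : A) = 1 := hx
      have hs : τ (∏ j, (x.1 j : A)) = ∏ j, (x.1 j : A) := by
        have : (∏ j, (x.1 j : A)) = (x.2 : A)⁻¹ := eq_inv_of_mul_eq_one_left hx1
        rw [this, map_inv, show τ (x.2 : A) = x.2 from x.2.2]
      have hτi := key_fix p hA σ τ hc hτ (fun j => (x.1 j : A)) (fun j => (x.1 j).2) hs i
      refine ⟨?_, hτi⟩
      have h := (x.1 i).2
      rw [mem_fixS, MulAut.mul_apply, pow_fix hτi] at h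
      exact h
    let f : μ.ker → (Fin p → (fixS σ ⊓ fixS τ : Subgroup A)) :=
      fun x i => ⟨(x.1.1 i : A), hmem x.1 x.2 i⟩
    have hf : Function.Injective f := by
      intro x y hxy
      have h1 : ∀ i, (x.1.1 i : A) = (y.1.1 i : A) := fun i =>
        congrArg (fun g => ((g i : (fixS σ ⊓ fixS τ : Subgroup A)) : A)) hxy
      apply Subtype.ext
      apply Prod.ext
      · funext i; exact Subtype.ext (h1 i)
      · apply Subtype.ext
        have hx1 : (∏ j, (x.1.1 j : A)) * (x.1.2 : A) = 1 := x.2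
        have hy1 : (∏ j, (y.1.1 j : A)) * (y.1.2 : A) = 1 := y.2
        rw [Finset.prod_congr rfl (fun j _ => h1 j)] at hx1
        exact mul_left_cancel (hx1.trans hy1.symm)
    calc Nat.card μ.ker ≤ Nat.card (Fin p → (fixS σ ⊓ fixS τ : Subgroup A)) :=
          Nat.card_le_card_of_injective f hf
      _ = _ := by rw [Nat.card_fun]; simp
  rw [← Nat.card_pi, ← Nat.card_prod, h1]
  exact Nat.mul_le_mul h3 h2

/-- restriction of an action to an invariant subgroup -/
def resHom {P₀ : Type v} [Group P₀] (ρ : P₀ →* MulAut A) (W : Subgroup A)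
    (hW : ∀ y, ∀ a ∈ W, ρ y a ∈ W) : P₀ →* MulAut W where
  toFun y :=
    { toFun := fun w => ⟨ρ y w, hW y w w.2⟩
      invFun := fun w => ⟨ρ y⁻¹ w, hW y⁻¹ w w.2⟩
      left_inv := by
        intro w
        apply Subtype.ext
        show ρ y⁻¹ (ρ y w) = w
        rw [← MulAut.mul_apply, ← map_mul, inv_mul_cancel, map_one]; rfl
      right_inv := by
        intro w
        apply Subtype.ext
        show ρ y (ρ y⁻¹ w) = w
        rw [← MulAut.mul_apply, ← map_mul, mul_inv_cancel, map_one]; rfl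
      map_mul' := by
        intro a b
        apply Subtype.ext
        show ρ y ((a : A) * (b : A)) = ρ y a * ρ y b
        exact map_mul _ _ _ }
  map_one' := by
    ext w
    show ρ 1 (w : A) = w
    rw [map_one]; rfl
  map_mul' := by
    intro y y'
    ext w
    show ρ (y * y') (w : A) = ρ y (ρ y' w)
    rw [map_mul]; rfl

theorem resHom_apply {P₀ : Type v} [Group P₀] (ρ : P₀ →* MulAut A) (W : Subgroup A)
    (hW : ∀ y, ∀ a ∈ W, ρ y a ∈ W) (y : P₀) (w : W) :
    ((resHom ρ W hW y w : W) : A) = ρ y w := rfl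

theorem abel (p : ℕ) [Fact p.Prime] {P₀ : Type v} [Group P₀] [Fintype P₀] (hP : IsPGroup p P₀) :
    ∀ (n : ℕ) (A : Type u) [CommGroup A] [Finite A] (ρ : P₀ →* MulAut A),
      Nat.card A = n → (Nat.card A).Coprime p →
      (∏ y : P₀, Nat.card (fixS (ρ y))) ^ p ≤
        Nat.card A ^ Fintype.card P₀ *
          Nat.card {a : A // ∀ y, ρ y a = a} ^ ((p - 1) * Fintype.card P₀) := by
  intro n
  induction n using Nat.strong_induction_on with
  | _ n ih =>
  intro A _ _ ρ hn hA
  have hp : p.Prime := Fact.out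
  by_cases htriv : ∀ y, ρ y = 1
  · have h1 : ∀ y, Nat.card (fixS (ρ y)) = Nat.card A := by
      intro y
      have : fixS (ρ y) = ⊤ := by
        ext a; simp [mem_fixS, htriv y]
      rw [this, Subgroup.card_top]
    have h2 : Nat.card {a : A // ∀ y, ρ y a = a} = Nat.card A := by
      apply Nat.card_congr
      exact Equiv.subtypeUnivEquiv (fun a y => by rw [htriv y]; rfl)
    rw [Finset.prod_congr rfl (fun y _ => h1 y), h2, Finset.prod_const, Finset.card_univ,
      ← pow_mul, ← pow_add]
    apply le_of_eq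
    congr 1
    have := hp.one_lt
    obtain ⟨q, rfl⟩ : ∃ q, p = q + 1 := ⟨p - 1, by omega⟩
    simp only [Nat.add_sub_cancel]
    ring
  · push Not at htriv
    haveI : Finite P₀ := Finite.of_fintype P₀
    have hI : IsPGroup p ρ.range := hP.of_surjective ρ.rangeRestrict ρ.rangeRestrict_surjective
    haveI : Finite ρ.range := (Set.finite_range ρ).to_subtype
    haveI : Nontrivial ρ.range := by
      obtain ⟨y, hy⟩ := htriv
      exact ⟨⟨⟨ρ y, y, rfl⟩, 1, fun h => hy (congrArg Subtype.val h)⟩⟩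
    haveI := hI.center_nontrivial
    have hZ : IsPGroup p (Subgroup.center ρ.range) := hI.to_subgroup _
    obtain ⟨k, hk⟩ := IsPGroup.iff_card.1 hZ
    have hk0 : k ≠ 0 := by
      rintro rfl
      rw [pow_zero] at hk
      exact (Finite.one_lt_card (α := Subgroup.center ρ.range)).ne' hk
    obtain ⟨c, hc⟩ := exists_prime_orderOf_dvd_card' (G := Subgroup.center ρ.range) p
      (by rw [hk]; exact dvd_pow_self p hk0)
    obtain ⟨z, hz⟩ : ∃ z, ρ z = ((c : ρ.range) : MulAut A) := (c : ρ.range).2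
    obtain ⟨τ, hτdef⟩ : ∃ τ : MulAut A, τ = ρ z := ⟨_, rfl⟩
    have hτc : τ = ((c : ρ.range) : MulAut A) := hτdef.trans hz
    have hτp : τ ^ p = 1 := by
      have h1 := pow_orderOf_eq_one c
      rw [hc] at h1
      have h2 := congrArg (fun x : Subgroup.center ρ.range => ((x : ρ.range) : MulAut A)) h1
      simp only [Subgroup.coe_pow, Subgroup.coe_one] at h2
      rw [hτc]; exact h2
    have hτ1 : τ ≠ 1 := by
      intro h
      have : c = 1 := by
        apply Subtype.ext; apply Subtype.ext; rw [← hτc]; exact h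
      rw [this, orderOf_one] at hc
      exact hp.one_lt.ne hc
    have hcomm : ∀ y, Commute (ρ y) τ := by
      intro y
      have h1 := Subgroup.mem_center_iff.1 c.2 ⟨ρ y, y, rfl⟩
      have h2 := congrArg (fun x : ρ.range => (x : MulAut A)) h1
      simp only [Subgroup.coe_mul] at h2
      rw [← hτc] at h2
      exact h2
    -- the subgroup W
    have hWinv : ∀ y, ∀ a ∈ fixS τ, ρ y a ∈ fixS τ := by
      intro y a ha
      rw [mem_fixS] at ha ⊢
      rw [← commute_apply (hcomm y), ha]
    have hWne : fixS τ ≠ ⊤ := by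
      intro h
      apply hτ1
      ext a
      have : a ∈ fixS τ := by rw [h]; trivial
      exact this
    have hWlt : Nat.card (fixS τ) < n := by
      rw [← hn]
      exact lt_of_le_of_ne (Subgroup.card_le_card_group _)
        (fun h => hWne ((Subgroup.card_eq_iff_eq_top _).1 h))
    have hWcop : (Nat.card (fixS τ)).Coprime p :=
      Nat.Coprime.coprime_dvd_left (Subgroup.card_subgroup_dvd_card _) hA
    have IH := ih _ hWlt (fixS τ) (resHom ρ (fixS τ) hWinv) rfl hWcop
    have e1 : ∀ y, Nat.card (fixS (resHom ρ (fixS τ) hWinv y)) =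
        Nat.card (fixS (ρ y) ⊓ fixS τ : Subgroup A) := by
      intro y
      apply Nat.card_congr
      exact
        { toFun := fun w => ⟨w.1.1, ⟨congrArg Subtype.val w.2, w.1.2⟩⟩
          invFun := fun a => ⟨⟨a.1, a.2.2⟩, Subtype.ext a.2.1⟩
          left_inv := fun w => rfl
          right_inv := fun a => rfl }
    have e2 : Nat.card {w : fixS τ // ∀ y, resHom ρ (fixS τ) hWinv y w = w} =
        Nat.card {a : A // ∀ y, ρ y a = a} := by
      apply Nat.card_congr
      exact
        { toFun := fun w => ⟨w.1.1, fun y => congrArg Subtype.val (w.2 y)⟩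
          invFun := fun a => ⟨⟨a.1, by rw [mem_fixS, hτdef]; exact a.2 z⟩,
            fun y => Subtype.ext (a.2 y)⟩
          left_inv := fun w => rfl
          right_inv := fun a => rfl }
    rw [Finset.prod_congr rfl (fun y _ => e1 y), e2] at IH
    -- (**) for each y
    have hss : ∀ y : P₀, (∏ j : Fin p, Nat.card (fixS (ρ (y * z ^ (j : ℕ))))) *
        Nat.card (fixS τ) ≤ Nat.card (fixS (ρ y) ⊓ fixS τ : Subgroup A) ^ p * Nat.card A := by
      intro y
      have h := starstar p hA (ρ y) τ (hcomm y) hτp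
      have h2 : ∀ j : Fin p, ρ (y * z ^ (j : ℕ)) = ρ y * τ ^ (j : ℕ) := by
        intro j; rw [map_mul, map_pow, hτdef]
      rw [Finset.prod_congr rfl (fun j _ => by rw [h2 j])]
      exact h
    -- reindexing
    have hre : (∏ y : P₀, Nat.card (fixS (ρ y))) ^ p =
        ∏ y : P₀, ∏ j : Fin p, Nat.card (fixS (ρ (y * z ^ (j : ℕ)))) := by
      rw [Finset.prod_comm]
      have h1 : ∀ j : Fin p, ∏ y : P₀, Nat.card (fixS (ρ (y * z ^ (j : ℕ)))) =
          ∏ y : P₀, Nat.card (fixS (ρ y)) := by
        intro j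
        exact Fintype.prod_equiv (Equiv.mulRight (z ^ (j : ℕ))) _ _ (fun y => rfl)
      rw [Finset.prod_congr rfl (fun j _ => h1 j), Finset.prod_const, Finset.card_univ,
        Fintype.card_fin]
    have hWpos : 0 < Nat.card (fixS τ) := Nat.card_pos
    have hfin : (∏ y : P₀, Nat.card (fixS (ρ y))) ^ p * Nat.card (fixS τ) ^ Fintype.card P₀ ≤
        (Nat.card A ^ Fintype.card P₀ *
          Nat.card {a : A // ∀ y, ρ y a = a} ^ ((p - 1) * Fintype.card P₀)) *
          Nat.card (fixS τ) ^ Fintype.card P₀ := by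
      calc (∏ y : P₀, Nat.card (fixS (ρ y))) ^ p * Nat.card (fixS τ) ^ Fintype.card P₀
          = ∏ y : P₀, ((∏ j : Fin p, Nat.card (fixS (ρ (y * z ^ (j : ℕ))))) *
              Nat.card (fixS τ)) := by
            rw [hre, Finset.prod_mul_distrib, Finset.prod_const, Finset.card_univ]
        _ ≤ ∏ y : P₀, (Nat.card (fixS (ρ y) ⊓ fixS τ : Subgroup A) ^ p * Nat.card A) :=
            Finset.prod_le_prod' (fun y _ => hss y)
        _ = (∏ y : P₀, Nat.card (fixS (ρ y) ⊓ fixS τ : Subgroup A)) ^ p *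
              Nat.card A ^ Fintype.card P₀ := by
            rw [Finset.prod_mul_distrib, Finset.prod_const, Finset.card_univ, Finset.prod_pow]
        _ ≤ (Nat.card (fixS τ) ^ Fintype.card P₀ *
              Nat.card {a : A // ∀ y, ρ y a = a} ^ ((p - 1) * Fintype.card P₀)) *
              Nat.card A ^ Fintype.card P₀ := Nat.mul_le_mul_right _ IH
        _ = _ := by ring
    exact Nat.le_of_mul_le_mul_right hfin (pow_pos hWpos _)

end abel

end Cfsg.Agent.Lib.Helper57.Gheri
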