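import Mathlib
import Cfsg.Agent.Lib.Helper57.GheriA
import Cfsg.Agent.S0022
import Cfsg.Agent.S0023
import Cfsg.Agent.S0024
import Cfsg.Agent.S0025
import Cfsg.Agent.S4090

set_option autoImplicit false
set_option linter.unusedSectionVars false
set_option linter.unusedVariables false
set_option linter.style.haveILetI false
open scoped BigOperators

namespace Cfsg.Agent.Lib.Helper57.Gheri

universe u v

section amb

variable {Γ : Type u} [Group Γ]

/-- order of `C_K(B)` -/
noncomputable def cz (K B : Subgroup Γ) : ℕ :=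
  Nat.card ↥(K ⊓ Subgroup.centralizer (B : Set Γ))

theorem cz_def (K B : Subgroup Γ) :
    cz K B = Nat.card ↥(K ⊓ Subgroup.centralizer (B : Set Γ)) := rfl

theorem cz_pos [Finite Γ] (K B : Subgroup Γ) : 0 < cz K B := Nat.card_pos

theorem cz_dvd [Finite Γ] (K B : Subgroup Γ) : cz K B ∣ Nat.card K :=
  Subgroup.card_dvd_of_le inf_le_left

theorem mem_centralizer_zpowers {g x : Γ} :
    x ∈ Subgroup.centralizer ((Subgroup.zpowers g : Subgroup Γ) : Set Γ) ↔ g * x = x * g := by
  rw [Subgroup.mem_centralizer_iff]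
  constructor
  · intro h; exact h g (Subgroup.mem_zpowers g)
  · rintro h _ ⟨k, rfl⟩
    exact (Commute.zpow_left (show Commute g x from h) k).eq

theorem abel_amb (p : ℕ) [Fact p.Prime] [Finite Γ] {P₀ : Type v} [Group P₀] [Fintype P₀]
    (hP : IsPGroup p P₀) (N : Subgroup Γ) [N.Normal] (hcomm : ∀ a ∈ N, ∀ b ∈ N, a * b = b * a)
    (hN : (Nat.card N).Coprime p) (φ : P₀ →* Γ) :
    (∏ y : P₀, cz N (Subgroup.zpowers (φ y))) ^ p ≤
      Nat.card N ^ Fintype.card P₀ * cz N φ.range ^ ((p - 1) * Fintype.card P₀) := by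
  letI : CommGroup N := { (inferInstance : Group N) with
    mul_comm := fun a b => Subtype.ext (hcomm a.1 a.2 b.1 b.2) }
  obtain ⟨ρ, hρ⟩ : ∃ ρ : P₀ →* MulAut N, ρ = (MulAut.conjNormal (H := N)).comp φ := ⟨_, rfl⟩
  have hρa : ∀ (y : P₀) (a : N), ((ρ y a : N) : Γ) = φ y * (a : Γ) * (φ y)⁻¹ := by
    intro y a; rw [hρ]; exact MulAut.conjNormal_apply _ _
  have h := abel p hP _ N ρ rfl hN
  have e1 : ∀ y, Nat.card (fixS (ρ y)) = cz N (Subgroup.zpowers (φ y)) := by
    intro y
    apply Nat.card_congr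
    refine
      { toFun := fun a => ⟨a.1.1, Subgroup.mem_inf.2 ⟨a.1.2, ?_⟩⟩
        invFun := fun g => ⟨⟨g.1, (Subgroup.mem_inf.1 g.2).1⟩, ?_⟩
        left_inv := fun a => rfl
        right_inv := fun g => rfl }
    · rw [mem_centralizer_zpowers]
      have h2 : ((ρ y a.1 : N) : Γ) = a.1.1 := congrArg Subtype.val a.2
      rw [hρa] at h2
      exact mul_inv_eq_iff_eq_mul.1 h2
    · rw [mem_fixS]
      apply Subtype.ext
      rw [hρa]
      have := mem_centralizer_zpowers.1 (Subgroup.mem_inf.1 g.2).2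
      show φ y * g.1 * (φ y)⁻¹ = g.1
      rw [this, mul_inv_cancel_right]
  have e2 : Nat.card {a : N // ∀ y, ρ y a = a} = cz N φ.range := by
    apply Nat.card_congr
    refine
      { toFun := fun a => ⟨a.1.1, Subgroup.mem_inf.2 ⟨a.1.2, ?_⟩⟩
        invFun := fun g => ⟨⟨g.1, (Subgroup.mem_inf.1 g.2).1⟩, ?_⟩
        left_inv := fun a => rfl
        right_inv := fun g => rfl }
    · rw [Subgroup.mem_centralizer_iff]
      rintro _ ⟨y, rfl⟩
      have h2 : ((ρ y a.1 : N) : Γ) = a.1.1 := congrArg Subtype.val (a.2 y)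
      rw [hρa] at h2
      exact mul_inv_eq_iff_eq_mul.1 h2
    · intro y
      apply Subtype.ext
      rw [hρa]
      have := Subgroup.mem_centralizer_iff.1 (Subgroup.mem_inf.1 g.2).2 (φ y) ⟨y, rfl⟩
      show φ y * g.1 * (φ y)⁻¹ = g.1
      rw [this, mul_inv_cancel_right]
  rw [Finset.prod_congr rfl (fun y _ => e1 y), e2] at h
  exact h

theorem cz_quot [Finite Γ] (N R B : Subgroup Γ) [N.Normal] [R.Normal] (hNR : N ≤ R)
    (hcop : (Nat.card B).Coprime (Nat.card R)) (hsolv : Group.IsSolvable B) :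
    cz R B = cz (R.map (QuotientGroup.mk' N)) (B.map (QuotientGroup.mk' N)) * cz N B := by
  show Nat.card {a : Γ // a ∈ R ⊓ Subgroup.centralizer (B : Set Γ)} =
    Nat.card {b : Γ ⧸ N // b ∈ (R.map (QuotientGroup.mk' N)) ⊓
      Subgroup.centralizer ((B.map (QuotientGroup.mk' N) : Subgroup (Γ ⧸ N)) : Set (Γ ⧸ N))} * _
  apply Cfsg.Agent.S4090.card_subtype_eq_mul (QuotientGroup.mk' N)
  · intro a ha
    obtain ⟨haR, haC⟩ := Subgroup.mem_inf.1 ha
    refine Subgroup.mem_inf.2 ⟨Subgroup.mem_map_of_mem _ haR, ?_⟩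
    rw [Subgroup.mem_centralizer_iff]
    rintro _ ⟨b, hb, rfl⟩
    rw [← map_mul, ← map_mul, Subgroup.mem_centralizer_iff.1 haC b hb]
  · intro b hb
    obtain ⟨hbR, hbC⟩ := Subgroup.mem_inf.1 hb
    obtain ⟨k, hk, rfl⟩ := hbR
    have hfix : ∀ a ∈ B, a * k * a⁻¹ * k⁻¹ ∈ N := by
      intro a ha
      have h1 := Subgroup.mem_centralizer_iff.1 hbC _
        (Subgroup.mem_map_of_mem (QuotientGroup.mk' N) ha)
      rw [← QuotientGroup.eq_one_iff (N := N)]
      have h2 : (a : Γ ⧸ N) * (k : Γ ⧸ N) = (k : Γ ⧸ N) * (a : Γ ⧸ N) := h1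
      simp only [QuotientGroup.mk_mul, QuotientGroup.mk_inv]
      rw [h2]; group
    have htop : ∀ X : Subgroup Γ, X ≤ Subgroup.normalizer ((R : Subgroup Γ) : Set Γ) := by
      intro X; rw [Subgroup.normalizer_eq_top]; exact le_top
    have htop' : ∀ X : Subgroup Γ, X ≤ Subgroup.normalizer ((N : Subgroup Γ) : Set Γ) := by
      intro X; rw [Subgroup.normalizer_eq_top]; exact le_top
    obtain ⟨c, hc, hkc⟩ := Cfsg.Agent.S0022.result B R (htop B) hcop (Or.inl hsolv) N hNR
      (htop' R) (htop' B) k hk hfix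
    have hmk : (QuotientGroup.mk' N) c = (QuotientGroup.mk' N) k :=
      (QuotientGroup.eq.2 hkc).symm
    apply Nat.card_congr
    refine (Equiv.mulLeft c⁻¹).subtypeEquiv ?_
    intro a
    simp only [Equiv.coe_mulLeft]
    constructor
    · rintro ⟨h1, h2⟩
      obtain ⟨h2R, h2C⟩ := Subgroup.mem_inf.1 h2
      refine Subgroup.mem_inf.2 ⟨?_, ?_⟩
      · exact QuotientGroup.eq.1 (hmk.trans h1.symm)
      · exact Subgroup.mul_mem _ (Subgroup.inv_mem _ hc.2) h2C
    · intro h12
      obtain ⟨h1, h2⟩ := Subgroup.mem_inf.1 h12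
      have ha : a = c * (c⁻¹ * a) := by group
      refine ⟨?_, Subgroup.mem_inf.2 ⟨?_, ?_⟩⟩
      · rw [← hmk]; exact (QuotientGroup.eq.2 h1).symm
      · rw [ha]; exact R.mul_mem hc.1 (hNR h1)
      · rw [ha]; exact Subgroup.mul_mem _ hc.2 h2

end amb

theorem rgrp (p r : ℕ) [Fact p.Prime] [Fact r.Prime] (hrp : r ≠ p) {P₀ : Type v} [Group P₀]
    [Fintype P₀] (hP : IsPGroup p P₀) :
    ∀ (n : ℕ) (Γ : Type u) [Group Γ] [Finite Γ] (R : Subgroup Γ) [R.Normal] (φ : P₀ →* Γ),
      Nat.card R = n → IsPGroup r R →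
      (∏ y : P₀, cz R (Subgroup.zpowers (φ y))) ^ p ≤
        Nat.card R ^ Fintype.card P₀ * cz R φ.range ^ ((p - 1) * Fintype.card P₀) := by
  intro n
  induction n using Nat.strong_induction_on with
  | _ n ih =>
  intro Γ _ _ R _ φ hn hR
  have hp : p.Prime := Fact.out
  have hr : r.Prime := Fact.out
  haveI : Finite P₀ := Finite.of_fintype P₀
  have hRcop : (Nat.card R).Coprime p := by
    obtain ⟨k, hk⟩ := IsPGroup.iff_card.1 hR
    rw [hk]
    exact Nat.Coprime.pow_left _ ((Nat.coprime_primes hr hp).2 hrp)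
  obtain ⟨N, hNdef⟩ : ∃ N : Subgroup Γ, N = R ⊓ Subgroup.centralizer (R : Set Γ) := ⟨_, rfl⟩
  haveI hNn : N.Normal := by rw [hNdef]; infer_instance
  have hNR : N ≤ R := by rw [hNdef]; exact inf_le_left
  have hNcomm : ∀ a ∈ N, ∀ b ∈ N, a * b = b * a := by
    intro a ha b hb
    rw [hNdef] at ha hb
    exact Subgroup.mem_centralizer_iff.1 hb.2 a ha.1
  have hNcop : (Nat.card N).Coprime p :=
    Nat.Coprime.coprime_dvd_left (Subgroup.card_dvd_of_le hNR) hRcop
  have hab := abel_amb p hP N hNcomm hNcop φ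
  by_cases hNeq : N = R
  · subst hNeq
    exact hab
  · have hRne : R ≠ ⊥ := by
      rintro h
      apply hNeq
      rw [hNdef, h]; simp
    haveI : Nontrivial R := (Subgroup.nontrivial_iff_ne_bot R).2 hRne
    haveI := hR.center_nontrivial
    obtain ⟨x, hx1⟩ := exists_ne (1 : Subgroup.center R)
    have hxN : ((x : R) : Γ) ∈ N := by
      rw [hNdef]
      refine Subgroup.mem_inf.2 ⟨(x : R).2, ?_⟩
      rw [Subgroup.mem_centralizer_iff]
      intro h hh
      have := Subgroup.mem_center_iff.1 x.2 ⟨h, hh⟩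
      exact congrArg Subtype.val this
    have hNne : N ≠ ⊥ := by
      intro h
      rw [h, Subgroup.mem_bot] at hxN
      apply hx1
      apply Subtype.ext; apply Subtype.ext; exact hxN
    have hcardR : Nat.card R = Nat.card (R.map (QuotientGroup.mk' N)) * Nat.card N :=
      Cfsg.Agent.S4090.card_map_mk_mul N R hNR
    have hN2 : 1 < Nat.card N := (Subgroup.one_lt_card_iff_ne_bot N).2 hNne
    have hlt : Nat.card (R.map (QuotientGroup.mk' N)) < n := by
      rw [← hn, hcardR]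
      have : 0 < Nat.card (R.map (QuotientGroup.mk' N)) := Nat.card_pos
      nlinarith
    haveI : (R.map (QuotientGroup.mk' N)).Normal :=
      Subgroup.Normal.map inferInstance _ (QuotientGroup.mk'_surjective N)
    have IH := ih _ hlt (Γ ⧸ N) (R.map (QuotientGroup.mk' N)) ((QuotientGroup.mk' N).comp φ)
      rfl (hR.map _)
    have hrange : IsPGroup p φ.range :=
      hP.of_surjective φ.rangeRestrict φ.rangeRestrict_surjective
    have hB : ∀ B : Subgroup Γ, B ≤ φ.range →
        (Nat.card B).Coprime (Nat.card R) ∧ Group.IsSolvable B := by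
      intro B hBle
      have hBp : IsPGroup p B := hrange.to_le hBle
      refine ⟨?_, ?_⟩
      · obtain ⟨k, hk⟩ := IsPGroup.iff_card.1 hBp
        rw [hk]; exact Nat.Coprime.pow_left _ hRcop.symm
      · haveI := hBp.isNilpotent; infer_instance
    have q1 : ∀ y, cz R (Subgroup.zpowers (φ y)) =
        cz (R.map (QuotientGroup.mk' N))
          (Subgroup.zpowers ((QuotientGroup.mk' N).comp φ y)) * cz N (Subgroup.zpowers (φ y)) := by
      intro y
      have hle : Subgroup.zpowers (φ y) ≤ φ.range := by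
        rw [Subgroup.zpowers_le]; exact ⟨y, rfl⟩
      rw [cz_quot N R _ hNR (hB _ hle).1 (hB _ hle).2, MonoidHom.map_zpowers]; rfl
    have q2 : cz R φ.range =
        cz (R.map (QuotientGroup.mk' N)) ((QuotientGroup.mk' N).comp φ).range * cz N φ.range := by
      rw [cz_quot N R _ hNR (hB _ le_rfl).1 (hB _ le_rfl).2, MonoidHom.range_comp]
    rw [Finset.prod_congr rfl (fun y _ => q1 y), q2, Finset.prod_mul_distrib, mul_pow, hcardR]
    calc _ ≤ (Nat.card (R.map (QuotientGroup.mk' N)) ^ Fintype.card P₀ *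
            cz (R.map (QuotientGroup.mk' N)) ((QuotientGroup.mk' N).comp φ).range ^
              ((p - 1) * Fintype.card P₀)) *
          (Nat.card N ^ Fintype.card P₀ * cz N φ.range ^ ((p - 1) * Fintype.card P₀)) :=
          Nat.mul_le_mul IH hab
      _ = _ := by ring

theorem sylow_cent (r : ℕ) [Fact r.Prime] {Γ : Type u} [Group Γ] [Finite Γ] (K B : Subgroup Γ)
    (hBK : B ≤ Subgroup.normalizer (K : Set Γ)) (hcop : (Nat.card B).Coprime (Nat.card K))
    (hsolv : Group.IsSolvable B) (R : Sylow r K)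
    (hR : B ≤ Subgroup.normalizer (((R : Subgroup K).map K.subtype : Subgroup Γ) : Set Γ)) :
    cz ((R : Subgroup K).map K.subtype) B = r ^ (cz K B).factorization r := by
  have hr : r.Prime := Fact.out
  obtain ⟨C, hC⟩ : ∃ C : Subgroup Γ, C = K ⊓ Subgroup.centralizer (B : Set Γ) := ⟨_, rfl⟩
  have hCK : C ≤ K := by rw [hC]; exact inf_le_left
  have hCB : C ≤ Subgroup.centralizer (B : Set Γ) := by rw [hC]; exact inf_le_right
  obtain ⟨S⟩ : Nonempty (Sylow r C) := inferInstance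
  obtain ⟨U, hU⟩ : ∃ U : Subgroup Γ, U = (S : Subgroup C).map C.subtype := ⟨_, rfl⟩
  have hUC : U ≤ C := by rw [hU]; exact Subgroup.map_subtype_le _
  have hUcard : Nat.card U = r ^ (Nat.card C).factorization r := by
    rw [hU, Subgroup.card_map_of_injective C.subtype_injective, Sylow.card_eq_multiplicity]
  have hUr : IsPGroup r U := by rw [hU]; exact S.2.map _
  have hUB : B ≤ Subgroup.normalizer (U : Set Γ) := by
    intro b hb
    have hfix : ∀ b' ∈ B, ∀ u ∈ U, b' * u * b'⁻¹ = u := by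
      intro b' hb' u hu
      have := Subgroup.mem_centralizer_iff.1 (hCB (hUC hu)) b' hb'
      rw [this, mul_inv_cancel_right]
    rw [Subgroup.mem_normalizer_iff]
    intro h
    constructor
    · intro hh; rw [hfix b hb h hh]; exact hh
    · intro hh
      have h1 := hfix b⁻¹ (B.inv_mem hb) _ hh
      have h2 : b⁻¹ * (b * h * b⁻¹) * b⁻¹⁻¹ = h := by group
      rw [h2] at h1
      rw [h1]; exact hh
  obtain ⟨Q, hUQ, hQ⟩ := Cfsg.Agent.S0025.result B K hBK hcop (Or.inl hsolv) r U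
    (hUC.trans hCK) hUr hUB
  obtain ⟨c, hcB, hcQ⟩ := Cfsg.Agent.S0024.result B K hBK hcop (Or.inl hsolv) r Q R hQ hR
  obtain ⟨D, hD⟩ : ∃ D : Subgroup Γ,
      D = (R : Subgroup K).map K.subtype ⊓ Subgroup.centralizer (B : Set Γ) := ⟨_, rfl⟩
  have hconj : ∀ u ∈ U, (c : Γ) * u * (c : Γ)⁻¹ ∈ D := by
    intro u hu
    rw [hD]
    refine Subgroup.mem_inf.2 ⟨?_, ?_⟩
    · obtain ⟨q, hq, rfl⟩ := hUQ hu
      refine ⟨c * q * c⁻¹, ?_, rfl⟩
      rw [← hcQ]
      show c * q * c⁻¹ ∈ ((MulAut.conj c • Q : Sylow r K) : Subgroup K)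
      rw [Sylow.pointwise_smul_def]
      exact ⟨q, hq, rfl⟩
    · exact Subgroup.mul_mem _ (Subgroup.mul_mem _ hcB (hCB (hUC hu))) (Subgroup.inv_mem _ hcB)
  have hle1 : Nat.card U ≤ Nat.card D := by
    apply Nat.card_le_card_of_injective
      (fun u : U => (⟨(c : Γ) * u.1 * (c : Γ)⁻¹, hconj u.1 u.2⟩ : D))
    intro u v huv
    have h1 : (c : Γ) * u.1 * (c : Γ)⁻¹ = (c : Γ) * v.1 * (c : Γ)⁻¹ := congrArg Subtype.val huv
    apply Subtype.ext
    exact mul_left_cancel (mul_right_cancel h1)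
  have hDC : D ≤ C := by
    rw [hD, hC]
    exact inf_le_inf_right _ (Subgroup.map_subtype_le _)
  have hDr : IsPGroup r D := by
    have : IsPGroup r ((R : Subgroup K).map K.subtype) := R.2.map _
    rw [hD]; exact this.to_le inf_le_left
  obtain ⟨k, hk⟩ := IsPGroup.iff_card.1 hDr
  have hdvd : r ^ k ∣ Nat.card C := by rw [← hk]; exact Subgroup.card_dvd_of_le hDC
  have hkle : k ≤ (Nat.card C).factorization r :=
    (hr.pow_dvd_iff_le_factorization Nat.card_pos.ne').1 hdvd
  have hle2 : Nat.card D ≤ r ^ (Nat.card C).factorization r := by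
    rw [hk]; exact Nat.pow_le_pow_right hr.pos hkle
  show Nat.card ↥((R : Subgroup K).map K.subtype ⊓ Subgroup.centralizer (B : Set Γ)) =
    r ^ (Nat.card ↥(K ⊓ Subgroup.centralizer (B : Set Γ))).factorization r
  rw [← hD, ← hC]
  exact le_antisymm hle2 (hUcard ▸ hle1)

theorem cz_subgroupOf {Γ : Type u} [Group Γ] (L R : Subgroup Γ) (hRL : R ≤ L) (B' : Subgroup L) :
    cz (R.subgroupOf L) B' = cz R (B'.map L.subtype) := by
  apply Nat.card_congr
  refine
    { toFun := fun x => ⟨x.1.1, Subgroup.mem_inf.2 ⟨?_, ?_⟩⟩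
      invFun := fun g => ⟨⟨g.1, hRL (Subgroup.mem_inf.1 g.2).1⟩, Subgroup.mem_inf.2 ⟨?_, ?_⟩⟩
      left_inv := fun x => rfl
      right_inv := fun g => rfl }
  · exact Subgroup.mem_subgroupOf.1 (Subgroup.mem_inf.1 x.2).1
  · rw [Subgroup.mem_centralizer_iff]
    rintro _ ⟨b, hb, rfl⟩
    have := Subgroup.mem_centralizer_iff.1 (Subgroup.mem_inf.1 x.2).2 b hb
    exact congrArg Subtype.val this
  · exact Subgroup.mem_subgroupOf.2 (Subgroup.mem_inf.1 g.2).1
  · rw [Subgroup.mem_centralizer_iff]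
    intro b hb
    apply Subtype.ext
    exact Subgroup.mem_centralizer_iff.1 (Subgroup.mem_inf.1 g.2).2 b.1
      (Subgroup.mem_map_of_mem L.subtype hb)

theorem core (p : ℕ) [Fact p.Prime] {Γ : Type u} [Group Γ] [Finite Γ] {P₀ : Type v} [Group P₀]
    [Fintype P₀] (hP : IsPGroup p P₀) (K : Subgroup Γ) [K.Normal] (hK : (Nat.card K).Coprime p)
    (φ : P₀ →* Γ) :
    (∏ y : P₀, cz K (Subgroup.zpowers (φ y))) ^ p ≤
      Nat.card K ^ Fintype.card P₀ * cz K φ.range ^ ((p - 1) * Fintype.card P₀) := by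
  have hp : p.Prime := Fact.out
  haveI : Finite P₀ := Finite.of_fintype P₀
  have hL0 : (∏ y : P₀, cz K (Subgroup.zpowers (φ y))) ^ p ≠ 0 :=
    pow_ne_zero _ (Finset.prod_ne_zero_iff.2 (fun y _ => (cz_pos _ _).ne'))
  have hR0 : Nat.card K ^ Fintype.card P₀ * cz K φ.range ^ ((p - 1) * Fintype.card P₀) ≠ 0 :=
    mul_ne_zero (pow_ne_zero _ Nat.card_pos.ne') (pow_ne_zero _ (cz_pos _ _).ne')
  apply Nat.le_of_dvd (Nat.pos_of_ne_zero hR0)
  rw [← Nat.factorization_prime_le_iff_dvd hL0 hR0]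
  intro r hr
  haveI : Fact r.Prime := ⟨hr⟩
  rw [Nat.factorization_pow, Nat.factorization_mul (pow_ne_zero _ Nat.card_pos.ne')
    (pow_ne_zero _ (cz_pos _ _).ne'), Nat.factorization_pow, Nat.factorization_pow,
    Nat.factorization_prod (fun y _ => (cz_pos _ _).ne')]
  simp only [Finsupp.smul_apply, Finsupp.add_apply, Finsupp.finsetSum_apply, smul_eq_mul]
  by_cases hrp : r = p
  · have h0 : ∀ y, (cz K (Subgroup.zpowers (φ y))).factorization r = 0 := by
      intro y
      apply Nat.factorization_eq_zero_of_not_dvd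
      intro hdvd
      rw [hrp] at hdvd
      have h1 := hdvd.trans (cz_dvd K _)
      exact hp.one_lt.ne' (Nat.Coprime.eq_one_of_dvd hK.symm h1)
    rw [Finset.sum_eq_zero (fun y _ => h0 y)]; simp
  · have hrange : IsPGroup p φ.range :=
      hP.of_surjective φ.rangeRestrict φ.rangeRestrict_surjective
    have hBprop : ∀ B : Subgroup Γ, B ≤ φ.range →
        (Nat.card B).Coprime (Nat.card K) ∧ Group.IsSolvable B := by
      intro B hBle
      have hBp : IsPGroup p B := hrange.to_le hBle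
      refine ⟨?_, ?_⟩
      · obtain ⟨k, hk⟩ := IsPGroup.iff_card.1 hBp
        rw [hk]; exact Nat.Coprime.pow_left _ hK.symm
      · haveI := hBp.isNilpotent; infer_instance
    have htop : ∀ X : Subgroup Γ, X ≤ Subgroup.normalizer ((K : Subgroup Γ) : Set Γ) := by
      intro X; rw [Subgroup.normalizer_eq_top]; exact le_top
    obtain ⟨R, hRinv⟩ := Cfsg.Agent.S0023.result φ.range K (htop _) (hBprop _ le_rfl).1
      (Or.inl (hBprop _ le_rfl).2) r
    obtain ⟨R', hR'⟩ : ∃ R' : Subgroup Γ, R' = (R : Subgroup K).map K.subtype := ⟨_, rfl⟩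
    rw [← hR'] at hRinv
    have hsc : ∀ B : Subgroup Γ, B ≤ φ.range → cz R' B = r ^ (cz K B).factorization r := by
      intro B hBle
      rw [hR']
      exact sylow_cent r K B (htop _) (hBprop _ hBle).1 (hBprop _ hBle).2 R
        (hR' ▸ hBle.trans hRinv)
    have hR'card : Nat.card R' = r ^ (Nat.card K).factorization r := by
      rw [hR', Subgroup.card_map_of_injective K.subtype_injective, Sylow.card_eq_multiplicity]
    have hR'r : IsPGroup r R' := by rw [hR']; exact R.2.map _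
    obtain ⟨L, hL⟩ : ∃ L : Subgroup Γ, L = Subgroup.normalizer (R' : Set Γ) := ⟨_, rfl⟩
    have hR'L : R' ≤ L := by rw [hL]; exact Subgroup.le_normalizer
    haveI : (R'.subgroupOf L).Normal := by rw [hL]; exact Subgroup.normal_in_normalizer
    have hφL : ∀ y, φ y ∈ L := fun y => by rw [hL]; exact hRinv ⟨y, rfl⟩
    obtain ⟨φ', hφ'⟩ : ∃ φ' : P₀ →* L, ∀ y, ((φ' y : L) : Γ) = φ y :=
      ⟨φ.codRestrict L hφL, fun y => rfl⟩
    have hrg := rgrp p r hrp hP _ L (R'.subgroupOf L) φ' rfl (hR'r.comap_subtype)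
    have c1 : ∀ y, cz (R'.subgroupOf L) (Subgroup.zpowers (φ' y)) =
        r ^ (cz K (Subgroup.zpowers (φ y))).factorization r := by
      intro y
      rw [cz_subgroupOf L R' hR'L, MonoidHom.map_zpowers]
      have : L.subtype (φ' y) = φ y := hφ' y
      rw [this]
      exact hsc _ (by rw [Subgroup.zpowers_le]; exact ⟨y, rfl⟩)
    have c2 : cz (R'.subgroupOf L) φ'.range = r ^ (cz K φ.range).factorization r := by
      rw [cz_subgroupOf L R' hR'L, ← MonoidHom.range_comp]
      have : L.subtype.comp φ' = φ := by ext y; exact hφ' y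
      rw [this]; exact hsc _ le_rfl
    have c3 : Nat.card (R'.subgroupOf L) = r ^ (Nat.card K).factorization r := by
      rw [← hR'card]
      exact Nat.card_congr (Subgroup.subgroupOfEquivOfLe hR'L).toEquiv
    rw [Finset.prod_congr rfl (fun y _ => c1 y), c2, c3, Finset.prod_pow_eq_pow_sum, ← pow_mul,
      ← pow_mul, ← pow_mul, ← pow_add] at hrg
    have h1 := (Nat.pow_le_pow_iff_right hr.one_lt).1 hrg
    calc _ = (∑ y : P₀, (cz K (Subgroup.zpowers (φ y))).factorization r) * p := by ring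
      _ ≤ _ := h1
      _ = _ := by ring

end Cfsg.Agent.Lib.Helper57.Gheri
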