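import Mathlib
import Cfsg.Agent.Lib.Helper57.HSubA
import Cfsg.Agent.Lib.Helper67.Basic
import Cfsg.Agent.Lib.Helper54.OmegaAut
import Cfsg.Agent.S0029

/-!
# Coprime automorphisms normalizing all subgroups of a fixed order (helper57)
-/

namespace Cfsg.Agent.Lib.Helper57.HSub

variable {G : Type*} [Group G]

theorem map_conj_eq_of_mem_normalizer {H : Subgroup G} {g : G}
    (hg : g ∈ Subgroup.normalizer (H : Set G)) : H.map (MulAut.conj g).toMonoidHom = H := by
  ext z
  simp only [Subgroup.mem_map, MulEquiv.coe_toMonoidHom, MulAut.conj_apply]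
  constructor
  · rintro ⟨w, hw, rfl⟩
    exact (Subgroup.mem_normalizer_iff.mp hg w).1 hw
  · intro hz
    refine ⟨g⁻¹ * z * g, ?_, by group⟩
    have := (Subgroup.mem_normalizer_iff.mp (inv_mem hg) z).1 hz
    simpa using this

theorem mem_normalizer_sup [Finite G] {H K : Subgroup G} {g : G}
    (hH : g ∈ Subgroup.normalizer (H : Set G)) (hK : g ∈ Subgroup.normalizer (K : Set G)) :
    g ∈ Subgroup.normalizer ((H ⊔ K : Subgroup G) : Set G) := by
  apply mem_normalizer_of_conj_mem
  intro x hx
  have h1 : (H ⊔ K).map (MulAut.conj g).toMonoidHom = H ⊔ K := by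
    rw [Subgroup.map_sup, map_conj_eq_of_mem_normalizer hH, map_conj_eq_of_mem_normalizer hK]
  rw [← h1]
  exact ⟨x, hx, by simp [MulAut.conj_apply]⟩

/-- conjugation by a normalizing element acts trivially on a quotient of prime order `p`
when the order of the element is prime to `p - 1`. -/
theorem inv_mul_aut_mem [Finite G] {p : ℕ} [Fact p.Prime] {Q : Subgroup G} (N : Subgroup Q)
    [N.Normal] (hidx : N.index = p) {x : G} (hxQ : x ∈ Subgroup.normalizer (Q : Set G))
    (hxN : ∀ z : Q, z ∈ N → Q.normalizerMonoidHom ⟨x, hxQ⟩ z ∈ N)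
    (hx : (orderOf x).Coprime (p - 1)) (y : Q) :
    y⁻¹ * Q.normalizerMonoidHom ⟨x, hxQ⟩ y ∈ N := by
  set a : MulAut Q := Q.normalizerMonoidHom ⟨x, hxQ⟩ with ha
  have hmap : N.map (a : Q ≃* Q).toMonoidHom = N := by
    apply Subgroup.eq_of_le_of_card_ge
    · rintro _ ⟨w, hw, rfl⟩
      exact hxN w hw
    · exact le_of_eq (Subgroup.card_map_of_injective (f := MulEquiv.toMonoidHom a)
        (MulEquiv.injective a)).symm
  let σ : MulAut (Q ⧸ N) := QuotientGroup.congr N N a hmap
  have hσ : ∀ z : Q, σ (QuotientGroup.mk z) = QuotientGroup.mk (a z) := fun z => rfl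
  have hpow : ∀ k : ℕ, ∀ z : Q, (σ ^ k) (QuotientGroup.mk z) = QuotientGroup.mk ((a ^ k) z) := by
    intro k
    induction k with
    | zero => intro z; rfl
    | succ k ih =>
      intro z
      rw [pow_succ', MulAut.mul_apply, ih, hσ, pow_succ', MulAut.mul_apply]
  have hao : a ^ orderOf x = 1 := by
    rw [ha, ← map_pow]
    have : (⟨x, hxQ⟩ : Subgroup.normalizer (Q : Set G)) ^ orderOf x = 1 := by
      apply Subtype.ext
      simp [pow_orderOf_eq_one]
    rw [this, map_one]
  have hσo : σ ^ orderOf x = 1 := by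
    apply MulEquiv.ext
    intro z
    obtain ⟨z, rfl⟩ := QuotientGroup.mk_surjective z
    rw [hpow, hao]
    rfl
  have hcard : Nat.card (Q ⧸ N) = p := by
    rw [← Subgroup.index_eq_card]; exact hidx
  have hσ1 : σ = 1 := aut_eq_one_of_card_prime hcard σ hσo hx
  have h1 : (QuotientGroup.mk (a y) : Q ⧸ N) = QuotientGroup.mk y := by
    rw [← hσ, hσ1]; rfl
  exact QuotientGroup.eq.mp h1.symm

/-- A `p'`-element normalizing a `p`-group `Q` and all its subgroups of order `p ^ d`
(and of order `4` if `p ^ d = 2`), where `p ^ d < |Q|`, centralizes `Q`. -/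
theorem centralizes_of_normalizes [Finite G] {p : ℕ} [Fact p.Prime] {Q : Subgroup G}
    (hQ : IsPGroup p Q) {d : ℕ} (hd : 1 ≤ d) (hdQ : p ^ d < Nat.card Q) {x : G}
    (hxQ : x ∈ Subgroup.normalizer (Q : Set G)) (hxp : (orderOf x).Coprime p)
    (hx1 : (orderOf x).Coprime (p - 1))
    (hinv : ∀ E : Subgroup G, E ≤ Q → (Nat.card E = p ^ d ∨ (p ^ d = 2 ∧ Nat.card E = 4)) →
      x ∈ Subgroup.normalizer (E : Set G)) :
    ∀ y ∈ Q, x * y * x⁻¹ = y := by
  have hp : p.Prime := Fact.out
  obtain ⟨n, hn⟩ := IsPGroup.iff_card.mp hQ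
  have hdn : d < n := by
    rw [hn] at hdQ; exact (Nat.pow_lt_pow_iff_right hp.one_lt).mp hdQ
  -- elements of a subgroup of order `p ^ d` are fixed
  have stepE : ∀ E : Subgroup G, E ≤ Q → Nat.card E = p ^ d → ∀ y ∈ E, x * y * x⁻¹ = y := by
    intro E hEQ hE y hyE
    have hxE := hinv E hEQ (Or.inl hE)
    by_cases hcyc : IsCyclic E
    · obtain ⟨e, he⟩ := hcyc.exists_generator
      have heq : Subgroup.zpowers (e : G) = E := by
        apply le_antisymm (Subgroup.zpowers_le.mpr e.2)
        intro z hz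
        obtain ⟨k, hk⟩ := Subgroup.mem_zpowers_iff.mp (he ⟨z, hz⟩)
        refine Subgroup.mem_zpowers_iff.mpr ⟨k, ?_⟩
        have := congrArg Subtype.val hk
        simpa using this
      have hfix : x * (e : G) * x⁻¹ = e := by
        apply Helper67.conj_eq_self_of_coprime_totient (e : G) x
        · rw [heq]; exact (Subgroup.mem_normalizer_iff.mp hxE _).1 e.2
        · have ho : orderOf (e : G) = p ^ d := by rw [← Nat.card_zpowers, heq, hE]
          rw [ho, Nat.totient_prime_pow hp (by omega)]
          exact Nat.Coprime.mul_right (Nat.Coprime.pow_right _ hxp) hx1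
      have hy : y ∈ Subgroup.zpowers (e : G) := by rw [heq]; exact hyE
      obtain ⟨k, rfl⟩ := Subgroup.mem_zpowers_iff.mp hy
      rw [← conj_zpow, hfix]
    · obtain ⟨F, hEF, hFQ, hF⟩ := exists_between hEQ hE (Nat.le_succ d)
        (hn ▸ pow_dvd_pow p hdn)
      have hne : E ≠ F := by
        intro h
        rw [h, hF] at hE
        have := Nat.pow_right_injective hp.two_le hE
        omega
      obtain ⟨f, hfF, hfE⟩ := SetLike.exists_of_lt (lt_of_le_of_ne hEF hne)
      have hzF : Subgroup.zpowers f ≤ F := Subgroup.zpowers_le.mpr hfF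
      have hFp : IsPGroup p F := hQ.to_le hFQ
      obtain ⟨a, ha⟩ : ∃ a, Nat.card (Subgroup.zpowers f) = p ^ a :=
        IsPGroup.iff_card.mp (hFp.to_le hzF)
      have hale : a ≤ d := by
        by_contra hcon
        have h1 : p ^ a ∣ p ^ (d + 1) := by
          rw [← ha, ← hF]; exact Subgroup.card_dvd_of_le hzF
        have h2 : a ≤ d + 1 := (Nat.pow_dvd_pow_iff_le_right hp.one_lt).mp h1
        have h3 : a = d + 1 := by omega
        have h4 : Subgroup.zpowers f = F :=
          Subgroup.eq_of_le_of_card_ge hzF (by rw [ha, hF, h3])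
        apply hcyc
        have : IsCyclic (Subgroup.zpowers f) := inferInstance
        exact Subgroup.isCyclic_of_le (h4 ▸ hEF)
      obtain ⟨E2, hfE2, hE2F, hE2⟩ := exists_between hzF ha hale
        (hF ▸ pow_dvd_pow p (Nat.le_succ d))
      have hxE2 := hinv E2 (hE2F.trans hFQ) (Or.inl hE2)
      have hsup : E ⊔ E2 = F := by
        apply Subgroup.eq_of_le_of_card_ge (sup_le hEF hE2F)
        obtain ⟨b, hb⟩ := IsPGroup.iff_card.mp (hFp.to_le (sup_le hEF hE2F))
        have h1 : p ^ d ∣ p ^ b := by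
          rw [← hE, ← hb]; exact Subgroup.card_dvd_of_le le_sup_left
        have h2 : d ≤ b := (Nat.pow_dvd_pow_iff_le_right hp.one_lt).mp h1
        have h3 : b ≠ d := by
          intro h
          have h5 : E = E ⊔ E2 := Subgroup.eq_of_le_of_card_ge le_sup_left (by rw [hb, hE, h])
          have hf : f ∈ E := by
            rw [h5]; exact (le_sup_right : E2 ≤ E ⊔ E2) (hfE2 (Subgroup.mem_zpowers f))
          exact hfE hf
        rw [hF, hb]
        exact Nat.pow_le_pow_right hp.pos (by omega)
      have hxF : x ∈ Subgroup.normalizer (F : Set G) := by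
        rw [← hsup]; exact mem_normalizer_sup hxE hxE2
      have hA : Subgroup.zpowers x ≤ Subgroup.normalizer (F : Set G) :=
        Subgroup.zpowers_le.mpr hxF
      have hcop : (Nat.card (Subgroup.zpowers x)).Coprime (Nat.card (frattini F)) := by
        rw [Nat.card_zpowers]
        obtain ⟨b, hb⟩ := IsPGroup.iff_card.mp (hFp.to_subgroup (frattini F))
        rw [hb]; exact Nat.Coprime.pow_right _ hxp
      have htriv : ∀ a ∈ Subgroup.zpowers x, ∀ k ∈ F,
          a * k * a⁻¹ * k⁻¹ ∈ (frattini F).map F.subtype := by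
        intro a ha k hk
        have haF : a ∈ Subgroup.normalizer (F : Set G) := hA ha
        have hao : (orderOf a).Coprime (p - 1) :=
          Nat.Coprime.coprime_dvd_left (orderOf_dvd_of_mem_zpowers ha) hx1
        have hmem : a * k * a⁻¹ * k⁻¹ ∈ F :=
          F.mul_mem ((Subgroup.mem_normalizer_iff.mp haF k).1 hk) (F.inv_mem hk)
        refine ⟨⟨a * k * a⁻¹ * k⁻¹, hmem⟩, ?_, rfl⟩
        rw [SetLike.mem_coe, mem_frattini_iff]
        intro M hM
        obtain ⟨hMn, hMi⟩ := coatom_normal_index hFp hM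
        have haM : ∀ z : F, z ∈ M → F.normalizerMonoidHom ⟨a, haF⟩ z ∈ M := by
          intro z hz
          have hMc : Nat.card (M.map F.subtype) = p ^ d := by
            rw [Subgroup.card_map_of_injective F.subtype_injective]
            have h6 := M.card_mul_index
            rw [hMi, hF, pow_succ] at h6
            exact Nat.eq_of_mul_eq_mul_right hp.pos h6
          have hxM := hinv (M.map F.subtype) ((Subgroup.map_subtype_le M).trans hFQ)
            (Or.inl hMc)
          have haM' : a ∈ Subgroup.normalizer ((M.map F.subtype : Subgroup G) : Set G) :=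
            (Subgroup.zpowers_le.mpr hxM) ha
          have h1 := (Subgroup.mem_normalizer_iff.mp haM' z).1 ⟨z, hz, rfl⟩
          obtain ⟨w, hw, hwz⟩ := h1
          have h7 : w = F.normalizerMonoidHom ⟨a, haF⟩ z := Subtype.ext hwz
          rw [← h7]; exact hw
        have key := @inv_mul_aut_mem G _ _ p _ F M hMn hMi a haF haM hao ⟨k, hk⟩
        have h2 := hMn.conj_mem _ key ⟨k, hk⟩
        convert h2 using 1
        apply Subtype.ext
        simp [mul_assoc]
      have hcent := Cfsg.Agent.S0029.result (Subgroup.zpowers x) F hA hcop htriv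
      have hxc : x ∈ Subgroup.centralizer (F : Set G) := hcent (Subgroup.mem_zpowers x)
      have hyF : y ∈ F := hEF hyE
      have h8 := Subgroup.mem_centralizer_iff.mp hxc y hyF
      rw [← h8]; group
  -- the automorphism induced by `x`
  set a : MulAut Q := Q.normalizerMonoidHom ⟨x, hxQ⟩ with ha
  have hao : (orderOf a).Coprime p := by
    apply Nat.Coprime.coprime_dvd_left _ hxp
    have h1 : orderOf a ∣ orderOf (⟨x, hxQ⟩ : Subgroup.normalizer (Q : Set G)) :=
      orderOf_map_dvd _ _
    rwa [Subgroup.orderOf_mk] at h1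
  have key : ∀ (j : ℕ), 1 ≤ j → p ∣ p ^ j * (p ^ j - 1) / 2 →
      (∀ y ∈ Q, y ^ p ^ j = 1 → x * y * x⁻¹ = y) → ∀ y ∈ Q, x * y * x⁻¹ = y := by
    intro j hj he hfix y hy
    have h1 := Helper54.aut_eq_one_of_fix_omega hQ a hao j hj he (fun z hz => by
      apply Subtype.ext
      exact hfix z z.2 (by simpa using congrArg Subtype.val hz))
    have h2 : a ⟨y, hy⟩ = ⟨y, hy⟩ := by rw [h1]; rfl
    exact congrArg Subtype.val h2
  have small : ∀ y ∈ Q, ∀ k, k ≤ d → orderOf y = p ^ k → x * y * x⁻¹ = y := by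
    intro y hy k hk ho
    have hz : Subgroup.zpowers y ≤ Q := Subgroup.zpowers_le.mpr hy
    obtain ⟨E, hzE, hEQ, hE⟩ := exists_between hz (by rw [Nat.card_zpowers, ho]) hk
      (hn ▸ pow_dvd_pow p hdn.le)
    exact stepE E hEQ hE y (hzE (Subgroup.mem_zpowers y))
  by_cases hp2 : p = 2
  · subst hp2
    apply key 2 (by norm_num) Helper54.omega_exponent_two
    intro y hy hy4
    have hdvd : orderOf y ∣ 2 ^ 2 := orderOf_dvd_of_pow_eq_one hy4
    obtain ⟨k, hk, hko⟩ := (Nat.dvd_prime_pow Nat.prime_two).mp hdvd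
    by_cases hkd : k ≤ d
    · exact small y hy k hkd hko
    · have hk2 : k = 2 := by omega
      have hd1 : d = 1 := by omega
      subst hk2; subst hd1
      have hxC := hinv (Subgroup.zpowers y) (Subgroup.zpowers_le.mpr hy)
        (Or.inr ⟨by norm_num, by rw [Nat.card_zpowers, hko]; norm_num⟩)
      apply Helper67.conj_eq_self_of_coprime_totient y x
      · exact (Subgroup.mem_normalizer_iff.mp hxC y).1 (Subgroup.mem_zpowers y)
      · rw [hko]
        have h9 : Nat.totient (2 ^ 2) = 2 := by decide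
        rw [h9]; exact hxp
  · apply key 1 le_rfl (Helper54.omega_exponent_odd hp hp2)
    intro y hy hyp
    have hdvd : orderOf y ∣ p ^ 1 := orderOf_dvd_of_pow_eq_one hyp
    obtain ⟨k, hk, hko⟩ := (Nat.dvd_prime_pow hp).mp hdvd
    exact small y hy k (by omega) hko

end Cfsg.Agent.Lib.Helper57.HSub
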