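import Mathlib
import Cfsg.Prelude.Def_Transfer
import Cfsg.Agent.Lib.Helper57.HSubB
import Cfsg.Agent.Lib.Helper84.Hyperfocal
import Cfsg.Agent.Lib.Helper53.Basic
import Cfsg.Agent.Lib.Helper34.SylowAux

/-!
# `p`-nilpotency from strongly closed subgroups of a fixed order (helper57)

The statement S3031, conditional on Tate's theorem (passed as a hypothesis).
-/

set_option autoImplicit false

namespace Cfsg.Agent.Lib.Helper57.HSub

open Cfsg Cfsg.FusionSystem

variable {G : Type*} [Group G]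

theorem orderOf_coprime_pred [Finite G] {p : ℕ} [Fact p.Prime]
    (hmin : ∀ q : ℕ, q.Prime → q ∣ Nat.card G → p ≤ q) (g : G) :
    (orderOf g).Coprime (p - 1) := by
  have hp : p.Prime := Fact.out
  by_contra h
  obtain ⟨q, hq, hqd⟩ := Nat.exists_prime_and_dvd h
  have h1 : q ∣ orderOf g := hqd.trans (Nat.gcd_dvd_left _ _)
  have h2 : q ∣ p - 1 := hqd.trans (Nat.gcd_dvd_right _ _)
  have h3 : p ≤ q := hmin q hq (h1.trans (orderOf_dvd_natCard g))
  have h5 := hp.two_le
  have h4 : q ≤ p - 1 := Nat.le_of_dvd (by omega) h2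
  omega

theorem mem_map_subtype_iff {P : Subgroup G} (M : Subgroup P) {g : G} (hg : g ∈ P) :
    g ∈ M.map P.subtype ↔ (⟨g, hg⟩ : P) ∈ M := by
  constructor
  · rintro ⟨w, hw, hwg⟩
    have : w = ⟨g, hg⟩ := Subtype.ext hwg
    exact this ▸ hw
  · intro h
    exact ⟨⟨g, hg⟩, h, rfl⟩

/-- the fusion claim: `p'`-elements normalizing `Q ≤ P` act trivially on `Q` modulo `Φ(P)`. -/
theorem inv_mul_conj_mem_frattini [Finite G] {p : ℕ} [Fact p.Prime]
    (hmin : ∀ q : ℕ, q.Prime → q ∣ Nat.card G → p ≤ q) (P : Sylow p G) {d : ℕ} (hd : 1 ≤ d)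
    (hdP : p ^ d < Nat.card (P : Subgroup G))
    (hE : ∀ E : Subgroup G, E ≤ (P : Subgroup G) →
      (Nat.card E = p ^ d ∨ (p ^ d = 2 ∧ Nat.card E = 4)) →
        ∀ g : G, E.map (MulAut.conj g).toMonoidHom ⊓ Subgroup.normalizer (E : Set G) ≤ E)
    {Q : Subgroup G} (hQP : Q ≤ (P : Subgroup G)) {x : G}
    (hxQ : x ∈ Subgroup.normalizer (Q : Set G))
    (hxp : (orderOf x).Coprime p) {y : G} (hy : y ∈ Q) :
    y⁻¹ * (x * y * x⁻¹) ∈ (frattini (P : Subgroup G)).map (P : Subgroup G).subtype := by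
  have hp : p.Prime := Fact.out
  have hx1 := orderOf_coprime_pred hmin x
  have hQp : IsPGroup p Q := P.2.to_le hQP
  have hxy : x * y * x⁻¹ ∈ Q := (Subgroup.mem_normalizer_iff.mp hxQ y).1 hy
  by_cases hcase : p ^ d < Nat.card Q
  · have hinv : ∀ E : Subgroup G, E ≤ Q → (Nat.card E = p ^ d ∨ (p ^ d = 2 ∧ Nat.card E = 4)) →
        x ∈ Subgroup.normalizer (E : Set G) := by
      intro E hEQ hEc
      apply mem_normalizer_of_conj_mem
      intro e he
      have h1 : x * e * x⁻¹ ∈ Q := (Subgroup.mem_normalizer_iff.mp hxQ e).1 (hEQ he)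
      exact sc_of_good P.2 (hEQ.trans hQP) (hE E (hEQ.trans hQP) hEc) he (hQP h1)
    have hc := centralizes_of_normalizes hQp hd hcase hxQ hxp hx1 hinv y hy
    rw [hc, inv_mul_cancel]
    exact Subgroup.one_mem _
  · have hzQ : y⁻¹ * (x * y * x⁻¹) ∈ Q := Q.mul_mem (Q.inv_mem hy) hxy
    have hzP : y⁻¹ * (x * y * x⁻¹) ∈ (P : Subgroup G) := hQP hzQ
    rw [mem_map_subtype_iff _ hzP, mem_frattini_iff]
    intro M hM
    obtain ⟨hMn, hMi⟩ := coatom_normal_index P.2 hM
    obtain ⟨m, hm⟩ := IsPGroup.iff_card.mp P.2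
    obtain ⟨n, hn⟩ := IsPGroup.iff_card.mp hQp
    have hdm : d < m := by
      rw [hm] at hdP; exact (Nat.pow_lt_pow_iff_right hp.one_lt).mp hdP
    have hnd : n ≤ d := by
      rw [hn] at hcase
      by_contra hcon
      exact hcase (Nat.pow_lt_pow_right hp.one_lt (by omega))
    have hMc : Nat.card (M.map (P : Subgroup G).subtype) = p ^ (m - 1) := by
      rw [Subgroup.card_map_of_injective (P : Subgroup G).subtype_injective]
      have h6 := M.card_mul_index
      rw [hMi, hm] at h6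
      have h7 : p ^ m = p ^ (m - 1) * p := by
        rw [← pow_succ]; congr 1; omega
      rw [h7] at h6
      exact Nat.eq_of_mul_eq_mul_right hp.pos h6
    let N : Subgroup Q := M.comap (Subgroup.inclusion hQP)
    have hNn : N.Normal := inferInstance
    have hNdvd : N.index ∣ p := by
      have h1 : N.index = M.relIndex (Subgroup.inclusion hQP).range := Subgroup.index_comap M _
      rw [h1]
      have h2 := Subgroup.relIndex_dvd_index_of_normal M (Subgroup.inclusion hQP).range
      rw [hMi] at h2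
      exact h2
    rcases (Nat.dvd_prime hp).mp hNdvd with h1 | hNp
    · have htop : N = ⊤ := Subgroup.index_eq_one.mp h1
      have : (⟨y⁻¹ * (x * y * x⁻¹), hzQ⟩ : Q) ∈ N := by rw [htop]; trivial
      exact this
    · have hxN : ∀ z : Q, z ∈ N → Q.normalizerMonoidHom ⟨x, hxQ⟩ z ∈ N := by
        intro z hz
        have hzM : (z : G) ∈ M.map (P : Subgroup G).subtype :=
          (mem_map_subtype_iff M (hQP z.2)).mpr hz
        -- a subgroup of order `p ^ d` between `Q ⊓ M` and `M`
        obtain ⟨r, hr⟩ := IsPGroup.iff_card.mp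
          (hQp.to_le (inf_le_left : Q ⊓ M.map (P : Subgroup G).subtype ≤ Q))
        have hrn : r ≤ n := by
          have h2 : p ^ r ∣ p ^ n := by
            rw [← hr, ← hn]; exact Subgroup.card_dvd_of_le inf_le_left
          exact (Nat.pow_dvd_pow_iff_le_right hp.one_lt).mp h2
        obtain ⟨E', hRE', hE'M, hE'c⟩ := exists_between
          (inf_le_right : Q ⊓ M.map (P : Subgroup G).subtype ≤ M.map (P : Subgroup G).subtype)
          hr (hrn.trans hnd) (hMc ▸ pow_dvd_pow p (by omega))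
        have hE'P : E' ≤ (P : Subgroup G) := hE'M.trans (Subgroup.map_subtype_le M)
        have hxz : x * (z : G) * x⁻¹ ∈ Q := (Subgroup.mem_normalizer_iff.mp hxQ z).1 z.2
        have h3 : x * (z : G) * x⁻¹ ∈ E' :=
          sc_of_good P.2 hE'P (hE E' hE'P (Or.inl hE'c)) (hRE' ⟨z.2, hzM⟩) (hQP hxz)
        exact (mem_map_subtype_iff M (hQP hxz)).mp (hE'M h3)
      have key := @inv_mul_aut_mem G _ _ p _ Q N hNn hNp x hxQ hxN hx1 ⟨y, hy⟩
      exact key

/-- the hypothesis forces `O^p(G) ∩ P ≤ Φ(P)`. -/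
theorem pResidual_inf_le_frattini [Finite G] {p : ℕ} [Fact p.Prime]
    (hmin : ∀ q : ℕ, q.Prime → q ∣ Nat.card G → p ≤ q) (P : Sylow p G) {d : ℕ} (hd : 1 ≤ d)
    (hdP : p ^ d < Nat.card (P : Subgroup G))
    (hE : ∀ E : Subgroup G, E ≤ (P : Subgroup G) →
      (Nat.card E = p ^ d ∨ (p ^ d = 2 ∧ Nat.card E = 4)) →
        ∀ g : G, E.map (MulAut.conj g).toMonoidHom ⊓ Subgroup.normalizer (E : Set G) ≤ E) :
    pResidual p G ⊓ (P : Subgroup G) ≤
      (frattini (P : Subgroup G)).map (P : Subgroup G).subtype := by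
  rw [inf_comm, ← Helper84.hyperfocal_eq p P]
  unfold hyperfocalSubgroup
  rw [Subgroup.closure_le]
  rintro _ ⟨Q, α, x, hQP, hα, rfl⟩
  have key : ∀ β : (groupFusionSystem (P : Subgroup G)).autGroup Q,
      β ∈ pResidual p ((groupFusionSystem (P : Subgroup G)).autGroup Q) →
      ∀ x : Q, (x : G)⁻¹ * (((β : MulAut Q) x : Q) : G) ∈
        (frattini (P : Subgroup G)).map (P : Subgroup G).subtype := by
    intro β hβ
    unfold pResidual at hβ
    induction hβ using Subgroup.closure_induction with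
    | mem β hβ =>
      intro x
      have hβF := (Helper84.mem_autGroup_iff _ hQP (β : MulAut Q)).1 β.2
      obtain ⟨-, -, g, hg⟩ := hβF
      have hord : Nat.Coprime (orderOf (β : MulAut Q)) p := by
        rw [Subgroup.orderOf_coe]; exact hβ
      obtain ⟨g', hg'c, hg'⟩ := Helper84.exists_pprime_lift (β : MulAut Q) hord g hg
      rw [hg' x]
      have hg'N : g' ∈ Subgroup.normalizer (Q : Set G) :=
        mem_normalizer_of_conj_mem (fun z hz => by
          have := hg' ⟨z, hz⟩
          rw [← this]; exact Subtype.property _)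
      exact inv_mul_conj_mem_frattini hmin P hd hdP hE hQP hg'N hg'c x.2
    | one => intro x; simp
    | mul β γ _ _ hβ hγ =>
      intro x
      have e : (x : G)⁻¹ * ((((β * γ : (groupFusionSystem (P : Subgroup G)).autGroup Q) :
          MulAut Q) x : Q) : G) =
          ((x : G)⁻¹ * (((γ : MulAut Q) x : Q) : G)) *
            ((((γ : MulAut Q) x : Q) : G)⁻¹ * (((β : MulAut Q) ((γ : MulAut Q) x) : Q) : G)) := by
        show (x : G)⁻¹ * (((β : MulAut Q) ((γ : MulAut Q) x) : Q) : G) = _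
        group
      rw [e]
      exact Subgroup.mul_mem _ (hγ x) (hβ _)
    | inv β _ hβ =>
      intro x
      have h1 := hβ ((β : MulAut Q)⁻¹ x)
      rw [MulAut.apply_inv_self] at h1
      have e : (x : G)⁻¹ * ((((β⁻¹ : (groupFusionSystem (P : Subgroup G)).autGroup Q) :
          MulAut Q) x : Q) : G) = ((((β : MulAut Q)⁻¹ x : Q) : G)⁻¹ * (x : G))⁻¹ := by
        show (x : G)⁻¹ * ((((β : MulAut Q)⁻¹ x : Q) : G)) = _
        group
      rw [e]
      exact Subgroup.inv_mem _ h1
  exact key α hα x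

/-- S3031, conditional on Tate's theorem. -/
theorem result_of [Finite G] {p : ℕ} [Fact p.Prime]
    (tate : ∀ (P : Sylow p G) (N : Subgroup G) [N.Normal],
      N ⊓ (P : Subgroup G) ≤ (frattini (P : Subgroup G)).map (P : Subgroup G).subtype →
        Cfsg.HasNormalPComplement p N)
    (hdiv : p ∣ Nat.card G)
    (hmin : ∀ q : ℕ, q.Prime → q ∣ Nat.card G → p ≤ q) (P : Sylow p G)
    (h : IsCyclic ↥(P : Subgroup G) ∨ ∃ D : Subgroup G, D ≤ (P : Subgroup G) ∧ 1 < Nat.card D ∧
      Nat.card D < Nat.card (P : Subgroup G) ∧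
      ∀ E : Subgroup G, E ≤ (P : Subgroup G) →
        (Nat.card E = Nat.card D ∨ (Nat.card D = 2 ∧ Nat.card E = 4)) →
        ∀ g : G, E.map (MulAut.conj g).toMonoidHom ⊓ Subgroup.normalizer (E : Set G) ≤ E) :
    Cfsg.HasNormalPComplement p G := by
  have hp : p.Prime := Fact.out
  rcases h with hcyc | ⟨D, hDP, hD1, hDlt, hE⟩
  · have hne1 : Nat.card G ≠ 1 := by
      intro h1
      rw [h1] at hdiv
      exact hp.one_lt.ne' (Nat.dvd_one.mp hdiv)
    have hminfac : (Nat.card G).minFac = p := by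
      apply le_antisymm
      · exact Nat.minFac_le_of_dvd hp.two_le hdiv
      · exact hmin _ (Nat.minFac_prime hne1) (Nat.minFac_dvd _)
    exact ⟨P, _, inferInstance, IsCyclic.isComplement' hminfac hcyc⟩
  · obtain ⟨d, hd⟩ := IsPGroup.iff_card.mp (P.2.to_le hDP)
    rw [hd] at hD1 hDlt hE
    have hd1 : 1 ≤ d := by
      by_contra hcon
      have h0 : d = 0 := by omega
      rw [h0] at hD1
      simp at hD1
    have hN : (pResidual p G).Normal := Helper2.pResidual_normal p
    have hfr := pResidual_inf_le_frattini hmin P hd1 hDlt hE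
    obtain ⟨Q, K₀, hK₀n, hK₀c⟩ := tate P (pResidual p G) hfr
    have hpG : IsPGroup p (G ⧸ pResidual p G) := Helper34.quotient_pResidual_isPGroup p G
    obtain ⟨k, hk⟩ := IsPGroup.iff_card.mp hpG
    have hidx : (pResidual p G).index = p ^ k := by rw [Subgroup.index_eq_card]; exact hk
    obtain ⟨K, hKn, hKc⟩ :=
      Helper53.exists_normal_complement_of_normal_subgroup (pResidual p G) hidx Q K₀ hK₀c P
    exact ⟨P, K, hKn, hKc⟩

end Cfsg.Agent.Lib.Helper57.HSub
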