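import Mathlib
import Cfsg.Agent.Lib.Helper57.HSubB
import Cfsg.Agent.Lib.Helper9.Huppert2

/-!
# Normal `p`-subgroups all of whose subgroups of a fixed order are normal (helper57)

If `P` is a normal `p`-subgroup of a finite group `H` which is cyclic, or such that all
subgroups of `P` of order `p ^ d` (`1 ≤ d`, `p ^ d < |P|`; and of order `4` when `p ^ d = 2`)
are normal in `H`, then there is a chain of normal subgroups of `H` from `⊥` to `P` with
cyclic steps (`Helper9.Reach ⊥ P`).
-/

set_option autoImplicit false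

namespace Cfsg.Agent.Lib.Helper57.HSub

universe u

/-- the verbal subgroup generated by commutators and `(p-1)`-th powers. -/
def verbal (p : ℕ) (H : Type*) [Group H] : Subgroup H :=
  Subgroup.normalClosure
    ({x | ∃ a b : H, x = a * b * a⁻¹ * b⁻¹} ∪ {x | ∃ a : H, x = a ^ (p - 1)})

instance verbal_normal (p : ℕ) (H : Type*) [Group H] : (verbal p H).Normal := by
  unfold verbal; infer_instance

theorem comm_mem_verbal (p : ℕ) {H : Type*} [Group H] (a b : H) :
    a * b * a⁻¹ * b⁻¹ ∈ verbal p H :=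
  Subgroup.subset_normalClosure (Or.inl ⟨a, b, rfl⟩)

theorem pow_mem_verbal (p : ℕ) {H : Type*} [Group H] (a : H) : a ^ (p - 1) ∈ verbal p H :=
  Subgroup.subset_normalClosure (Or.inr ⟨a, rfl⟩)

/-- the verbal subgroup is killed by `m`-th powers in every commutative image in which
`(p-1)`-th powers are killed by `m`-th powers. -/
theorem verbal_map_pow {p : ℕ} {H A : Type*} [Group H] [Group A] (φ : H →* A)
    (hcomm : ∀ a b : A, a * b = b * a) (m : ℕ)
    (hm : ∀ a : A, (a ^ (p - 1)) ^ m = 1) : ∀ r ∈ verbal p H, φ r ^ m = 1 := by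
  let N : Subgroup H :=
    { carrier := {h | φ h ^ m = 1}
      one_mem' := by simp
      mul_mem' := by
        intro a b ha hb
        simp only [Set.mem_ofPred_eq] at ha hb ⊢
        rw [map_mul, (show Commute (φ a) (φ b) from hcomm _ _).mul_pow, ha, hb, one_mul]
      inv_mem' := by
        intro a ha
        simp only [Set.mem_ofPred_eq] at ha ⊢
        rw [map_inv, inv_pow, ha, inv_one] }
  have hN : N.Normal := by
    constructor
    intro n hn g
    show φ (g * n * g⁻¹) ^ m = 1
    have : φ (g * n * g⁻¹) = φ n := by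
      rw [map_mul, map_mul, hcomm (φ g) (φ n), mul_assoc, ← map_mul, mul_inv_cancel, map_one,
        mul_one]
    rw [this]; exact hn
  have hle : verbal p H ≤ N := by
    apply Subgroup.normalClosure_le_normal
    rintro x (⟨a, b, rfl⟩ | ⟨a, rfl⟩)
    · show φ (a * b * a⁻¹ * b⁻¹) ^ m = 1
      have : φ (a * b * a⁻¹ * b⁻¹) = 1 := by
        rw [map_mul, map_mul, map_mul, hcomm (φ a) (φ b), map_inv, map_inv,
          mul_inv_cancel_right, mul_inv_cancel]
      rw [this, one_pow]
    · show φ (a ^ (p - 1)) ^ m = 1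
      rw [map_pow]; exact hm _
  intro r hr
  exact hle hr

/-- automorphism groups of cyclic groups are commutative. -/
theorem mulAut_comm_of_isCyclic {E : Type*} [Group E] [IsCyclic E] (a b : MulAut E) :
    a * b = b * a := by
  have e := IsCyclic.mulAutMulEquiv E
  apply e.injective
  rw [map_mul, map_mul, mul_comm]

theorem mulAut_pow_of_card {E : Type*} [Group E] [Finite E] [IsCyclic E] {p : ℕ}
    [Fact p.Prime] {j : ℕ} (hj : 1 ≤ j) (hE : Nat.card E = p ^ j) (a : MulAut E) :
    (a ^ (p - 1)) ^ (p ^ (j - 1)) = 1 := by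
  have hp : p.Prime := Fact.out
  have h1 : Nat.card (MulAut E) = p ^ (j - 1) * (p - 1) := by
    rw [IsCyclic.card_mulAut E, hE, Nat.totient_prime_pow hp (by omega)]
  rw [← pow_mul, mul_comm, ← h1]
  exact pow_card_eq_one'

/-- `p'`-elements of the verbal subgroup centralize normal cyclic `p`-subgroups. -/
theorem verbal_conj_cyclic {H : Type*} [Group H] [Finite H] {p : ℕ} [Fact p.Prime] {e : H}
    {j : ℕ} (hj : 1 ≤ j) (he : orderOf e = p ^ j) (hn : (Subgroup.zpowers e).Normal)
    {z : H} (hzR : z ∈ verbal p H) (hzp : (orderOf z).Coprime p) : z * e * z⁻¹ = e := by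
  have hcard : Nat.card (Subgroup.zpowers e) = p ^ j := by rw [Nat.card_zpowers, he]
  have h1 := verbal_map_pow (p := p) (MulAut.conjNormal (H := Subgroup.zpowers e))
    mulAut_comm_of_isCyclic (p ^ (j - 1)) (mulAut_pow_of_card hj hcard) z hzR
  have h2 : (MulAut.conjNormal (H := Subgroup.zpowers e) z) ^ orderOf z = 1 := by
    rw [← map_pow, pow_orderOf_eq_one, map_one]
  have h3 : MulAut.conjNormal (H := Subgroup.zpowers e) z = 1 := by
    have d1 := orderOf_dvd_of_pow_eq_one h1
    have d2 := orderOf_dvd_of_pow_eq_one h2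
    have : orderOf (MulAut.conjNormal (H := Subgroup.zpowers e) z) = 1 :=
      Nat.eq_one_of_dvd_coprimes (Nat.Coprime.pow_right _ hzp) d2 d1
    exact orderOf_eq_one_iff.mp this
  have h4 := MulAut.conjNormal_apply (H := Subgroup.zpowers e) z ⟨e, Subgroup.mem_zpowers e⟩
  rw [h3] at h4
  exact h4.symm

/-- the verbal subgroup acts trivially on normal sections of order `p`. -/
theorem verbal_quot_trivial {H : Type u} [Group H] [Finite H] {p : ℕ} [Fact p.Prime]
    (F M : Subgroup H) [hF : F.Normal] [hM : M.Normal] (hMF : M ≤ F)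
    (hcard : Nat.card F = p * Nat.card M) {r : H} (hr : r ∈ verbal p H) {y : H} (hy : y ∈ F) :
    y⁻¹ * (r * y * r⁻¹) ∈ M := by
  have hp : p.Prime := Fact.out
  let π := QuotientGroup.mk' M
  have hsurj : Function.Surjective π := QuotientGroup.mk'_surjective M
  have hFn : (F.map π).Normal := hF.map π hsurj
  have hc : Nat.card (F.map π) = p := by
    have h1 := Helper9.card_comap_mk' M (F.map π)
    rw [QuotientGroup.comap_map_mk', sup_eq_right.mpr hMF, hcard] at h1
    have hpos : 0 < Nat.card M := Nat.card_pos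
    exact (Nat.eq_of_mul_eq_mul_left hpos (by linarith)).symm
  have hcyc : IsCyclic (F.map π) := isCyclic_of_prime_card hc
  have hexp : ∀ a : MulAut (F.map π), (a ^ (p - 1)) ^ 1 = 1 := by
    intro a
    have h1 : Nat.card (MulAut (F.map π)) = p - 1 := by
      rw [IsCyclic.card_mulAut, hc, Nat.totient_prime hp]
    rw [pow_one, ← h1]; exact pow_card_eq_one'
  have h2 := verbal_map_pow (p := p) ((MulAut.conjNormal (H := F.map π)).comp π)
    mulAut_comm_of_isCyclic 1 hexp r hr
  rw [pow_one] at h2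
  have h3 := MulAut.conjNormal_apply (H := F.map π) (π r) ⟨π y, Subgroup.mem_map_of_mem π hy⟩
  have h4 : MulAut.conjNormal (H := F.map π) (π r) = 1 := h2
  rw [h4] at h3
  have h5 : π y = π r * π y * (π r)⁻¹ := h3
  have h6 : π (y⁻¹ * (r * y * r⁻¹)) = 1 := by
    rw [map_mul, map_mul, map_mul, map_inv, map_inv, ← h5, inv_mul_cancel]
  exact (QuotientGroup.eq_one_iff _).mp h6

variable {G : Type*} [Group G]

/-- generalisation of `centralizes_of_normalizes`: the two "acts trivially" inputs are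
hypotheses. -/
theorem centralizes_of_normalizes_gen [Finite G] {p : ℕ} [Fact p.Prime] {Q : Subgroup G}
    (hQ : IsPGroup p Q) {d : ℕ} (hd : 1 ≤ d) (hdQ : p ^ d < Nat.card Q) {x : G}
    (hxQ : x ∈ Subgroup.normalizer (Q : Set G)) (hxp : (orderOf x).Coprime p)
    (hinv : ∀ E : Subgroup G, E ≤ Q → (Nat.card E = p ^ d ∨ (p ^ d = 2 ∧ Nat.card E = 4)) →
      x ∈ Subgroup.normalizer (E : Set G))
    (hcyc : ∀ e ∈ Q, (orderOf e = p ^ d ∨ (p ^ d = 2 ∧ orderOf e = 4)) → x * e * x⁻¹ = e)
    (hquot : ∀ E E2 M : Subgroup G, E ≤ Q → E2 ≤ Q → Nat.card E = p ^ d →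
      Nat.card E2 = p ^ d → M ≤ E ⊔ E2 → Nat.card M = p ^ d →
      Nat.card (E ⊔ E2 : Subgroup G) = p ^ (d + 1) →
        ∀ a ∈ Subgroup.zpowers x, ∀ y ∈ E ⊔ E2, y⁻¹ * (a * y * a⁻¹) ∈ M) :
    ∀ y ∈ Q, x * y * x⁻¹ = y := by
  have hp : p.Prime := Fact.out
  obtain ⟨n, hn⟩ := IsPGroup.iff_card.mp hQ
  have hdn : d < n := by
    rw [hn] at hdQ; exact (Nat.pow_lt_pow_iff_right hp.one_lt).mp hdQ
  -- elements of a subgroup of order `p ^ d` are fixed
  have stepE : ∀ E : Subgroup G, E ≤ Q → Nat.card E = p ^ d → ∀ y ∈ E, x * y * x⁻¹ = y := by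
    intro E hEQ hE y hyE
    have hxE := hinv E hEQ (Or.inl hE)
    by_cases hcycE : IsCyclic E
    · obtain ⟨e, he⟩ := hcycE.exists_generator
      have heq : Subgroup.zpowers (e : G) = E := by
        apply le_antisymm (Subgroup.zpowers_le.mpr e.2)
        intro z hz
        obtain ⟨k, hk⟩ := Subgroup.mem_zpowers_iff.mp (he ⟨z, hz⟩)
        refine Subgroup.mem_zpowers_iff.mpr ⟨k, ?_⟩
        have := congrArg Subtype.val hk
        simpa using this
      have hfix : x * (e : G) * x⁻¹ = e := by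
        apply hcyc (e : G) (hEQ e.2)
        left
        rw [← Nat.card_zpowers, heq, hE]
      have hy : y ∈ Subgroup.zpowers (e : G) := by rw [heq]; exact hyE
      obtain ⟨k, rfl⟩ := Subgroup.mem_zpowers_iff.mp hy
      rw [← conj_zpow, hfix]
    · obtain ⟨F, hEF, hFQ, hF⟩ := exists_between hEQ hE (Nat.le_succ d)
        (hn ▸ pow_dvd_pow p hdn)
      have hne : E ≠ F := by
        intro h
        rw [h, hF] at hE
        have := Nat.pow_right_injective hp.two_le hE
        omega
      obtain ⟨f, hfF, hfE⟩ := SetLike.exists_of_lt (lt_of_le_of_ne hEF hne)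
      have hzF : Subgroup.zpowers f ≤ F := Subgroup.zpowers_le.mpr hfF
      have hFp : IsPGroup p F := hQ.to_le hFQ
      obtain ⟨a, ha⟩ : ∃ a, Nat.card (Subgroup.zpowers f) = p ^ a :=
        IsPGroup.iff_card.mp (hFp.to_le hzF)
      have hale : a ≤ d := by
        by_contra hcon
        have h1 : p ^ a ∣ p ^ (d + 1) := by
          rw [← ha, ← hF]; exact Subgroup.card_dvd_of_le hzF
        have h2 : a ≤ d + 1 := (Nat.pow_dvd_pow_iff_le_right hp.one_lt).mp h1
        have h3 : a = d + 1 := by omega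
        have h4 : Subgroup.zpowers f = F :=
          Subgroup.eq_of_le_of_card_ge hzF (by rw [ha, hF, h3])
        apply hcycE
        have : IsCyclic (Subgroup.zpowers f) := inferInstance
        exact Subgroup.isCyclic_of_le (h4 ▸ hEF)
      obtain ⟨E2, hfE2, hE2F, hE2⟩ := exists_between hzF ha hale
        (hF ▸ pow_dvd_pow p (Nat.le_succ d))
      have hxE2 := hinv E2 (hE2F.trans hFQ) (Or.inl hE2)
      have hsup : E ⊔ E2 = F := by
        apply Subgroup.eq_of_le_of_card_ge (sup_le hEF hE2F)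
        obtain ⟨b, hb⟩ := IsPGroup.iff_card.mp (hFp.to_le (sup_le hEF hE2F))
        have h1 : p ^ d ∣ p ^ b := by
          rw [← hE, ← hb]; exact Subgroup.card_dvd_of_le le_sup_left
        have h2 : d ≤ b := (Nat.pow_dvd_pow_iff_le_right hp.one_lt).mp h1
        have h3 : b ≠ d := by
          intro h
          have h5 : E = E ⊔ E2 := Subgroup.eq_of_le_of_card_ge le_sup_left (by rw [hb, hE, h])
          have hf : f ∈ E := by
            rw [h5]; exact (le_sup_right : E2 ≤ E ⊔ E2) (hfE2 (Subgroup.mem_zpowers f))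
          exact hfE hf
        rw [hF, hb]
        exact Nat.pow_le_pow_right hp.pos (by omega)
      have hxF : x ∈ Subgroup.normalizer (F : Set G) := by
        rw [← hsup]; exact mem_normalizer_sup hxE hxE2
      have hA : Subgroup.zpowers x ≤ Subgroup.normalizer (F : Set G) :=
        Subgroup.zpowers_le.mpr hxF
      have hcop : (Nat.card (Subgroup.zpowers x)).Coprime (Nat.card (frattini F)) := by
        rw [Nat.card_zpowers]
        obtain ⟨b, hb⟩ := IsPGroup.iff_card.mp (hFp.to_subgroup (frattini F))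
        rw [hb]; exact Nat.Coprime.pow_right _ hxp
      have htriv : ∀ a ∈ Subgroup.zpowers x, ∀ k ∈ F,
          a * k * a⁻¹ * k⁻¹ ∈ (frattini F).map F.subtype := by
        intro a ha k hk
        have haF : a ∈ Subgroup.normalizer (F : Set G) := hA ha
        have hmem : a * k * a⁻¹ * k⁻¹ ∈ F :=
          F.mul_mem ((Subgroup.mem_normalizer_iff.mp haF k).1 hk) (F.inv_mem hk)
        refine ⟨⟨a * k * a⁻¹ * k⁻¹, hmem⟩, ?_, rfl⟩
        rw [SetLike.mem_coe, mem_frattini_iff]
        intro M hM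
        obtain ⟨hMn, hMi⟩ := coatom_normal_index hFp hM
        have hMc : Nat.card (M.map F.subtype) = p ^ d := by
          rw [Subgroup.card_map_of_injective F.subtype_injective]
          have h6 := M.card_mul_index
          rw [hMi, hF, pow_succ] at h6
          exact Nat.eq_of_mul_eq_mul_right hp.pos h6
        have hMle : M.map F.subtype ≤ E ⊔ E2 := by
          rw [hsup]; exact Subgroup.map_subtype_le M
        have hcF : Nat.card (E ⊔ E2 : Subgroup G) = p ^ (d + 1) := by rw [hsup]; exact hF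
        have hk' : k ∈ E ⊔ E2 := by rw [hsup]; exact hk
        have hq := hquot E E2 (M.map F.subtype) hEQ (hE2F.trans hFQ) hE hE2 hMle hMc hcF
          a ha k hk'
        obtain ⟨w, hw, hwe⟩ := hq
        have h2 := hMn.conj_mem w hw ⟨k, hk⟩
        have hwe' : (w : G) = k⁻¹ * (a * k * a⁻¹) := hwe
        have h3 : (⟨a * k * a⁻¹ * k⁻¹, hmem⟩ : F) = ⟨k, hk⟩ * w * (⟨k, hk⟩ : F)⁻¹ := by
          apply Subtype.ext
          show a * k * a⁻¹ * k⁻¹ = k * (w : G) * k⁻¹
          rw [hwe']; group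
        rw [h3]; exact h2
      have hcent := Cfsg.Agent.S0029.result (Subgroup.zpowers x) F hA hcop htriv
      have hxc : x ∈ Subgroup.centralizer (F : Set G) := hcent (Subgroup.mem_zpowers x)
      have hyF : y ∈ F := hEF hyE
      have h8 := Subgroup.mem_centralizer_iff.mp hxc y hyF
      rw [← h8]; group
  -- the automorphism induced by `x`
  set a : MulAut Q := Q.normalizerMonoidHom ⟨x, hxQ⟩ with ha
  have hao : (orderOf a).Coprime p := by
    apply Nat.Coprime.coprime_dvd_left _ hxp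
    have h1 : orderOf a ∣ orderOf (⟨x, hxQ⟩ : Subgroup.normalizer (Q : Set G)) :=
      orderOf_map_dvd _ _
    rwa [Subgroup.orderOf_mk] at h1
  have key : ∀ (j : ℕ), 1 ≤ j → p ∣ p ^ j * (p ^ j - 1) / 2 →
      (∀ y ∈ Q, y ^ p ^ j = 1 → x * y * x⁻¹ = y) → ∀ y ∈ Q, x * y * x⁻¹ = y := by
    intro j hj he hfix y hy
    have h1 := Helper54.aut_eq_one_of_fix_omega hQ a hao j hj he (fun z hz => by
      apply Subtype.ext
      exact hfix z z.2 (by simpa using congrArg Subtype.val hz))
    have h2 : a ⟨y, hy⟩ = ⟨y, hy⟩ := by rw [h1]; rfl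
    exact congrArg Subtype.val h2
  have small : ∀ y ∈ Q, ∀ k, k ≤ d → orderOf y = p ^ k → x * y * x⁻¹ = y := by
    intro y hy k hk ho
    have hz : Subgroup.zpowers y ≤ Q := Subgroup.zpowers_le.mpr hy
    obtain ⟨E, hzE, hEQ, hE⟩ := exists_between hz (by rw [Nat.card_zpowers, ho]) hk
      (hn ▸ pow_dvd_pow p hdn.le)
    exact stepE E hEQ hE y (hzE (Subgroup.mem_zpowers y))
  by_cases hp2 : p = 2
  · subst hp2
    apply key 2 (by norm_num) Helper54.omega_exponent_two
    intro y hy hy4
    have hdvd : orderOf y ∣ 2 ^ 2 := orderOf_dvd_of_pow_eq_one hy4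
    obtain ⟨k, hk, hko⟩ := (Nat.dvd_prime_pow Nat.prime_two).mp hdvd
    by_cases hkd : k ≤ d
    · exact small y hy k hkd hko
    · have hk2 : k = 2 := by omega
      have hd1 : d = 1 := by omega
      subst hk2; subst hd1
      exact hcyc y hy (Or.inr ⟨by norm_num, by rw [hko]; norm_num⟩)
  · apply key 1 le_rfl (Helper54.omega_exponent_odd hp hp2)
    intro y hy hyp
    have hdvd : orderOf y ∣ p ^ 1 := orderOf_dvd_of_pow_eq_one hyp
    obtain ⟨k, hk, hko⟩ := (Nat.dvd_prime_pow hp).mp hdvd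
    exact small y hy k (by omega) hko

/-- `p'`-elements of the verbal subgroup centralize a normal `p`-subgroup all of whose
subgroups of order `p ^ d` (and `4` if `p ^ d = 2`) are normal. -/
theorem verbal_centralizes {H : Type u} [Group H] [Finite H] {p : ℕ} [Fact p.Prime]
    {P : Subgroup H} [hPn : P.Normal] (hP : IsPGroup p P) {d : ℕ} (hd : 1 ≤ d)
    (hdP : p ^ d < Nat.card P)
    (hnorm : ∀ F : Subgroup H, F ≤ P → (Nat.card F = p ^ d ∨ (p ^ d = 2 ∧ Nat.card F = 4)) →
      F.Normal)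
    {z : H} (hzR : z ∈ verbal p H) (hzp : (orderOf z).Coprime p) :
    ∀ y ∈ P, z * y * z⁻¹ = y := by
  have hp : p.Prime := Fact.out
  have hmemN : ∀ (F : Subgroup H), F.Normal → ∀ g : H,
      g ∈ Subgroup.normalizer (F : Set H) := by
    intro F hF g
    exact mem_normalizer_of_conj_mem (fun x hx => hF.conj_mem x hx g)
  apply centralizes_of_normalizes_gen hP hd hdP (hmemN P hPn z) hzp
  · intro E hEP hE
    exact hmemN E (hnorm E hEP hE) z
  · intro e heP hcase
    have hle : Subgroup.zpowers e ≤ P := Subgroup.zpowers_le.mpr heP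
    rcases hcase with h1 | ⟨h2, h4⟩
    · exact verbal_conj_cyclic hd h1
        (hnorm _ hle (Or.inl (by rw [Nat.card_zpowers, h1]))) hzR hzp
    · have hp2 : p = 2 :=
        (Nat.prime_dvd_prime_iff_eq hp Nat.prime_two).mp (h2 ▸ dvd_pow_self p (by omega))
      subst hp2
      exact verbal_conj_cyclic (j := 2) (by norm_num) (by rw [h4]; norm_num)
        (hnorm _ hle (Or.inr ⟨h2, by rw [Nat.card_zpowers, h4]⟩)) hzR hzp
  · intro E E2 M hEP hE2P hE hE2 hM hMc hF a ha y hy
    have hEn := hnorm E hEP (Or.inl hE)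
    have hE2n := hnorm E2 hE2P (Or.inl hE2)
    have hMn := hnorm M (hM.trans (sup_le hEP hE2P)) (Or.inl hMc)
    have hFn : (E ⊔ E2).Normal := inferInstance
    have haR : a ∈ verbal p H := (Subgroup.zpowers_le.mpr hzR) ha
    exact verbal_quot_trivial (E ⊔ E2) M hM (by rw [hF, hMc, pow_succ, mul_comm]) haR hy

/-- eigen-induction: a nontrivial elementary abelian normal subgroup on which commutators and
`(p-1)`-th powers act trivially contains a normal subgroup of prime order. -/
theorem exists_normal_zpowers_of_abelian {H : Type u} [Group H] [Finite H] (p : ℕ)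
    [Fact p.Prime] (n : ℕ) :
    ∀ (W : Subgroup H), Nat.card W ≤ n → W.Normal → (∀ a ∈ W, ∀ b ∈ W, a * b = b * a) →
      (∀ a ∈ W, a ^ p = 1) → W ≠ ⊥ →
      (∀ g h : H, ∀ w ∈ W, (g * h * g⁻¹ * h⁻¹) * w = w * (g * h * g⁻¹ * h⁻¹)) →
      (∀ g : H, ∀ w ∈ W, g ^ (p - 1) * w = w * g ^ (p - 1)) →
      ∃ u ∈ W, u ≠ 1 ∧ (Subgroup.zpowers u).Normal := by
  induction n with
  | zero =>
    intro W hW
    have : 0 < Nat.card W := Nat.card_pos
    omega
  | succ n ih =>
    intro W hWn hWnorm hWc hWp hW1 hcomm hpow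
    by_cases hall : ∀ h : H, ∀ w ∈ W, h * w * h⁻¹ ∈ Subgroup.zpowers w
    · obtain ⟨w, hw, hw1⟩ : ∃ w ∈ W, w ≠ 1 := by
        by_contra hcon
        push Not at hcon
        apply hW1
        rw [eq_bot_iff]
        intro x hx
        rw [Subgroup.mem_bot]; exact hcon x hx
      exact ⟨w, hw, hw1, Helper9.normal_zpowers_of_conj_mem w (fun x => hall x w hw)⟩
    · push Not at hall
      obtain ⟨h, w, hwW, hw⟩ := hall
      obtain ⟨a, u, huW, hu1, hu⟩ := Helper9.exists_eigen_subgroup p W hWc hWp hW1 h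
        (fun v hv => hWnorm.conj_mem v hv h) (hpow h)
      let W' : Subgroup H :=
        { carrier := {v | v ∈ W ∧ h * v * h⁻¹ = v ^ a}
          one_mem' := ⟨W.one_mem, by simp⟩
          mul_mem' := by
            rintro v1 v2 ⟨h1, e1⟩ ⟨h2, e2⟩
            refine ⟨W.mul_mem h1 h2, ?_⟩
            have : h * (v1 * v2) * h⁻¹ = (h * v1 * h⁻¹) * (h * v2 * h⁻¹) := by group
            rw [this, e1, e2, (show Commute v1 v2 from hWc v1 h1 v2 h2).mul_pow]
          inv_mem' := by
            rintro v ⟨h1, e1⟩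
            refine ⟨W.inv_mem h1, ?_⟩
            have : h * v⁻¹ * h⁻¹ = (h * v * h⁻¹)⁻¹ := by group
            rw [this, e1, inv_pow] }
      have hW'le : W' ≤ W := fun v hv => hv.1
      have hW'ne : W' ≠ W := by
        intro heq
        have hw' : w ∈ W' := heq ▸ hwW
        apply hw
        rw [hw'.2]
        exact Subgroup.pow_mem _ (Subgroup.mem_zpowers w) a
      have hW'1 : W' ≠ ⊥ := by
        intro hbot
        have hu' : u ∈ W' := ⟨huW, hu⟩
        rw [hbot, Subgroup.mem_bot] at hu'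
        exact hu1 hu'
      have hW'card : Nat.card W' ≤ n := by
        by_contra hcon
        exact hW'ne (Subgroup.eq_of_le_of_card_ge hW'le (by omega))
      have hW'norm : W'.Normal := by
        constructor
        rintro v ⟨hv, ev⟩ g
        refine ⟨hWnorm.conj_mem v hv g, ?_⟩
        have hc := hcomm g⁻¹ h (v ^ a) (W.pow_mem hv a)
        have e1 : h * (g * v * g⁻¹) * h⁻¹ =
            g * ((g⁻¹ * h * g⁻¹⁻¹ * h⁻¹) * (h * v * h⁻¹) * (g⁻¹ * h * g⁻¹⁻¹ * h⁻¹)⁻¹) * g⁻¹ := by
          group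
        rw [e1, ev, hc, mul_inv_cancel_right, conj_pow]
      obtain ⟨u', hu'W, hu'1, hu'n⟩ := ih W' hW'card hW'norm
        (fun a ha b hb => hWc a (hW'le ha) b (hW'le hb)) (fun a ha => hWp a (hW'le ha)) hW'1
        (fun g k w hw => hcomm g k w (hW'le hw)) (fun g w hw => hpow g w (hW'le hw))
      exact ⟨u', hW'le hu'W, hu'1, hu'n⟩

/-- a normal subgroup of prime order inside a nontrivial normal `p`-subgroup `P`, when some
normal subgroup `R` with `H ⧸ R` abelian of exponent dividing `p - 1` acts on `P` as a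
`p`-group. -/
theorem exists_normal_zpowers_of_verbal {H : Type u} [Group H] [Finite H] {p : ℕ}
    [Fact p.Prime] (P : Subgroup H) [hPn : P.Normal] (hP : IsPGroup p P) (hP1 : P ≠ ⊥)
    (R : Subgroup H) [hRn : R.Normal]
    (hRc : ∀ g h : H, g * h * g⁻¹ * h⁻¹ ∈ R) (hRp : ∀ g : H, g ^ (p - 1) ∈ R)
    (hR : ∀ r ∈ R, ∃ k : ℕ, r ^ (p ^ k) ∈ Subgroup.centralizer (P : Set H)) :
    ∃ u ∈ P, u ≠ 1 ∧ (Subgroup.zpowers u).Normal := by
  have hp : p.Prime := Fact.out
  -- Step 1: a nontrivial element of `P` centralized by `R`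
  let φ : H →* MulAut P := MulAut.conjNormal
  let A : Subgroup (MulAut P) := R.map φ
  have hA : IsPGroup p A := by
    rintro ⟨α, r, hr, rfl⟩
    obtain ⟨k, hk⟩ := hR r hr
    refine ⟨k, ?_⟩
    apply Subtype.ext
    show (φ r) ^ (p ^ k) = 1
    rw [← map_pow]
    apply MulEquiv.ext
    intro y
    apply Subtype.ext
    have h1 := Subgroup.mem_centralizer_iff.mp hk y y.2
    show r ^ p ^ k * (y : H) * (r ^ p ^ k)⁻¹ = y
    rw [← h1, mul_inv_cancel_right]
  have hdvd : p ∣ Nat.card P := by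
    have hnt : Nontrivial P := (Subgroup.nontrivial_iff_ne_bot P).mpr hP1
    obtain ⟨k, hk0, hk⟩ := hP.nontrivial_iff_card.mp hnt
    rw [hk]; exact dvd_pow_self p hk0.ne'
  have h1 : (1 : P) ∈ MulAction.fixedPoints A P := by
    intro α
    show (α : MulAut P) 1 = 1
    exact map_one _
  obtain ⟨b, hb, hb1⟩ := hA.exists_fixed_point_of_prime_dvd_card_of_fixed_point P hdvd h1
  have hbR : ∀ r ∈ R, r * (b : H) = (b : H) * r := by
    intro r hr
    have h2 : φ r b = b := hb ⟨φ r, r, hr, rfl⟩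
    have h3 : r * (b : H) * r⁻¹ = b := congrArg Subtype.val h2
    exact mul_inv_eq_iff_eq_mul.mp h3
  -- Step 2: a nontrivial element of `Z(P)` centralized by `R`
  let W₀ : Subgroup H := P ⊓ Subgroup.centralizer (R : Set H)
  have hW₀n : W₀.Normal := inferInstance
  have hW₀1 : W₀ ≠ ⊥ := by
    intro hbot
    have hbW : (b : H) ∈ W₀ :=
      ⟨b.2, Subgroup.mem_centralizer_iff.mpr (fun r hr => hbR r hr)⟩
    rw [hbot, Subgroup.mem_bot] at hbW
    exact hb1 (Subtype.ext hbW.symm)
  obtain ⟨z, hzW, hz1, hzc⟩ := Helper9.exists_ne_one_mem_centralized P W₀ hP inf_le_left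
    (fun x _ => mem_normalizer_of_conj_mem (fun w hw => hW₀n.conj_mem w hw x)) hW₀1
  have hzR : ∀ r ∈ R, r * z = z * r := fun r hr => Subgroup.mem_centralizer_iff.mp hzW.2 r hr
  -- Step 3: the subgroup `Ω₁(Z(P)) ∩ C(R)`
  let W : Subgroup H :=
    { carrier := {w | w ∈ P ∧ (∀ v ∈ P, v * w = w * v) ∧ (∀ r ∈ R, r * w = w * r) ∧ w ^ p = 1}
      one_mem' := ⟨P.one_mem, by simp, by simp, by simp⟩
      mul_mem' := by
        rintro a b ⟨ha, hac, har, hap⟩ ⟨hb, hbc, hbr, hbp⟩
        refine ⟨P.mul_mem ha hb, ?_, ?_, ?_⟩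
        · intro v hv
          rw [← mul_assoc, hac v hv, mul_assoc, hbc v hv, mul_assoc]
        · intro r hr
          rw [← mul_assoc, har r hr, mul_assoc, hbr r hr, mul_assoc]
        · rw [(show Commute a b from hbc a ha).mul_pow, hap, hbp, one_mul]
      inv_mem' := by
        rintro a ⟨ha, hac, har, hap⟩
        refine ⟨P.inv_mem ha, ?_, ?_, ?_⟩
        · intro v hv
          exact (show Commute v a from hac v hv).inv_right.eq
        · intro r hr
          exact (show Commute r a from har r hr).inv_right.eq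
        · rw [inv_pow, hap, inv_one] }
  have hWn : W.Normal := by
    constructor
    rintro w ⟨hw, hwc, hwr, hwp⟩ g
    refine ⟨hPn.conj_mem w hw g, ?_, ?_, ?_⟩
    · intro v hv
      have h2 := hwc (g⁻¹ * v * g) (by simpa using hPn.conj_mem v hv g⁻¹)
      have e1 : v * (g * w * g⁻¹) = g * ((g⁻¹ * v * g) * w) * g⁻¹ := by group
      rw [e1, h2]; group
    · intro r hr
      have h2 := hwr (g⁻¹ * r * g) (by simpa using hRn.conj_mem r hr g⁻¹)
      have e1 : r * (g * w * g⁻¹) = g * ((g⁻¹ * r * g) * w) * g⁻¹ := by group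
      rw [e1, h2]; group
    · rw [conj_pow, hwp]; group
  have hWc : ∀ a ∈ W, ∀ b ∈ W, a * b = b * a := fun a ha b hb => hb.2.1 a ha.1
  have hWp : ∀ a ∈ W, a ^ p = 1 := fun a ha => ha.2.2.2
  have hW1 : W ≠ ⊥ := by
    have hzP : z ∈ P := hzW.1
    obtain ⟨k, hk⟩ := (IsPGroup.iff_orderOf.mp hP) ⟨z, hzP⟩
    rw [Subgroup.orderOf_mk] at hk
    have hk1 : 1 ≤ k := by
      by_contra hcon
      have h0 : k = 0 := by omega
      rw [h0, pow_zero] at hk
      exact hz1 (orderOf_eq_one_iff.mp hk)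
    intro hbot
    have hmem : z ^ p ^ (k - 1) ∈ W := by
      refine ⟨P.pow_mem hzP _, ?_, ?_, ?_⟩
      · intro v hv
        exact ((show Commute v z from hzc v hv).pow_right _).eq
      · intro r hr
        exact ((show Commute r z from hzR r hr).pow_right _).eq
      · rw [← pow_mul, ← pow_succ, Nat.sub_add_cancel hk1, ← hk, pow_orderOf_eq_one]
    rw [hbot, Subgroup.mem_bot] at hmem
    have h2 := orderOf_dvd_of_pow_eq_one hmem
    rw [hk] at h2
    have h3 := (Nat.pow_dvd_pow_iff_le_right hp.one_lt).mp h2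
    omega
  obtain ⟨u, huW, hu1, hun⟩ := exists_normal_zpowers_of_abelian p (Nat.card W) W le_rfl hWn
    hWc hWp hW1 (fun g h w hw => hw.2.2.1 _ (hRc g h)) (fun g w hw => hw.2.2.1 _ (hRp g))
  exact ⟨u, huW.1, hu1, hun⟩

/-- chain of normal subgroups with cyclic steps from `⊥` to `P`. -/
theorem reach_of_verbal {p : ℕ} [Fact p.Prime] (n : ℕ) :
    ∀ (H : Type u) [Group H] [Finite H] (P : Subgroup H) [P.Normal],
    Nat.card P ≤ n → IsPGroup p P → ∀ (R : Subgroup H) [R.Normal],
    (∀ g h : H, g * h * g⁻¹ * h⁻¹ ∈ R) → (∀ g : H, g ^ (p - 1) ∈ R) →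
    (∀ r ∈ R, ∃ k : ℕ, r ^ (p ^ k) ∈ Subgroup.centralizer (P : Set H)) →
    Helper9.Reach (⊥ : Subgroup H) P := by
  induction n with
  | zero =>
    intro H _ _ P _ hcard
    have : 0 < Nat.card P := Nat.card_pos
    omega
  | succ n ih =>
    intro H _ _ P hPn hcard hP R hRn hRc hRp hR
    by_cases hP1 : P = ⊥
    · rw [hP1]; exact Helper9.Reach.refl
    · obtain ⟨u, huP, hu1, hun⟩ := exists_normal_zpowers_of_verbal P hP hP1 R hRc hRp hR
      have hNP : Subgroup.zpowers u ≤ P := Subgroup.zpowers_le.mpr huP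
      have hsurj : Function.Surjective (QuotientGroup.mk' (Subgroup.zpowers u)) :=
        QuotientGroup.mk'_surjective _
      have hPn' : (P.map (QuotientGroup.mk' (Subgroup.zpowers u))).Normal :=
        hPn.map _ hsurj
      have hRn' : (R.map (QuotientGroup.mk' (Subgroup.zpowers u))).Normal :=
        hRn.map _ hsurj
      have hcomap : (P.map (QuotientGroup.mk' (Subgroup.zpowers u))).comap
          (QuotientGroup.mk' (Subgroup.zpowers u)) = P := by
        rw [QuotientGroup.comap_map_mk', sup_eq_right.mpr hNP]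
      have hc := Helper9.card_comap_mk' (Subgroup.zpowers u)
        (P.map (QuotientGroup.mk' (Subgroup.zpowers u)))
      rw [hcomap] at hc
      have hN1 : 1 < Nat.card (Subgroup.zpowers u) := by
        rw [Nat.card_zpowers]
        have := orderOf_pos u
        have h1 : orderOf u ≠ 1 := fun h => hu1 (orderOf_eq_one_iff.mp h)
        omega
      have hcard' : Nat.card (P.map (QuotientGroup.mk' (Subgroup.zpowers u))) ≤ n := by
        have hpos : 0 < Nat.card (P.map (QuotientGroup.mk' (Subgroup.zpowers u))) :=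
          Nat.card_pos
        nlinarith
      have hreach := ih (H ⧸ Subgroup.zpowers u)
        (P.map (QuotientGroup.mk' (Subgroup.zpowers u))) hcard' (hP.map _)
        (R.map (QuotientGroup.mk' (Subgroup.zpowers u))) ?_ ?_ ?_
      · have h1 := hreach.comap _ hsurj
        rw [MonoidHom.comap_bot, QuotientGroup.ker_mk', hcomap] at h1
        exact (Helper9.reach_bot_zpowers u hun).trans h1
      · intro g h
        obtain ⟨g, rfl⟩ := hsurj g
        obtain ⟨h, rfl⟩ := hsurj h
        exact ⟨g * h * g⁻¹ * h⁻¹, hRc g h, by simp⟩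
      · intro g
        obtain ⟨g, rfl⟩ := hsurj g
        exact ⟨g ^ (p - 1), hRp g, by simp⟩
      · rintro _ ⟨r, hr, rfl⟩
        obtain ⟨k, hk⟩ := hR r hr
        refine ⟨k, ?_⟩
        rw [Subgroup.mem_centralizer_iff]
        rintro _ ⟨y, hy, rfl⟩
        have := Subgroup.mem_centralizer_iff.mp hk y hy
        rw [← map_pow, ← map_mul, ← map_mul, this]

/-- **Local lemma for S3032.** A normal `p`-subgroup `P` of a finite group `H` which is
cyclic, or all of whose subgroups of order `p ^ d` (and of order `4` if `p ^ d = 2`) are normal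
in `H`, where `1 ≤ d` and `p ^ d < |P|`, is reached from `⊥` by a chain of normal subgroups
with cyclic steps. -/
theorem reach_of_normal_subgroups {H : Type u} [Group H] [Finite H] {p : ℕ} [Fact p.Prime]
    (P : Subgroup H) [hPn : P.Normal] (hP : IsPGroup p P)
    (h : IsCyclic P ∨ ∃ d, 1 ≤ d ∧ p ^ d < Nat.card P ∧ ∀ F : Subgroup H, F ≤ P →
      (Nat.card F = p ^ d ∨ (p ^ d = 2 ∧ Nat.card F = 4)) → F.Normal) :
    Helper9.Reach (⊥ : Subgroup H) P := by
  have hp : p.Prime := Fact.out
  by_cases hP1 : P = ⊥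
  · rw [hP1]; exact Helper9.Reach.refl
  apply reach_of_verbal (p := p) (Nat.card P) H P le_rfl hP (verbal p H) (comm_mem_verbal p)
    (pow_mem_verbal p)
  intro r hr
  rcases h with hcyc | ⟨d, hd, hdP, hnorm⟩
  · obtain ⟨n, hn⟩ := IsPGroup.iff_card.mp hP
    have hn1 : 1 ≤ n := by
      by_contra hcon
      have h0 : n = 0 := by omega
      rw [h0, pow_zero] at hn
      exact hP1 (Subgroup.card_eq_one.mp hn)
    refine ⟨n - 1, ?_⟩
    have h1 := verbal_map_pow (p := p) (MulAut.conjNormal (H := P)) mulAut_comm_of_isCyclic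
      (p ^ (n - 1)) (mulAut_pow_of_card hn1 hn) r hr
    rw [← map_pow] at h1
    rw [Subgroup.mem_centralizer_iff]
    intro y hy
    have h2 := MulAut.conjNormal_apply (H := P) (r ^ p ^ (n - 1)) ⟨y, hy⟩
    rw [h1] at h2
    have h3 : y = r ^ p ^ (n - 1) * y * (r ^ p ^ (n - 1))⁻¹ := h2
    exact eq_mul_inv_iff_mul_eq.mp h3
  · obtain ⟨k, m, hm, hkm⟩ :=
      Nat.exists_eq_pow_mul_and_not_dvd (orderOf_pos r).ne' p hp.ne_one
    refine ⟨k, ?_⟩
    have hord : orderOf (r ^ (p ^ k)) = m := by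
      rw [orderOf_pow, hkm]
      have hg : Nat.gcd (p ^ k * m) (p ^ k) = p ^ k := Nat.gcd_eq_right (dvd_mul_right _ _)
      rw [hg, Nat.mul_div_cancel_left _ (pow_pos hp.pos k)]
    have hcop : (orderOf (r ^ (p ^ k))).Coprime p := by
      rw [hord]; exact ((Nat.Prime.coprime_iff_not_dvd hp).2 hm).symm
    have hzR : r ^ (p ^ k) ∈ verbal p H := Subgroup.pow_mem _ hr _
    have hc := verbal_centralizes hP hd hdP hnorm hzR hcop
    rw [Subgroup.mem_centralizer_iff]
    intro y hy
    have h5 := hc y hy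
    exact (mul_inv_eq_iff_eq_mul.mp h5).symm

end Cfsg.Agent.Lib.Helper57.HSub
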