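import Mathlib
import Cfsg.Agent.S3031
import Cfsg.Agent.Lib.Helper57.HSubD

/-!
# Supersolvability from strongly closed subgroups of fixed order (helper57)

Global part of S3032: normal `p`-complements of normal subgroups for the smallest prime.
-/

set_option autoImplicit false

namespace Cfsg.Agent.Lib.Helper57.HSub

universe u

/-- S3031 for a normal subgroup `E` of `G`: the normal `p`-complement of `E` is normal
in `G`. -/
theorem exists_normal_complement_in_normal {G : Type u} [Group G] [Finite G] (E : Subgroup G)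
    [hEn : E.Normal] {p : ℕ} [Fact p.Prime]
    (hdiv : p ∣ Nat.card E) (hmin : ∀ q : ℕ, q.Prime → q ∣ Nat.card E → p ≤ q)
    (P : Subgroup G) (hPE : P ≤ E) (hP : IsPGroup p P) (hPs : ¬ p ∣ P.relIndex E)
    (h : IsCyclic P ∨ ∃ D : Subgroup G, D ≤ P ∧ 1 < Nat.card D ∧ Nat.card D < Nat.card P ∧
      ∀ F : Subgroup G, F ≤ P → (Nat.card F = Nat.card D ∨ (Nat.card D = 2 ∧ Nat.card F = 4)) →
        ∀ g : G, F.map (MulAut.conj g).toMonoidHom ⊓ Subgroup.normalizer (F : Set G) ≤ F) :
    ∃ K : Subgroup G, K.Normal ∧ K ≤ E ∧ K ⊓ P = ⊥ ∧ K ⊔ P = E ∧ (Nat.card K).Coprime p ∧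
      Nat.card K * Nat.card P = Nat.card E := by
  have hp : p.Prime := Fact.out
  have hP'p : IsPGroup p (P.subgroupOf E) := hP.comap_subtype
  let P' : Sylow p E := hP'p.toSylow hPs
  have hP'coe : (P' : Subgroup E) = P.subgroupOf E := IsPGroup.toSylow_coe hP'p hPs
  have hcardP' : Nat.card (P' : Subgroup E) = Nat.card P := by
    rw [hP'coe]; exact Nat.card_congr (Subgroup.subgroupOfEquivOfLe hPE).toEquiv
  have h' : IsCyclic ↥(P' : Subgroup E) ∨ ∃ D : Subgroup E, D ≤ (P' : Subgroup E) ∧
      1 < Nat.card D ∧ Nat.card D < Nat.card (P' : Subgroup E) ∧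
      ∀ F : Subgroup E, F ≤ (P' : Subgroup E) →
        (Nat.card F = Nat.card D ∨ (Nat.card D = 2 ∧ Nat.card F = 4)) →
        ∀ g : E, F.map (MulAut.conj g).toMonoidHom ⊓ Subgroup.normalizer (F : Set E) ≤ F := by
    rcases h with hcyc | ⟨D, hDP, hD1, hDlt, hH⟩
    · left
      rw [hP'coe]
      exact isCyclic_of_surjective (Subgroup.subgroupOfEquivOfLe hPE).symm
        (Subgroup.subgroupOfEquivOfLe hPE).symm.surjective
    · right
      have hcardD : Nat.card (D.subgroupOf E) = Nat.card D :=
        Nat.card_congr (Subgroup.subgroupOfEquivOfLe (hDP.trans hPE)).toEquiv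
      refine ⟨D.subgroupOf E, ?_, by rw [hcardD]; exact hD1,
        by rw [hcardD, hcardP']; exact hDlt, ?_⟩
      · rw [hP'coe]
        intro x hx
        exact Subgroup.mem_subgroupOf.mpr (hDP (Subgroup.mem_subgroupOf.mp hx))
      · intro F hFP hFc g
        rw [hcardD] at hFc
        rw [hP'coe] at hFP
        have hFP' : F.map E.subtype ≤ P := by
          rintro _ ⟨f, hf, rfl⟩
          exact Subgroup.mem_subgroupOf.mp (hFP hf)
        have hFcard : Nat.card (F.map E.subtype) = Nat.card F :=
          Subgroup.card_map_of_injective E.subtype_injective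
        have hgood := hH (F.map E.subtype) hFP' (by rw [hFcard]; exact hFc) (g : G)
        rintro x ⟨⟨e, he, hx⟩, hxn⟩
        have hx' : (g : G) * (e : G) * (g : G)⁻¹ = (x : G) := by
          have := congrArg Subtype.val hx
          simpa [MulAut.conj_apply] using this
        have hmem : (x : G) ∈ (F.map E.subtype).map (MulAut.conj (g : G)).toMonoidHom ⊓
            Subgroup.normalizer ((F.map E.subtype : Subgroup G) : Set G) := by
          refine ⟨⟨(e : G), ⟨e, he, rfl⟩, by simpa [MulAut.conj_apply] using hx'⟩, ?_⟩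
          apply mem_normalizer_of_conj_mem
          rintro _ ⟨f, hf, rfl⟩
          exact ⟨x * f * x⁻¹, (Subgroup.mem_normalizer_iff.mp hxn f).1 hf, by simp⟩
        obtain ⟨w, hw, hwx⟩ := hgood hmem
        have hwx' : w = x := Subtype.ext hwx
        exact hwx' ▸ hw
  obtain ⟨P'', N, hNn, hNc⟩ := Cfsg.Agent.S3031.result hdiv hmin P' h'
  have hcardP'' : Nat.card (P'' : Subgroup E) = Nat.card P := by
    rw [Sylow.card_eq_multiplicity, ← hcardP', Sylow.card_eq_multiplicity]
  have hmul : Nat.card N * Nat.card P = Nat.card E := by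
    rw [← hcardP'']; exact hNc.card_mul_card
  have hNcop : (Nat.card N).Coprime p := by
    rw [Nat.coprime_comm, Nat.Prime.coprime_iff_not_dvd hp]
    intro hdvd
    have h1 := (P'' : Subgroup E).card_mul_index
    have h2 := hNc.card_mul_card
    have h3 : Nat.card N = (P'' : Subgroup E).index := by
      have hpos : 0 < Nat.card (P'' : Subgroup E) := Nat.card_pos
      apply Nat.eq_of_mul_eq_mul_right hpos
      rw [h2, mul_comm, h1]
    exact P''.not_dvd_index (h3 ▸ hdvd)
  have hKcard : Nat.card (N.map E.subtype) = Nat.card N :=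
    Subgroup.card_map_of_injective E.subtype_injective
  have hKE : N.map E.subtype ≤ E := Subgroup.map_subtype_le N
  have hKcop : (Nat.card (N.map E.subtype)).Coprime p := by rw [hKcard]; exact hNcop
  obtain ⟨n, hn⟩ := IsPGroup.iff_card.mp hP
  have hKP : (Nat.card (N.map E.subtype)).Coprime (Nat.card P) := by
    rw [hn]; exact Nat.Coprime.pow_right _ hKcop
  have hinf : N.map E.subtype ⊓ P = ⊥ := (Subgroup.disjoint_of_coprime_natCard hKP).eq_bot
  have hsup : N.map E.subtype ⊔ P = E := by
    apply Subgroup.eq_of_le_of_card_ge (sup_le hKE hPE)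
    have h1 : Nat.card (N.map E.subtype) * Nat.card P ∣
        Nat.card (N.map E.subtype ⊔ P : Subgroup G) :=
      Nat.Coprime.mul_dvd_of_dvd_of_dvd hKP (Subgroup.card_dvd_of_le le_sup_left)
        (Subgroup.card_dvd_of_le le_sup_right)
    rw [hKcard, hmul] at h1
    exact Nat.le_of_dvd Nat.card_pos h1
  have hchar : ∀ x ∈ E, (orderOf x).Coprime p → x ∈ N.map E.subtype := by
    intro x hx hcop
    have hq : Nat.card (E ⧸ N) = Nat.card P := by
      have h1 := Subgroup.card_eq_card_quotient_mul_card_subgroup N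
      have hpos : 0 < Nat.card N := Nat.card_pos
      apply Nat.eq_of_mul_eq_mul_right hpos
      rw [← h1, mul_comm, hmul]
    have h2 : orderOf (QuotientGroup.mk' N ⟨x, hx⟩) ∣ p ^ n := by
      rw [← hn, ← hq]; exact orderOf_dvd_natCard _
    have h3 : orderOf (QuotientGroup.mk' N ⟨x, hx⟩) ∣ orderOf x := by
      have := orderOf_map_dvd (QuotientGroup.mk' N) (⟨x, hx⟩ : E)
      rwa [Subgroup.orderOf_mk] at this
    have h4 : orderOf (QuotientGroup.mk' N ⟨x, hx⟩) = 1 :=
      Nat.eq_one_of_dvd_coprimes (Nat.Coprime.pow_right n hcop) h3 h2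
    have h5 : (⟨x, hx⟩ : E) ∈ N := (QuotientGroup.eq_one_iff _).mp (orderOf_eq_one_iff.mp h4)
    exact ⟨⟨x, hx⟩, h5, rfl⟩
  have hKn : (N.map E.subtype).Normal := by
    constructor
    intro k hk g
    apply hchar _ (hEn.conj_mem k (hKE hk) g)
    rw [Helper2.orderOf_conj_eq]
    exact Nat.Coprime.coprime_dvd_left (Subgroup.orderOf_dvd_natCard _ hk) hKcop
  exact ⟨N.map E.subtype, hKn, hKE, hinf, hsup, hKcop, by rw [hKcard]; exact hmul⟩

/-- a subgroup normal in `H`, joined with a normal subgroup `K` such that `H ⊔ K = ⊤`, is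
normal. -/
theorem normal_sup_map {G : Type u} [Group G] [Finite G] (H K : Subgroup G) [hK : K.Normal]
    (htop : H ⊔ K = ⊤) (Y : Subgroup H) [hY : Y.Normal] : (K ⊔ Y.map H.subtype).Normal := by
  apply Subgroup.normalizer_eq_top_iff.mp
  rw [eq_top_iff, ← htop]
  apply sup_le
  · intro x hx
    apply mem_normalizer_sup
    · exact mem_normalizer_of_conj_mem (fun k hk => hK.conj_mem k hk x)
    · apply mem_normalizer_of_conj_mem
      rintro _ ⟨y, hy, rfl⟩
      exact ⟨⟨x, hx⟩ * y * (⟨x, hx⟩ : H)⁻¹, hY.conj_mem y hy ⟨x, hx⟩, rfl⟩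
  · exact le_sup_left.trans Subgroup.le_normalizer

/-- a chain in `H` gives a chain in `G` above `K`. -/
theorem reach_sup_map {G : Type u} [Group G] [Finite G] (H K : Subgroup G) [hK : K.Normal]
    (htop : H ⊔ K = ⊤) {X : Subgroup H} (hX : Helper9.Reach (⊥ : Subgroup H) X) :
    Helper9.Reach K (K ⊔ X.map H.subtype) := by
  induction hX with
  | refl =>
    rw [Subgroup.map_bot, sup_bot_eq]
    exact Helper9.Reach.refl
  | step X g _ hn ih =>
    have h1 : (K ⊔ (X ⊔ Subgroup.zpowers g).map H.subtype).Normal :=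
      normal_sup_map H K htop (X ⊔ Subgroup.zpowers g)
    rw [Subgroup.map_sup, MonoidHom.map_zpowers, ← sup_assoc] at h1 ⊢
    exact Helper9.Reach.step _ _ ih h1

/-- **Lemma M.** A normal subgroup `E` satisfying the hypothesis of S3032 is reached from `⊥`
by a chain of normal subgroups of `G` with cyclic steps. -/
theorem reach_of_hyp {G : Type u} [Group G] [Finite G] (n : ℕ) :
    ∀ (E : Subgroup G), E.Normal → Nat.card E ≤ n →
    (∀ (p : ℕ), p.Prime → ∀ P : Subgroup G, P ≤ E → IsPGroup p P → ¬ p ∣ P.relIndex E →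
      ¬ IsCyclic ↥P →
      ∃ D : Subgroup G, D ≤ P ∧ 1 < Nat.card D ∧ Nat.card D < Nat.card P ∧
        ∀ F : Subgroup G, F ≤ P → (Nat.card F = Nat.card D ∨ (Nat.card D = 2 ∧ Nat.card F = 4)) →
          ∀ g : G, F.map (MulAut.conj g).toMonoidHom ⊓ Subgroup.normalizer (F : Set G) ≤ F) →
    Helper9.Reach (⊥ : Subgroup G) E := by
  induction n with
  | zero =>
    intro E _ hcard
    have : 0 < Nat.card E := Nat.card_pos
    omega
  | succ n ih =>
    intro E hEn hcard hyp
    by_cases hE1 : E = ⊥
    · rw [hE1]; exact Helper9.Reach.refl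
    have hcE : Nat.card E ≠ 1 := fun h => hE1 (Subgroup.card_eq_one.mp h)
    have hp : (Nat.card E).minFac.Prime := Nat.minFac_prime hcE
    have hpf : Fact (Nat.card E).minFac.Prime := ⟨hp⟩
    have hdiv : (Nat.card E).minFac ∣ Nat.card E := Nat.minFac_dvd _
    have hmin : ∀ q : ℕ, q.Prime → q ∣ Nat.card E → (Nat.card E).minFac ≤ q :=
      fun q hq hqd => Nat.minFac_le_of_dvd hq.two_le hqd
    generalize (Nat.card E).minFac = p at hp hpf hdiv hmin
    obtain ⟨P₀⟩ := (inferInstance : Nonempty (Sylow p E))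
    have hPE : (P₀ : Subgroup E).map E.subtype ≤ E := Subgroup.map_subtype_le _
    have hP : IsPGroup p ((P₀ : Subgroup E).map E.subtype) := P₀.2.map _
    have hPs : ¬ p ∣ ((P₀ : Subgroup E).map E.subtype).relIndex E := by
      have h1 : ((P₀ : Subgroup E).map E.subtype).subgroupOf E = (P₀ : Subgroup E) :=
        Subgroup.comap_map_eq_self_of_injective E.subtype_injective _
      show ¬ p ∣ (((P₀ : Subgroup E).map E.subtype).subgroupOf E).index
      rw [h1]
      exact P₀.not_dvd_index
    have hFrat : Subgroup.normalizer (((P₀ : Subgroup E).map E.subtype : Subgroup G) : Set G) ⊔ E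
        = ⊤ := Sylow.normalizer_sup_eq_top P₀
    generalize (P₀ : Subgroup E).map E.subtype = P at hPE hP hPs hFrat
    have h : IsCyclic P ∨ ∃ D : Subgroup G, D ≤ P ∧ 1 < Nat.card D ∧ Nat.card D < Nat.card P ∧
        ∀ F : Subgroup G, F ≤ P →
          (Nat.card F = Nat.card D ∨ (Nat.card D = 2 ∧ Nat.card F = 4)) →
          ∀ g : G, F.map (MulAut.conj g).toMonoidHom ⊓ Subgroup.normalizer (F : Set G) ≤ F := by
      by_cases hc : IsCyclic P
      · exact Or.inl hc
      · exact Or.inr (hyp p hp P hPE hP hPs hc)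
    obtain ⟨K, hKn, hKE, hinf, hsup, hKcop, hKmul⟩ :=
      exists_normal_complement_in_normal E hdiv hmin P hPE hP hPs h
    obtain ⟨m, hm⟩ := IsPGroup.iff_card.mp hP
    -- `K` is smaller than `E`
    have hKlt : Nat.card K ≤ n := by
      by_contra hcon
      have hKeq : K = E := Subgroup.eq_of_le_of_card_ge hKE (by omega)
      rw [hKeq] at hKcop
      exact hp.one_lt.ne' (Nat.dvd_one.mp (hKcop ▸ Nat.dvd_gcd hdiv dvd_rfl))
    -- index of `K` in `E`
    have hKidx : K.relIndex E = p ^ m := by
      have h1 := Subgroup.relIndex_mul_relIndex (⊥ : Subgroup G) K E bot_le hKE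
      rw [Subgroup.relIndex_bot_left, Subgroup.relIndex_bot_left, ← hKmul] at h1
      have hpos : 0 < Nat.card K := Nat.card_pos
      rw [← hm]
      exact Nat.eq_of_mul_eq_mul_left hpos h1
    -- hypothesis for `K`
    have hypK : ∀ (r : ℕ), r.Prime → ∀ X : Subgroup G, X ≤ K → IsPGroup r X →
        ¬ r ∣ X.relIndex K → ¬ IsCyclic ↥X →
        ∃ D : Subgroup G, D ≤ X ∧ 1 < Nat.card D ∧ Nat.card D < Nat.card X ∧
          ∀ F : Subgroup G, F ≤ X →
            (Nat.card F = Nat.card D ∨ (Nat.card D = 2 ∧ Nat.card F = 4)) →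
            ∀ g : G, F.map (MulAut.conj g).toMonoidHom ⊓ Subgroup.normalizer (F : Set G) ≤ F := by
      intro r hr X hXK hX hXs hXc
      by_cases hrp : r = p
      · exfalso
        apply hXc
        subst hrp
        have hrf : Fact r.Prime := ⟨hr⟩
        obtain ⟨j, hj⟩ := IsPGroup.iff_card.mp hX
        have h1 : Nat.card X ∣ Nat.card K := Subgroup.card_dvd_of_le hXK
        have h2 : Nat.card X = 1 :=
          Nat.eq_one_of_dvd_coprimes (by rw [hj]; exact Nat.Coprime.pow_right _ hKcop) h1 dvd_rfl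
        have := (Nat.card_eq_one_iff_unique.mp h2).1
        exact isCyclic_of_subsingleton
      · apply hyp r hr X (hXK.trans hKE) hX _ hXc
        rw [← Subgroup.relIndex_mul_relIndex X K E hXK hKE, hKidx]
        intro hdvd
        rcases (Nat.Prime.dvd_mul hr).mp hdvd with h1 | h1
        · exact hXs h1
        · exact hrp ((Nat.prime_dvd_prime_iff_eq hr hp).mp (hr.dvd_of_dvd_pow h1))
    have hreachK : Helper9.Reach (⊥ : Subgroup G) K := ih K hKn hKlt hypK
    -- the chain from `K` to `E`
    have hPH : P ≤ Subgroup.normalizer (P : Set G) := Subgroup.le_normalizer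
    have htop : Subgroup.normalizer (P : Set G) ⊔ K = ⊤ := by
      rw [← hFrat, ← hsup, sup_comm K P, ← sup_assoc, sup_eq_left.mpr hPH]
    have hPHn : (P.subgroupOf (Subgroup.normalizer (P : Set G))).Normal :=
      Subgroup.normal_in_normalizer
    have hPHp : IsPGroup p (P.subgroupOf (Subgroup.normalizer (P : Set G))) := hP.comap_subtype
    have hPHcard : Nat.card (P.subgroupOf (Subgroup.normalizer (P : Set G))) = Nat.card P :=
      Nat.card_congr (Subgroup.subgroupOfEquivOfLe hPH).toEquiv
    have hloc : IsCyclic (P.subgroupOf (Subgroup.normalizer (P : Set G))) ∨ ∃ d, 1 ≤ d ∧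
        p ^ d < Nat.card (P.subgroupOf (Subgroup.normalizer (P : Set G))) ∧
        ∀ F : Subgroup (Subgroup.normalizer (P : Set G)),
          F ≤ P.subgroupOf (Subgroup.normalizer (P : Set G)) →
          (Nat.card F = p ^ d ∨ (p ^ d = 2 ∧ Nat.card F = 4)) → F.Normal := by
      rcases h with hcyc | ⟨D, hDP, hD1, hDlt, hH⟩
      · left
        exact isCyclic_of_surjective (Subgroup.subgroupOfEquivOfLe hPH).symm
          (Subgroup.subgroupOfEquivOfLe hPH).symm.surjective
      · right
        obtain ⟨d, hd⟩ := IsPGroup.iff_card.mp (hP.to_le hDP)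
        rw [hd] at hD1 hDlt hH
        have hd1 : 1 ≤ d := by
          by_contra hcon
          have h0 : d = 0 := by omega
          rw [h0] at hD1
          simp at hD1
        refine ⟨d, hd1, by rw [hPHcard]; exact hDlt, ?_⟩
        intro F hFP hFc
        have hFP' : F.map (Subgroup.normalizer (P : Set G)).subtype ≤ P := by
          rintro _ ⟨f, hf, rfl⟩
          exact Subgroup.mem_subgroupOf.mp (hFP hf)
        have hFcard : Nat.card (F.map (Subgroup.normalizer (P : Set G)).subtype) = Nat.card F :=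
          Subgroup.card_map_of_injective (Subgroup.subtype_injective _)
        have hgood := hH (F.map (Subgroup.normalizer (P : Set G)).subtype) hFP'
          (by rw [hFcard]; exact hFc)
        constructor
        intro f hf x
        have hfP : (f : G) ∈ P := Subgroup.mem_subgroupOf.mp (hFP hf)
        have hxf : (x : G) * (f : G) * (x : G)⁻¹ ∈ P :=
          (Subgroup.mem_normalizer_iff.mp x.2 (f : G)).1 hfP
        have h1 := sc_of_good hP hFP' hgood (⟨f, hf, rfl⟩ :
          (f : G) ∈ F.map (Subgroup.normalizer (P : Set G)).subtype) hxf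
        obtain ⟨w, hw, hwe⟩ := h1
        have hwe' : w = x * f * x⁻¹ := Subtype.ext hwe
        exact hwe' ▸ hw
    have hreachP := reach_of_normal_subgroups (P.subgroupOf (Subgroup.normalizer (P : Set G)))
      hPHp hloc
    have h2 := reach_sup_map (Subgroup.normalizer (P : Set G)) K htop hreachP
    rw [Subgroup.subgroupOf_map_subtype, inf_eq_left.mpr hPH, hsup] at h2
    exact hreachK.trans h2

/-- S3032 in library form. -/
theorem isSupersolvable_of_hyp {G : Type u} [Group G] [Finite G] (E : Subgroup G) [hE : E.Normal]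
    (hGE : Cfsg.IsSupersolvable (G ⧸ E))
    (h : ∀ (p : ℕ), p.Prime → ∀ P : Subgroup G, P ≤ E → IsPGroup p P → ¬ p ∣ P.relIndex E →
      ¬ IsCyclic ↥P →
      ∃ D : Subgroup G, D ≤ P ∧ 1 < Nat.card D ∧ Nat.card D < Nat.card P ∧
        ∀ F : Subgroup G, F ≤ P → (Nat.card F = Nat.card D ∨ (Nat.card D = 2 ∧ Nat.card F = 4)) →
          ∀ g : G, F.map (MulAut.conj g).toMonoidHom ⊓ Subgroup.normalizer (F : Set G) ≤ F) :
    Cfsg.IsSupersolvable G := by
  have hreach := reach_of_hyp (Nat.card E) E hE le_rfl h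
  apply Helper9.isSupersolvable_of_reach_ker (QuotientGroup.mk' E)
    (QuotientGroup.mk'_surjective E) hGE
  rw [QuotientGroup.ker_mk']
  exact hreach

end Cfsg.Agent.Lib.Helper57.HSub
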